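import Cfsg.Agent.H7.PSLApi
import Cfsg.Agent.H4.SL2Hall
import Cfsg.Agent.FT.A_Hall

/-! Automorphisms of `L₂(q)` of odd prime power order centralising a Sylow subgroup. -/

set_option autoImplicit false

namespace CfsgAG

open Subgroup CfsgFT CfsgH7 CfsgH1 Matrix
open scoped MatrixGroups

/-- `r`-automorphisms centralising an abelian Sylow `r`-subgroup are inner -/
def InnS (G : Type*) [Group G] (r : ℕ) : Prop :=
  ∀ (α : MulAut G) (k : ℕ), α ^ r ^ k = 1 → ∀ R : Subgroup G, IsSylowIn r R ⊤ → R ≤ 𝒞 R →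
    (∀ x ∈ R, α x = x) → α ∈ (MulAut.conj : G →* MulAut G).range

theorem InnS.tr {G G' : Type*} [Group G] [Group G'] [Finite G] {r : ℕ} [Fact r.Prime]
    (h : InnS G' r) (e : G ≃* G') : InnS G r := by
  intro α k hα R hR hc hf
  obtain ⟨g, hg⟩ := h (MulAut.congr e α) k (by rw [← map_pow, hα, map_one]) (R.map e.toMonoidHom)
    (hR.map_top e.surjective) (by
      rintro _ ⟨a, ha, rfl⟩ _ ⟨b, hb, rfl⟩
      rw [← _root_.map_mul, ← _root_.map_mul, hc ha b hb]) (by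
      rintro _ ⟨a, ha, rfl⟩
      simp [hf a ha])
  refine ⟨e.symm g, MulEquiv.ext fun x => e.injective ?_⟩
  simpa using DFunLike.congr_fun hg (e x)

theorem lte_dvd {r a j : ℕ} (hr : r.Prime) (ha : 1 ≤ a)
    (h : r ∣ a ^ r ^ (j + 1) * ((a ^ r ^ (j + 1)) ^ 2 - 1)) :
    r * (a * (a ^ 2 - 1)) ∣ a ^ r ^ (j + 1) * ((a ^ r ^ (j + 1)) ^ 2 - 1) := by
  have := Fact.mk hr
  set m := r ^ (j + 1) with hm
  have h1 : 2 ≤ m := hr.two_le.trans (Nat.le_self_pow (by omega) r)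
  have h2 : 1 ≤ a ^ 2 := Nat.one_le_pow _ _ ha
  have h3 : (a ^ m) ^ 2 - 1 = (∑ i ∈ Finset.range m, (a ^ 2) ^ i) * (a ^ 2 - 1) := by
    rw [← pow_mul, mul_comm m, pow_mul, geom_sum_mul_of_one_le h2]
  rw [h3] at h ⊢
  rw [← mul_assoc, ← mul_assoc]
  refine Nat.mul_dvd_mul_right ?_ _
  by_cases h4 : r ∣ a
  · exact Dvd.dvd.mul_right ((Nat.mul_dvd_mul_right h4 a).trans (sq a ▸ pow_dvd_pow a h1)) _
  rw [mul_comm r]
  refine Nat.mul_dvd_mul (dvd_pow_self a (by omega)) ?_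
  rw [← h3] at h
  have h5 := (hr.dvd_mul.1 h).resolve_left (mt hr.dvd_of_dvd_pow h4)
  rw [← ZMod.natCast_eq_zero_iff, Nat.cast_sub (Nat.one_le_pow _ _ (Nat.pow_pos ha)), sub_eq_zero] at h5
  push_cast at h5
  rw [hm, ZMod.pow_card_pow] at h5
  rw [← ZMod.natCast_eq_zero_iff]
  push_cast
  simp [h5, hm]

theorem inf_sylow_sup {G : Type*} [Group G] [Finite G] {r : ℕ} [Fact r.Prime] {R L : Subgroup G}
    (hR : IsSylowIn r R L) {v : G} (hv : v ∈ 𝒩 L) (h2 : IsPGroup r (zpowers v)) (hvR : v ∈ 𝒩 R) :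
    IsSylowIn r (R ⊔ zpowers v) (L ⊔ zpowers v) := by
  refine ⟨sup_le_sup_right hR.1 _, hR.2.to_sup_of_normal_left' h2 (zpowers_le.2 hvR),
    fun h => hR.3 ?_⟩
  have e : L ⊔ zpowers v = (R ⊔ zpowers v) ⊔ L := by
    rw [sup_comm R, sup_assoc, sup_eq_right.2 hR.1, sup_comm]
  rw [e, relIndex_sup_of_le_normalizer'
    (sup_le (hR.1.trans le_normalizer) (zpowers_le.2 hv))] at h
  exact h.trans (relIndex_dvd_of_le_left L le_sup_left)

theorem conj_conj {G : Type*} [Group G] (β : MulAut G) (x : G) :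
    β * MulAut.conj x * β⁻¹ = MulAut.conj (β x) := by
  ext y; simp

instance inn_normal {G : Type*} [Group G] : (MulAut.conj : G →* MulAut G).range.Normal :=
  ⟨by rintro _ ⟨x, rfl⟩ β; exact ⟨β x, (conj_conj β x).symm⟩⟩

/-- an `r`-element of `Inn(G) ⟨α⟩` centralises a Sylow `r`-subgroup -/
theorem exists_fixed {G : Type*} [Group G] [Finite G] {r : ℕ} [Fact r.Prime]
    (hi : Function.Injective (MulAut.conj : G →* MulAut G)) {α φ : MulAut G} {k l : ℕ}
    (hα : α ^ r ^ k = 1) {R : Subgroup G} (hR : IsSylowIn r R ⊤) (hc : R ≤ 𝒞 R)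
    (hf : ∀ x ∈ R, α x = x) (hφ : φ ^ r ^ l = 1)
    (hm : φ ∈ (MulAut.conj : G →* MulAut G).range ⊔ zpowers α) :
    ∃ R' : Subgroup G, IsSylowIn r R' ⊤ ∧ ∀ x ∈ R', φ x = x := by
  have h1 := hR.map (MulAut.conj : G →* MulAut G)
  rw [← MonoidHom.range_eq_map] at h1
  have h2 : R.map MulAut.conj ⊔ zpowers α ≤ 𝒞 (R.map (MulAut.conj : G →* MulAut G)) := by
    refine sup_le ?_ (zpowers_le.2 ?_)
    · rintro _ ⟨a, ha, rfl⟩ _ ⟨b, hb, rfl⟩
      rw [← _root_.map_mul, ← _root_.map_mul, hc ha b hb]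
    · rintro _ ⟨b, hb, rfl⟩
      rw [eq_comm, ← mul_inv_eq_iff_eq_mul, conj_conj, hf b hb]
  obtain ⟨g, -, hg⟩ := (inf_sylow_sup h1 (le_normalizer_of_normal (mem_top α)) (isPGroup_zpowers hα)
    (centralizer_le_normalizer _ (h2 (mem_sup_right (mem_zpowers α))))).exists_cj_le
    (isPGroup_zpowers hφ) (zpowers_le.2 hm)
  refine ⟨R.map g⁻¹.toMonoidHom, hR.map_top (g⁻¹).surjective, ?_⟩
  rintro _ ⟨x, hx, rfl⟩
  have h3 := h2 (hg (conj_mem_cj g (mem_zpowers φ))) _ ⟨x, hx, rfl⟩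
  rw [eq_comm, ← mul_inv_eq_iff_eq_mul, conj_conj] at h3
  have h4 := hi h3
  exact g.injective (by simpa using h4)

variable {F : Type*} [Field F] [Fintype F]

omit [Fintype F] in
theorem center_sq {z : SL(2, F)} (hz : z ∈ center SL(2, F)) : z * z = 1 := by
  obtain ⟨c, hc, e⟩ := Matrix.SpecialLinearGroup.mem_center_iff.1 hz
  refine Subtype.ext ?_
  rw [Matrix.SpecialLinearGroup.coe_mul, ← e, ← _root_.map_mul, ← sq]
  simp only [Fintype.card_fin] at hc
  rw [hc, map_one, Matrix.SpecialLinearGroup.coe_one]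

theorem card_dvd_of_fixed {τ : F ≃+* F} {R : Subgroup PSL(2, F)} (ho : Odd #R)
    (hf : ∀ x ∈ R, fieldPSL τ x = x) :
    #R ∣ Nat.card (fixF τ) * (Nat.card (fixF τ) ^ 2 - 1) := by
  have := Fintype.ofFinite (fixF τ)
  let f : SL(2, fixF τ) →* PSL(2, F) :=
    (QuotientGroup.mk' _).comp (SpecialLinearGroup.map (fixF τ).subtype)
  rw [Nat.card_eq_fintype_card (α := fixF τ), ← CfsgH4.SL2.card_SL2]
  refine (card_dvd_of_le (H := R) (K := f.range) fun x hx => ?_).trans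
    (card_dvd_of_surjective _ f.rangeRestrict_surjective)
  refine mem_of_pow_mem_of_coprime (n := 2) (Nat.coprime_two_right.2
    (ho.of_dvd_nat (R.orderOf_dvd_natCard hx))) ?_
  obtain ⟨M, rfl⟩ := QuotientGroup.mk_surjective x
  have h1 := hf _ hx
  rw [fieldPSL_mk, QuotientGroup.eq] at h1
  have h2 : mapSL τ (M * M) = M * M := by
    have h3 : M = mapSL τ M * ((mapSL τ M)⁻¹ * M) := by group
    rw [_root_.map_mul]
    generalize (mapSL τ M)⁻¹ * M = z at h1 h3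
    generalize mapSL τ M = N at h3
    rw [h3, mul_assoc, ← mul_assoc z, ← mem_center_iff.1 h1 N, mul_assoc N z, center_sq h1, mul_one]
  have h3 : ∀ i j, (M * M).1 i j ∈ fixF τ := fun i j =>
    mem_fixF.2 (congrArg (fun A : SL(2, F) => A.1 i j) h2)
  refine ⟨⟨Matrix.of fun i j => ⟨_, h3 i j⟩, (fixF τ).subtype_injective ?_⟩, ?_⟩
  · rw [RingHom.map_det, map_one]
    exact (M * M).2
  · rw [pow_two, ← QuotientGroup.mk_mul]
    rfl

theorem sq_mem_inn (g : GL (Fin 2) F) (σ : F ≃+* F) :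
    diagPSL (g * mapGL' σ g) ∈ (MulAut.conj : PSL(2, F) →* _).range := by
  classical
  refine diagPSL_mem_inn_iff.2 ?_
  have h1 : IsSquare ((g : Matrix (Fin 2) (Fin 2) F).det * σ (g : Matrix (Fin 2) (Fin 2) F).det) := by
    have h0 : (g : Matrix (Fin 2) (Fin 2) F).det ≠ 0 := g.det_ne_zero
    generalize (g : Matrix (Fin 2) (Fin 2) F).det = d at h0
    by_cases h : IsSquare d
    · exact h.mul (h.map σ)
    have h' : ¬ IsSquare (σ d) := fun e => h (by simpa using e.map σ.symm)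
    rw [← quadraticChar_one_iff_isSquare (mul_ne_zero h0 (by simpa using h0)), _root_.map_mul,
      quadraticChar_neg_one_iff_not_isSquare.2 h, quadraticChar_neg_one_iff_not_isSquare.2 h']
    norm_num
  obtain ⟨c, hc⟩ := h1
  have h2 : ((GeneralLinearGroup.det (g * mapGL' σ g) : Fˣ) : F) = c * c := by
    rw [← hc, _root_.map_mul, Units.val_mul]
    congr 1
    exact (RingHom.map_det (σ : F →+* F) _).symm
  refine ⟨Units.mk0 c fun e => (GeneralLinearGroup.det (g * mapGL' σ g)).ne_zero (by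
    rw [h2, e, mul_zero]), Units.ext (Eq.trans ?_ h2.symm)⟩
  simp [sq]

theorem innS_psl {r : ℕ} [hr : Fact r.Prime] (hr2 : r ≠ 2) (hd : r ∣ Nat.card PSL(2, F))
    (hi : Function.Injective (MulAut.conj : PSL(2, F) →* _)) : InnS PSL(2, F) r := by
  intro α k hα R hR hc hf
  obtain ⟨g, σ, rfl⟩ := aut_psl_two α
  have ho : ∀ n, (r ^ n).Coprime 2 := fun n => Nat.coprime_two_right.2 (hr.out.odd_of_ne_two hr2).pow
  have h1 : (diagPSL g * fieldPSL σ) ^ 2 = diagPSL (g * mapGL' σ g) * fieldPSL (σ ^ 2) := by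
    rw [pow_two, pow_two, _root_.map_mul, _root_.map_mul, mul_assoc, mul_assoc, ← mul_assoc (fieldPSL σ),
      fieldPSL_diagPSL, mul_assoc]
  have h2 : σ ^ r ^ k = 1 := by
    have := diagPSL_range_normal (F := F) (n := 2) le_rfl
    have h3 := congrArg (QuotientGroup.mk' (diagPSL : GL (Fin 2) F →* _).range) hα
    rw [map_pow, _root_.map_mul, (QuotientGroup.mk'_apply _ _).trans
      ((QuotientGroup.eq_one_iff _).2 (MonoidHom.mem_range.2 ⟨g, rfl⟩)), one_mul, ← map_pow, ← map_pow, map_one] at h3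
    obtain ⟨g', e⟩ := (QuotientGroup.eq_one_iff _).1 h3
    exact diag_field_unique (g := 1) (h := g') (by rw [map_one, map_one, one_mul, mul_one, e])
  refine mem_of_pow_mem_of_coprime (n := 2) ((ho k).coprime_dvd_left (orderOf_dvd_of_pow_eq_one hα)) ?_
  by_cases h0 : σ ^ 2 = 1
  · rw [h1, h0, map_one, mul_one]
    exact sq_mem_inn g σ
  exfalso
  have h3 : (σ ^ 2) ^ r ^ k = 1 := by rw [← pow_mul, mul_comm, pow_mul, h2, one_pow]
  obtain ⟨R', h4, h5⟩ := exists_fixed hi hα hR hc hf (φ := fieldPSL (σ ^ 2)) (l := k)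
    (by rw [← map_pow, h3, map_one]) (by
      rw [← mul_mem_cancel_left (mem_sup_left (sq_mem_inn g σ)), ← h1]
      exact mem_sup_right (pow_mem (mem_zpowers _) 2))
  obtain ⟨e, he⟩ := IsPGroup.iff_card.1 h4.pgroup
  have h6 := card_dvd_of_fixed (he ▸ Nat.coprime_two_right.1 (ho e)) h5
  obtain ⟨j, -, hj⟩ := (Nat.dvd_prime_pow hr.out).1 (orderOf_dvd_of_pow_eq_one h3)
  obtain _ | j := j
  · exact h0 (orderOf_eq_one_iff.1 hj)
  have h7 := card_eq_card_quotient_mul_card_subgroup (center SL(2, F))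
  have h8 := hd.trans (Dvd.intro _ h7.symm)
  rw [CfsgH4.SL2.card_SL2, ← Nat.card_eq_fintype_card, card_fixF (σ ^ 2), hj] at h7 h8
  have h9 := (Nat.mul_dvd_mul_left r h6).trans (lte_dvd hr.out Nat.card_pos h8)
  rw [h7, show Nat.card (SL(2, F) ⧸ center SL(2, F)) = #R' * R'.index from (card_mul_index R').symm,
    mul_comm r, mul_assoc, Nat.mul_dvd_mul_iff_left Nat.card_pos] at h9
  rcases hr.out.dvd_mul.1 h9 with h | h
  · exact h4.not_dvd (by rwa [relIndex_top_right])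
  · obtain ⟨z, hz⟩ := exists_prime_orderOf_dvd_card' r h
    exact hr2 ((Nat.prime_dvd_prime_iff_eq hr.out Nat.prime_two).1 (hz ▸ orderOf_dvd_of_pow_eq_one
      (Subtype.ext ((pow_two _).trans (center_sq z.2)))))

end CfsgAG
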