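import Cfsg.Agent.AG.GW2

/-! WP GW: simple A-groups with Sylow 2-subgroups of order four. -/

set_option autoImplicit false

namespace CfsgAG

open Subgroup CfsgFT CfsgL0
open scoped commutatorElement

universe u

namespace GW

open W1

section
variable {G : Type*} [Group G] [Finite G]

theorem count_cosets {E C K N : Subgroup G}
    (h : ∀ e ∈ E, ∀ x ∈ K, ∀ y ∈ K, x ∉ N → x⁻¹ * e * y ∈ N → e ∈ C) :
    C.relIndex E * (N.relIndex K - 1) ≤ N.index := by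
  classical
  let φ : (E ⧸ C.subgroupOf E) × {y : K ⧸ N.subgroupOf K // y ≠ ((1 : K) : K ⧸ N.subgroupOf K)} →
      G ⧸ N := fun z => (((z.1.out : G) * (z.2.1.out : G) : G) : G ⧸ N)
  have hφ : Function.Injective φ := by
    rintro ⟨a, x, hx⟩ ⟨b, y, hy⟩ e
    have e1 : ((a.out : G) * (x.out : G))⁻¹ * ((b.out : G) * (y.out : G)) ∈ N :=
      QuotientGroup.eq.1 e
    have hxN : (x.out : G) ∉ N := fun hh => hx (by
      rw [← x.out_eq']
      exact QuotientGroup.eq.2 (by simpa [mem_subgroupOf] using hh))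
    have e2 : a = b := by
      rw [← a.out_eq', ← b.out_eq']
      refine QuotientGroup.eq.2 (mem_subgroupOf.2 (h _ (a.out⁻¹ * b.out).2 _ x.out.2 _ y.out.2 hxN ?_))
      simpa [mul_assoc] using e1
    subst e2
    have e3 : x = y := by
      rw [← x.out_eq', ← y.out_eq']
      refine QuotientGroup.eq.2 (mem_subgroupOf.2 ?_)
      simpa [mul_assoc] using e1
    subst e3
    rfl
  have c := Nat.card_le_card_of_injective φ hφ
  rw [Nat.card_prod] at c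
  have c2 : Nat.card {y : K ⧸ N.subgroupOf K // y ≠ ((1 : K) : K ⧸ N.subgroupOf K)} + 1 =
      N.relIndex K := by
    rw [← Finite.card_option]
    exact Nat.card_congr (Equiv.optionSubtypeNe _)
  rw [← c2, Nat.add_sub_cancel]
  exact c

theorem arith {a n w u i g : ℕ} (ha : 3 ≤ a) (hn : 2 ≤ n) (hna : n ≤ a + 1) (hw : 6 * a ^ 2 ≤ w)
    (hu : 0 < u) (h1 : w * (n - 1) * (w * (4 * a) * u) ≤ g) (h2 : g = i * (4 * (n * (a * u))))
    (h3 : i ≤ 15 * (n * a) ^ 2) : False := by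
  obtain ⟨m, rfl⟩ : ∃ m, n = m + 1 := ⟨n - 1, by omega⟩
  rw [Nat.add_sub_cancel] at h1
  have a1 : (4 * a * u) * (w ^ 2 * m) ≤ (4 * a * u) * (15 * (m + 1) ^ 3 * a ^ 2) := by
    calc (4 * a * u) * (w ^ 2 * m) = w * m * (w * (4 * a) * u) := by ring
      _ ≤ i * (4 * ((m + 1) * (a * u))) := h2 ▸ h1
      _ ≤ 15 * ((m + 1) * a) ^ 2 * (4 * ((m + 1) * (a * u))) := Nat.mul_le_mul_right _ h3
      _ = _ := by ring
  have a2 := Nat.le_of_mul_le_mul_left a1 (by positivity)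
  have a3 : a ^ 2 * (36 * a ^ 2 * m) ≤ a ^ 2 * (15 * (m + 1) ^ 3) := by
    calc a ^ 2 * (36 * a ^ 2 * m) = (6 * a ^ 2) ^ 2 * m := by ring
      _ ≤ w ^ 2 * m := Nat.mul_le_mul_right _ (Nat.pow_le_pow_left hw 2)
      _ ≤ _ := a2
      _ = _ := by ring
  have a4 := Nat.le_of_mul_le_mul_left a3 (by positivity)
  rcases Nat.lt_or_ge m 3 with hm | hm
  · have : 9 ≤ a ^ 2 := by nlinarith
    have hm1 : 1 ≤ m := by omega
    interval_cases m <;> omega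
  · have b1 : m ^ 2 ≤ a ^ 2 := Nat.pow_le_pow_left (by omega) 2
    have b2 : 36 * m ^ 2 * m ≤ 15 * (m + 1) ^ 3 :=
      (Nat.mul_le_mul_right _ (Nat.mul_le_mul_left _ b1)).trans a4
    obtain ⟨k, rfl⟩ := Nat.exists_eq_add_of_le hm
    nlinarith [Nat.zero_le k, Nat.zero_le (k ^ 2), Nat.zero_le (k ^ 3)]

end

variable {G : Type u} [Group G] [Finite G]

/-- the `N(V)`-invariant subgroup generated by `A V` -/
def E0 (V : Subgroup G) (t s : G) : Subgroup G := ⨆ g : (𝒩 V : Subgroup G), cj (g : G) (AA t s ⊔ V)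

variable {V : Subgroup G} {t s : G}

theorem n_E0 : 𝒩 V ≤ 𝒩 (E0 V t s) := fun z hz => by
  refine mem_normalizer_of_cj_le ?_
  rw [cj_le_iff_le_cj_inv]
  refine iSup_le fun y => ?_
  rw [← cj_le_iff_le_cj_inv, cj_cj]
  exact le_iSup (fun y : (𝒩 V : Subgroup G) => cj (y : G) (AA t s ⊔ V)) ⟨z * y, mul_mem hz y.2⟩

theorem le_E0 : AA t s ⊔ V ≤ E0 V t s := by
  have := le_iSup (fun y : (𝒩 V : Subgroup G) => cj (y : G) (AA t s ⊔ V)) 1
  rwa [OneMemClass.coe_one, CfsgH1.cj_one] at this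

namespace St

variable (h : St V t s)
include h

theorem c2 {Y E : Subgroup G} (hY : Y ≠ ⊤) (hV : V ≤ Y) (hE : C2 Y E) : V ≤ E ∧ Y ≤ 𝒩 E := by
  have key : ∀ {E : Subgroup G}, C2 Y E → V ≤ E := fun hE =>
    inf_eq_left.1 (eq_of_le_of_card_ge inf_le_left
      (h.card ▸ ((hE.pk h.c hY (h.syl_of hV)).spl h.c).four))
  refine ⟨key hE, fun y hy => ?_⟩
  have hE' := hE.cj_of_mem (le_normalizer hy)
  exact mem_normalizer_iff_cj.2
    (hE'.eq_of_mem h.c hY hE (key hE' h.t_mem) (key hE h.t_mem) h.t_ne h.tt)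

theorem V_eq' : zpowers t ⊔ zpowers s = V := by rw [h.V_eq, closure_pair]

theorem comp {p : ℕ} [Fact p.Prime] (h0 : ⁅pCoreOf p (KK t), zpowers s⁆ ≠ ⊥) {Y : Subgroup G}
    (hY : Y ≠ ⊤) (hF : fittingOf (𝒞₁ t) ≤ Y) (hV : V ≤ Y) {g : G} (hg : g ∈ 𝒩 V) (hc : g ∉ 𝒞 V)
    (hD : cj g ⁅pCoreOf p (KK t), zpowers s⁆ ≤ Y) :
    TO (E0 V t s) (AA t s ⊔ zpowers t) t s ∧ E0 V t s ≤ Y ∧ Y ≤ 𝒩 (E0 V t s) := by
  set R := pCoreOf p (KK t) with hR
  have pR : IsPGroup p R := isPGroup_pCoreOf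
  have hp : p ≠ 2 := by
    rintro rfl
    have : R = ⊥ := by
      have := two_inf_odd pR (odd_oc (𝒞₁ t))
      rwa [inf_eq_left.2 pCoreOf_le] at this
    exact h0 (by rw [this, commutator_bot_left])
  have l1 : ⁅R, zpowers s⁆ ≤ R := comm_le_left (n_R t p h.s_H)
  have lA : ⁅R, zpowers s⁆ ≤ AA t s := commutator_mono (pCoreOf_le_fittingOf p) le_rfl
  have lH : AA t s ≤ 𝒞₁ t := h.A_le.trans ((F_le t).trans (K_le t))
  have hR0 : pCoreOf p (𝒞₁ t) ≠ ⊥ := fun e => h0 (le_bot_iff.1 (e ▸ l1.trans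
    (pCoreOf_le_of_le_normalizer (K_le t) (n_K t))))
  have n1 : V ≤ 𝒩 ⁅R, zpowers s⁆ :=
    norm_comm ((h.V_le h.t_mem).trans (n_R t p)) ((h.V_le h.s_mem).trans (c1_le_norm_zpowers s))
  have nD : V ≤ 𝒩 (cj g ⁅R, zpowers s⁆) := by
    rw [← cj_normalizer, ← cj_eq_of_mem_normalizer hg]
    exact cj_mono _ n1
  have hi : ∀ y ∈ cj g ⁅R, zpowers s⁆, t * y * t⁻¹ = y⁻¹ := by
    intro y hy
    have m := lA (mem_cj.1 hy)
    have c1 := h.A_inv _ m
    have c2 := mem_c1.1 (lH m)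
    have key : (g⁻¹ * t * g⁻¹⁻¹) * (g⁻¹ * y * g) * (g⁻¹ * t * g⁻¹⁻¹)⁻¹ = (g⁻¹ * y * g)⁻¹ := by
      rcases h.mem.1 (conj_mem_of_mem_norm (inv_mem hg) h.t_mem) with e | e | e | e
      · exact absurd e (conj_ne_one h.t_ne)
      · exact absurd (by simpa using inv_mem (h.fix_t (inv_mem hg) (conj_eq_iff.1 e))) hc
      · rw [e, c1]
      · rw [e]
        calc t * s * (g⁻¹ * y * g) * (t * s)⁻¹ = t * (s * (g⁻¹ * y * g) * s⁻¹) * t⁻¹ := by group
          _ = t * (t * (g⁻¹ * y * g))⁻¹ := by rw [c1]; group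
          _ = _ := by rw [← c2]; group
    calc t * y * t⁻¹ = g * ((g⁻¹ * t * g⁻¹⁻¹) * (g⁻¹ * y * g) * (g⁻¹ * t * g⁻¹⁻¹)⁻¹) * g⁻¹ := by group
      _ = _ := by rw [key]; group
  have hL : layerOf (𝒞₁ t) ≤ Y := layerOf_le_iff.2 fun J hJ =>
    absurd (CfsgH2.isSolvable_of_le (isComponentOf_iff.1 hJ).1 (h.solv (h.V_le h.t_mem) h.pnil_H))
      ((h.c.ag.mono le_top).simp_of_comp hJ).not_solvable
  obtain ⟨-, E, hE, hEs, ⟨K₀, t₀, s₀, hTO⟩, -⟩ := alpha_comp h.c h.coatom h.tt le_rfl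
    (le_centralizer_symm (H := fittingOf (𝒞₁ t)) (K := zpowers t)
      (by rw [CfsgFT.centralizer_zpowers]; exact fittingOf_le) (mem_zpowers t))
    (by rw [gfOf_eq]; exact sup_le hL hF) hY (h.syl_of hV) h.t_mem hp hR0 hD
    (isPGroup_cj g (pR.to_le l1)) (by rwa [Ne, cj_eq_bot_iff]) (Om_le.trans nD) hi
  obtain ⟨hVE, hYE⟩ := h.c2 hY hV (c2_of_comp hE)
  have hEY : E ≤ Y := (isComponentOf_iff.1 hE).1
  have hT := hTO.at (hVE h.t_mem) (hVE h.s_mem) h.t_ne h.s_ne h.ts_ne h.tt h.ss h.comm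
  have hFY : FF t ≤ Y := (F_le' t).trans hF
  have pE : PNil 2 (E ⊓ 𝒞₁ t) := h.pnil_H.mono inf_le_right
  set Z := Oc (E ⊓ 𝒞₁ t) with hZ
  have lZ : Z ≤ E ⊓ 𝒞₁ t := pPrimeCoreOf_le
  have eZ : Z = AA t s := by
    refine le_antisymm ?_ (odd_le_oc pE (le_inf ?_ lH) h.odd_A)
    · have z1 : Z ≤ KK t := h.le_K (lZ.trans inf_le_right) (odd_oc _)
      have z2 : Z ≤ 𝒩 (FF t) := (z1.trans (K_le t)).trans (n_F t)
      have z3 : ⁅FF t, Z⁆ ≤ FF t := commutator_le_left_of_le_normalizer z2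
      have z4 : ⁅FF t, Z⁆ ≤ Z := odd_le_oc pE (le_inf ((commutator_mono le_rfl
        (lZ.trans inf_le_left)).trans (commutator_le_right_of_le_normalizer (hFY.trans hYE)))
        (z3.trans ((F_le t).trans (K_le t)))) (odd_of_le z3 (odd_F t))
      have z5 : Z ≤ 𝒞 Z := le_sup_left.trans (hT.toBH.K_comm.trans (cent_anti le_sup_left))
      have z6 : Z ≤ 𝒞 (FF t) := h.c.ag.cent_of_comm_comm le_top le_top isNilpotent_fittingOf z2
        (le_cent_iff_comm.1 (z4.trans z5))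
      rw [← comm_eq_of_inv (P := Z) (odd_oc _) fun y hy => hT.inv y (mem_sup_left hy)]
      exact commutator_mono ((le_inf z1 z6).trans (F_self t)) le_rfl
    · rw [← comm_eq_of_inv h.odd_A h.A_inv]
      exact (commutator_mono le_rfl (zpowers_le.2 (hVE h.s_mem))).trans
        (commutator_le_right_of_le_normalizer (h.A_le.trans (hFY.trans hYE)))
  rw [eZ] at hT
  have eC : E ⊓ 𝒞₁ t = AA t s ⊔ V := by rw [hT.cent_eq, sup_assoc, h.V_eq']
  obtain ⟨ρ, hρ, -, h1, h2⟩ := hT.rho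
  have l0 : E0 V t s ≤ E := iSup_le fun x => by
    obtain ⟨y, hy, e⟩ := h.trans_of h1 h2 (conj_mem_of_mem_norm x.2 h.t_mem) (conj_ne_one h.t_ne)
    have hyN : y ∈ 𝒩 V := zpowers_le.2 (h.mem_norm_of h1 h2) hy
    have m : y⁻¹ * x ∈ 𝒞 V := h.fix_t (mul_mem (inv_mem hyN) x.2) (conj_eq_iff.1 (by
      rw [show y⁻¹ * x * t * (y⁻¹ * x)⁻¹ = y⁻¹ * (x * t * (x : G)⁻¹) * y by group, ← e]; group))
    have e2 : cj (x : G) (AA t s ⊔ V) = cj y (AA t s ⊔ V) := by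
      conv_rhs => rw [← cj_eq_of_mem_normalizer
        (CfsgH2.le_normalizer_sup h.n_A cent_le_norm m), cj_cj]
      simp
    rw [e2, ← eC]
    exact cj_le_of_mem (zpowers_le.2 hρ hy) inf_le_left
  have kf : KF E := Or.inr (Or.inl ⟨_, _, _, hT⟩)
  have l2 : E ≤ 𝒩 (E0 V t s) := by
    refine (KF.le_or h.se kf (h.syl_of hVE) (inf_le_right.trans n_E0) h.t_mem h.t_ne
      (eC ▸ le_E0.trans le_normalizer)).resolve_right ?_
    rintro ⟨⟨H, hH⟩, -⟩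
    exact hH.not_TO hT
  have e0 : E0 V t s = E := (hEs.normal l0 l2).resolve_left fun e =>
    h.t_ne (mem_bot.1 (e ▸ le_E0 (mem_sup_right h.t_mem)))
  rw [e0]
  exact ⟨hT, hEY, hYE⟩

/-- case B (ii) is impossible -/
theorem case_ii (hV4 : SpecV4.{u}) (hB : SpecBSW.{u}) {p : ℕ} [hp : Fact p.Prime]
    (h0 : ⁅pCoreOf p (KK t), zpowers s⁆ ≠ ⊥) (h1 : pCoreOf p (KK t) ⊓ 𝒞₁ s ≠ ⊥) : False := by
  set R := pCoreOf p (KK t) with hR
  have pR : IsPGroup p R := isPGroup_pCoreOf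
  have lRF : R ≤ FF t := pCoreOf_le_fittingOf p
  have lFH : FF t ≤ 𝒞₁ t := (F_le t).trans (K_le t)
  have l1 : ⁅R, zpowers s⁆ ≤ R := comm_le_left (n_R t p h.s_H)
  have lA : ⁅R, zpowers s⁆ ≤ AA t s := commutator_mono lRF le_rfl
  have lF1 : FF t ⊓ 𝒞₁ s ≤ UU t s := inf_le_inf_right _ (F_le t)
  have hyp : ∀ f ∈ FF t ⊓ 𝒞₁ s, f ≠ 1 → 𝒞₁ f ≠ ⊤ ∧ fittingOf (𝒞₁ t) ≤ 𝒞₁ f ∧ V ≤ 𝒞₁ f :=
    fun f hf hf1 => ⟨h.c.simp.cent_ne_top hf1,
      h.cF'.trans (centralizer_le (by simpa using hf.1)),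
      fun v hv => mem_c1.2 (mem_cent_iff.1 (h.U_le (lF1 hf)) v hv).symm⟩
  -- the component `E`
  have hT : TO (E0 V t s) (AA t s ⊔ zpowers t) t s := by
    obtain ⟨f, hf, hf1⟩ := (R ⊓ 𝒞₁ s).bot_or_exists_ne_one.resolve_left h1
    obtain ⟨P, hP, hle⟩ := CfsgH2.exists_isSylowOf_ge (pR.to_le (inf_le_left (b := 𝒞₁ s)))
      ((inf_le_inf_right _ lRF).trans lF1)
    have fr := hP.frattini (h.U_le.trans cent_le_norm) h.n_U
    obtain ⟨g, hg, hc⟩ : ∃ g ∈ 𝒩 V ⊓ 𝒩 P, g ∉ 𝒞 V := by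
      by_contra hh
      push Not at hh
      exact h.not_le (fr ▸ sup_le h.U_le hh)
    obtain ⟨y1, y2, y3⟩ := hyp f ⟨lRF hf.1, hf.2⟩ hf1
    have cP : R ≤ 𝒞 P := le_centralizer_symm (h.c.ag.cent_of_norm hP.2.1 pR le_top le_top
      (hP.1.trans (inf_le_left.trans le_normalizer_pCoreOf)))
    refine (h.comp h0 y1 y2 y3 hg.1 hc ((cj_mono g (l1.trans cP)).trans ?_)).1
    rw [cj_centralizer, cj_eq_of_mem_normalizer hg.2]
    exact centralizer_le (by simpa using hle hf)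
  set E := E0 V t s with hE
  set A := AA t s with hA
  set U := UU t s with hU
  set K := KK t with hK
  have hVE : V ≤ E := le_sup_right.trans le_E0
  have hAE : A ≤ E := le_sup_left.trans le_E0
  have eC : E ⊓ 𝒞₁ t = A ⊔ V := by rw [hT.cent_eq, sup_assoc, h.V_eq']
  have kf : KF E := Or.inr (Or.inl ⟨_, _, _, hT⟩)
  obtain ⟨ρ, hρ, -, r1, r2⟩ := hT.rho
  have hρN : ρ ∈ 𝒩 V := h.mem_norm_of r1 r2
  have hρC : ρ ∉ 𝒞 V := fun hh => h.ts_ne ((conj_eq_iff.2 (h.cV_le h.t_mem hh)).symm.trans r1)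
  have nUE : U ≤ 𝒩 E := h.U_le.trans (cent_le_norm.trans n_E0)
  have dEU : U ⊓ E = ⊥ := by
    rw [eq_bot_iff, ← two_inf_odd h.two (odd_U t s)]
    refine le_inf (fun y hy => ?_) inf_le_left
    rw [h.V_eq, ← hT.cent_V]
    exact ⟨⟨hy.2, K_le t hy.1.1⟩, hy.1.2⟩
  have lKE : K ⊓ E ≤ A := by
    intro y hy
    have m : y ∈ (A ⊔ zpowers t) ⊔ zpowers s := hT.cent_eq ▸ ⟨hy.2, K_le t hy.1⟩
    have o := odd_orderOf_of_mem (odd_oc _) hy.1
    exact mem_of_odd_of_sup h.t_nA h.tt (mem_of_odd_of_sup hT.toBH.s_norm h.ss m o) o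
  obtain ⟨d1, d2⟩ := h.dvd h0
  obtain ⟨va, vb, -⟩ := hV4 G t s _ _ h.v4
  have eK : ⁅K, zpowers s⁆ = K := by
    by_contra hne
    refine d2 (vb ρ r1 r2 (fun y hy => ?_) hne ▸ (d1.trans (dvd_pow_self _ two_ne_zero)).mul_left _)
    have m1 : ρ * y * ρ⁻¹ * y⁻¹ ∈ U := mul_mem (conj_mem_of_mem_norm (h.n_U hρN) hy) (inv_mem hy)
    have m2 : ρ * y * ρ⁻¹ * y⁻¹ ∈ E := by
      rw [show ρ * y * ρ⁻¹ * y⁻¹ = ρ * (y * ρ⁻¹ * y⁻¹) by group]
      exact mul_mem hρ (conj_mem_of_mem_norm (nUE hy) (inv_mem hρ))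
    have m3 : ρ * y * ρ⁻¹ * y⁻¹ = 1 := mem_bot.1 (dEU ▸ ⟨m1, m2⟩)
    exact commutatorElement_eq_one_iff_mul_comm.1 m3
  have cs : ∀ {X : Subgroup G}, X ≤ K → X ≤ 𝒩 E → ⁅X, zpowers s⁆ ≤ A := fun hX hn =>
    (le_inf ((commutator_mono hX le_rfl).trans (comm_le_left (n_K t h.s_H)))
      ((commutator_mono le_rfl (zpowers_le.2 (hVE h.s_mem))).trans
        (commutator_le_right_of_le_normalizer hn))).trans lKE
  have lAK : A ≤ K := h.A_le.trans (F_le t)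
  have eN : K ⊓ 𝒩 E = U ⊔ A := by
    refine le_antisymm ?_ (sup_le (le_inf inf_le_left nUE) (le_inf lAK (hAE.trans le_normalizer)))
    rw [← h.dec (D := K ⊓ 𝒩 E) (odd_of_le inf_le_left (odd_oc _))
      (norm_inf (zpowers_le_norm (n_K t h.s_H)) (zpowers_le.2 (le_normalizer
        (le_normalizer (hVE h.s_mem)))) (mem_zpowers s))]
    exact sup_le ((cs inf_le_left inf_le_right).trans le_sup_right)
      ((inf_le_inf_right _ inf_le_left).trans le_sup_left)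
  have nK : ¬ K ≤ 𝒩 E := fun hh => h1 (le_bot_iff.1 ((inf_le_inf_right _
    (pCoreOf_le.trans (eK.ge.trans (cs le_rfl hh)))).trans h.A_U.le))
  have cF1 : FF t ⊓ 𝒞₁ s ≤ 𝒞 E := by
    refine KF.cent_of_odd h.se kf (h.syl_of hVE) (odd_of_le inf_le_left (odd_F t))
      (lF1.trans nUE) h.t_mem h.t_ne ?_
    rw [eC]
    exact le_centralizer_symm (sup_le (h.A_le.trans (h.cF.trans (cent_anti inf_le_left)))
      (le_centralizer_symm (lF1.trans h.U_le)))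
  have cE : ∀ f ∈ FF t ⊓ 𝒞₁ s, E ≤ 𝒞₁ f := fun f hf y hy =>
    mem_c1.2 (mem_cent_iff.1 (cF1 hf) y hy).symm
  have nf : ∀ f ∈ FF t ⊓ 𝒞₁ s, f ≠ 1 → 𝒞₁ f ≤ 𝒩 E := fun f hf hf1 => by
    obtain ⟨y1, y2, y3⟩ := hyp f hf hf1
    exact (h.comp h0 y1 y2 y3 hρN hρC ((cj_le_of_mem hρ (lA.trans hAE)).trans (cE f hf))).2.2
  have ti : ∀ f ∈ FF t ⊓ 𝒞₁ s, f ≠ 1 → ∀ x ∈ 𝒞₁ t, x * f * x⁻¹ ∈ FF t ⊓ 𝒞₁ s → x ∈ 𝒩 E := by
    intro f hf hf1 x hx hxf
    have a1 : E ≤ 𝒩 (cj x E) := by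
      rw [← cj_normalizer]
      refine (cE _ hxf).trans ?_
      rw [← cj_centralizer_singleton]
      exact cj_mono x (nf f hf hf1)
    rcases hT.simp.normal (inf_le_left (b := cj x E)) (norm_inf le_normalizer a1) with e | e
    · refine absurd (mem_bot.1 (e ▸ ⟨hVE h.t_mem, ?_⟩)) h.t_ne
      have := conj_mem_cj x (hVE h.t_mem)
      rwa [conj_eq_iff.2 hx] at this
    · have := mem_normalizer_of_cj_le (le_cj_iff_cj_inv_le.1 (inf_eq_left.1 e))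
      simpa using inv_mem this
  -- the elementary abelian group `B` and the line `ℓ`
  obtain ⟨e, q, p', Q, A', w', hLS⟩ := hB G E _ t s hT.toBH
  set B := Om p R with hBd
  have lB : B ≤ R := Om_le
  have cR : R ≤ 𝒞 R := h.c.ag.comm pR le_top
  have eB : IsElementaryAbelian p B := isElementaryAbelian_Om (isMulCommutative_iff_le.2 cR)
  have cB : B ≤ 𝒞 B := lB.trans (cR.trans (cent_anti lB))
  have nB : 𝒞₁ t ≤ 𝒩 B := (n_R t p).trans (normalizer_le_normalizer_Om p R)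
  have oB : Odd #B := odd_of_le (lB.trans lRF) (odd_F t)
  set ℓ := B ⊓ 𝒞₁ s with hℓ
  have lℓ : ℓ ≤ FF t ⊓ 𝒞₁ s := inf_le_inf_right _ (lB.trans lRF)
  have pA : p ∣ #A := by
    have := (pR.to_le l1).card_eq_or_dvd
    exact (this.resolve_left fun e => h0 (card_eq_one.1 e)).trans (card_dvd_of_le lA)
  have b1 : #⁅B, zpowers s⁆ ≤ p := by
    rw [← card_Om_of_isCyclic hLS.cyc_K (pA.trans (card_dvd_of_le le_sup_left))]
    exact card_le_of_le (le_Om (((commutator_mono lB le_rfl).trans lA).trans le_sup_left)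
      fun x hx => eB.2 x (comm_le_left (nB h.s_H) hx))
  have b2 : #B ≤ p * #ℓ := by
    have c := CfsgH2.card_sup_mul_card_inf (H := ⁅B, zpowers s⁆) (K := ℓ)
      ((comm_le_left (nB h.s_H)).trans (cB.trans ((cent_anti inf_le_left).trans cent_le_norm)))
    rw [h.dec oB (nB h.s_H)] at c
    calc #B ≤ #B * #(⁅B, zpowers s⁆ ⊓ ℓ) := Nat.le_mul_of_pos_right _ Nat.card_pos
      _ = _ := c
      _ ≤ _ := Nat.mul_le_mul_right _ b1
  have ℓ0 : ℓ ≠ ⊥ := fun e => by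
    have : Om p (R ⊓ 𝒞₁ s) = ⊥ :=
      le_bot_iff.1 (e ▸ le_inf (Om_mono p inf_le_left) (Om_le.trans inf_le_right))
    rw [Om_eq_bot_iff] at this
    exact this (((pR.to_le inf_le_left).card_eq_or_dvd).resolve_left fun e => h1 (card_eq_one.1 e))
  have b3 : p ≤ #ℓ := Nat.le_of_dvd Nat.card_pos
    (((pR.to_le (inf_le_left.trans lB)).card_eq_or_dvd).resolve_left fun e => ℓ0 (card_eq_one.1 e))
  have b4 : ∀ x ∈ K, x ∉ 𝒩 E → #(ℓ ⊔ cj x ℓ) = #ℓ * #ℓ ∧ ℓ ⊔ cj x ℓ ≤ B := by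
    intro x hx hxE
    have m : cj x ℓ ≤ B := cj_le_of_mem_normalizer (nB (K_le t hx)) inf_le_left
    refine ⟨?_, sup_le inf_le_left m⟩
    rw [CfsgH2.card_sup_of_disjoint (inf_le_left.trans (cB.trans ((cent_anti m).trans
      cent_le_norm))), card_cj]
    rw [eq_bot_iff]
    intro y hy
    by_contra hy1
    refine hxE (ti _ (lℓ (mem_cj.1 hy.2)) (fun e => hy1 ?_) x (K_le t hx) ?_)
    · simpa [mul_assoc] using congrArg (fun z => x * z * x⁻¹) e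
    · simpa [mul_assoc] using lℓ hy.1
  obtain ⟨x0, hx0, hx0'⟩ := SetLike.not_le_iff_exists.1 nK
  have b5 : #ℓ = p := by
    have := (b4 x0 hx0 hx0').1 ▸ card_le_of_le (b4 x0 hx0 hx0').2
    exact le_antisymm (Nat.le_of_mul_le_mul_right (this.trans b2) Nat.card_pos) b3
  rw [b5] at b2 b4
  have b6 : ∀ x ∈ K, x ∉ 𝒩 E → ℓ ⊔ cj x ℓ = B := fun x hx hxE =>
    eq_of_le_of_card_ge (b4 x hx hxE).2 ((b4 x hx hxE).1 ▸ b2)
  have b7 : s ∉ 𝒞 B := fun hh => by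
    have a1 : B ≤ ℓ := le_inf le_rfl fun y hy => mem_c1.2 (mem_cent_iff.1 hh y hy).symm
    have a2 := card_le_of_le ((b4 x0 hx0 hx0').2.trans a1)
    rw [(b4 x0 hx0 hx0').1, b5] at a2
    have := hp.out.two_le
    nlinarith
  have B0 : B ≠ ⊥ := fun e => ℓ0 (le_bot_iff.1 (e ▸ inf_le_left))
  have tB : t ∈ 𝒞 B := mem_cent_iff.2 fun y hy => (mem_c1.1 (lFH (lRF (lB hy)))).symm
  -- counting
  set n := (𝒩 E).relIndex K with hn
  have n1 : n ≤ p + 1 := by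
    have hN : NTI (nz ℓ) K (K ⊓ 𝒩 E) := by
      obtain ⟨f, hf, hf1⟩ := ℓ.bot_or_exists_ne_one.resolve_left ℓ0
      refine ⟨⟨f, hf, hf1⟩, inf_le_left, fun g hg a ha => ⟨conj_mem_of_mem_norm ?_ ha.1,
        conj_ne_one ha.2⟩, fun g hg a ha hga => ⟨hg, ti a (lℓ ha.1) ha.2 g (K_le t hg) (lℓ hga.1)⟩⟩
      rw [eN] at hg
      refine sup_le (norm_inf (inf_le_left.trans ((K_le t).trans nB))
        (inf_le_right.trans le_normalizer)) (h.A_le.trans (h.cF.trans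
        ((cent_anti (lℓ.trans inf_le_left)).trans cent_le_norm))) hg
    have c1 := hN.ncard_cls
    have c2 : cls (nz ℓ) K ⊆ nz B := by
      rintro _ ⟨a, ha, g, hg, rfl⟩
      exact ⟨conj_mem_of_mem_norm (nB (K_le t hg)) ha.1.1, conj_ne_one ha.2⟩
    have c3 := Set.ncard_le_ncard c2
    rw [c1, ncard_nz, ncard_nz, b5, inf_relIndex_left] at c3
    have := hp.out.two_le
    obtain ⟨k, hk⟩ : ∃ k, p = k + 1 := ⟨p - 1, by omega⟩
    have c4 : k * n ≤ k * (p + 1) := by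
      have : (p - 1) * n ≤ p * p - 1 := c3.trans (Nat.sub_le_sub_right b2 1)
      rw [hk] at this ⊢
      rw [Nat.add_sub_cancel] at this
      calc k * n ≤ (k + 1) * (k + 1) - 1 := this
        _ = _ := by rw [Nat.sub_eq_iff_eq_add (by nlinarith)]; ring
    exact Nat.le_of_mul_le_mul_left c4 (by omega)
  have n2 : 2 ≤ n := by
    have a1 : n ≠ 1 := fun e => nK (relIndex_eq_one.1 e)
    have a2 : n ≠ 0 := index_ne_zero_of_finite
    omega
  have cnt := count_cosets (E := E) (C := 𝒞₁ t) (K := K) (N := 𝒩 E) (by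
    intro z hz x hx y hy hxE hm
    have m1 : z * t * z⁻¹ ∈ E := mul_mem (mul_mem hz (hVE h.t_mem)) (inv_mem hz)
    have m2 : z * t * z⁻¹ ∈ cj x E := by
      have := conj_mem_of_mem_norm hm (hVE h.t_mem)
      rw [mem_cj]
      convert this using 1
      conv_lhs => rw [← conj_eq_iff.2 (K_le t hy)]
      group
    have m3 : z * t * z⁻¹ ∈ 𝒞 B := by
      rw [← b6 x hx hxE]
      refine le_centralizer_symm (K := zpowers (z * t * z⁻¹)) (sup_le ?_ ?_) (mem_zpowers _)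
      · exact (lℓ.trans cF1).trans (cent_anti (zpowers_le.2 m1))
      · refine (cj_mono x (lℓ.trans cF1)).trans ?_
        rw [cj_centralizer]
        exact cent_anti (zpowers_le.2 m2)
    have m4 : z * t * z⁻¹ ∈ 𝒞₁ t := by
      rw [← h.norm_eq B0 (lB.trans (lRF.trans lFH)) nB]
      exact cent_le_norm m3
    obtain ⟨g, hg, hgV⟩ := exists_conj_mem_syl (h.syl_of (h.V_le h.t_mem)) m4 (conj_inv h.tt)
    have m5 := conj_mem_of_mem_norm (CfsgH2.le_normalizer_centralizer nB hg) m3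
    rcases h.mem.1 hgV with e | e | e | e
    · exact absurd e (conj_ne_one (conj_ne_one h.t_ne))
    · exact conj_eq_iff.1 (conj_inj (e.trans (conj_eq_iff.2 hg).symm))
    · exact absurd (e ▸ m5) b7
    · exact absurd (h.tts ▸ mul_mem tB (e ▸ m5)) b7)
  set w := (𝒞₁ t).relIndex E with hw
  have c0 : #(A ⊔ zpowers t) = 2 * #A := h.card_K0
  have c1 : w * (4 * #A) = #E := by
    rw [← CfsgH2.card_inf_mul_relIndex E (𝒞₁ t), hT.toBH.card_cent, c0]; ring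
  have a3 : 3 ≤ #A := h.three_le
  have c2 : 6 * #A ^ 2 ≤ w := by
    have q1 := hLS.q_eq
    have q2 := hLS.card_X
    rw [c0] at q1
    rw [← c1] at q2
    generalize #A = a at *
    have q3 : 4 * a - 1 ≤ q := by
      rcases hLS.sign with e1 | e1 <;> rw [e1] at q1 <;> push_cast at q1 <;> omega
    obtain ⟨b, rfl⟩ : ∃ b, a = b + 3 := ⟨a - 3, by omega⟩
    have q4 : 4 * b + 11 ≤ q := by omega
    have q5 : (4 * b + 11) ^ 2 - 1 ≤ q ^ 2 - 1 := Nat.sub_le_sub_right (Nat.pow_le_pow_left q4 2) 1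
    have q6 : (4 * b + 11) ^ 2 - 1 = (4 * b + 12) * (4 * b + 10) := by
      rw [Nat.sub_eq_iff_eq_add (Nat.one_le_pow _ _ (by omega))]; ring
    have q7 : (4 * b + 11) * ((4 * b + 12) * (4 * b + 10)) ≤ 2 * (w * (4 * (b + 3))) :=
      q2 ▸ Nat.mul_le_mul q4 (q6 ▸ q5)
    have q8 : (8 * (b + 3)) * (6 * (b + 3) ^ 2) ≤ (8 * (b + 3)) * w := by nlinarith
    exact Nat.le_of_mul_le_mul_left q8 (by omega)
  have c3 : #K = n * (#A * #U) := by
    rw [← CfsgH2.card_inf_mul_relIndex K (𝒩 E), eN, CfsgH2.card_sup_of_disjoint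
      (h.U_le.trans h.n_A) (le_bot_iff.1 ((le_inf inf_le_right (inf_le_left.trans inf_le_right)).trans
        h.A_U.le))]
    ring
  have c4 : U.relIndex K = n * #A := by
    have := CfsgH1.card_mul_relIndex (inf_le_left : U ≤ K)
    rw [c3] at this
    exact Nat.eq_of_mul_eq_mul_left (Nat.card_pos (α := U)) (by rw [this]; ring)
  have c5 : #E * #U ≤ #(𝒩 E) := by
    rw [mul_comm, ← CfsgH2.card_sup_of_disjoint nUE dEU]
    exact card_le_of_le (sup_le nUE le_normalizer)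
  refine arith a3 n2 (n1.trans (Nat.succ_le_succ (Nat.le_of_dvd Nat.card_pos pA))) c2
    (Nat.card_pos (α := U)) (g := Nat.card G) (i := (𝒞₁ t).index) ?_ ?_ (c4 ▸ va)
  · rw [c1, ← (𝒩 E).index_mul_card]
    exact Nat.mul_le_mul cnt c5
  · rw [← c3, ← h.card_H, index_mul_card]

end St

end GW

theorem specGW (hSE : SpecSE.{u}) (hV4 : SpecV4.{u}) (hB : SpecBSW.{u}) : SpecGW.{u} := by
  intro G _ _ c t s K U h
  by_cases h2 : ∃ H, T2 ⊤ (closure {t, s}) H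
  · obtain ⟨H, hH⟩ := h2
    exact Or.inl ⟨_, H, hH⟩
  have st : GW.St (closure {t, s}) t s :=
    ⟨c, hSE, h.t_ne, h.s_ne, h.ts_ne, h.tt, h.ss, h.comm, rfl, h.syl, h2⟩
  refine Or.inr (Or.inl ⟨_, _, _, st.case_i hV4 fun p _ => ?_⟩)
  by_contra hh
  push Not at hh
  exact st.case_ii hV4 hB hh.1 hh.2

end CfsgAG
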