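import Cfsg.Agent.AG.GW1

/-! WP GW, second part: the structure of the maximal subgroup `C(t)`. -/

set_option autoImplicit false

namespace CfsgAG

open Subgroup CfsgFT CfsgL0
open scoped commutatorElement

universe u

namespace GW

open W1

variable {G : Type u} [Group G] [Finite G]

/-- `K = O(C(t))` -/
abbrev KK (t : G) : Subgroup G := Oc (𝒞₁ t)

/-- `F(K)` -/
abbrev FF (t : G) : Subgroup G := fittingOf (KK t)

/-- `A = [F(K), s]` -/
abbrev AA (t s : G) : Subgroup G := ⁅FF t, zpowers s⁆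

/-- `U = C_K(s)` -/
abbrev UU (t s : G) : Subgroup G := KK t ⊓ 𝒞₁ s

omit [Finite G] in
theorem K_le (t : G) : KK t ≤ 𝒞₁ t := pPrimeCoreOf_le

theorem n_K (t : G) : 𝒞₁ t ≤ 𝒩 (KK t) := le_normalizer_pPrimeCoreOf

theorem F_le (t : G) : FF t ≤ KK t := fittingOf_le

theorem n_F (t : G) : 𝒞₁ t ≤ 𝒩 (FF t) := (n_K t).trans normalizer_le_normalizer_fittingOf

theorem odd_F (t : G) : Odd #(FF t) := odd_of_le (F_le t) (odd_oc _)

theorem F_le' (t : G) : FF t ≤ fittingOf (𝒞₁ t) := fittingOf_le_of_le_normalizer (K_le t) (n_K t)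

theorem n_R (t : G) (p : ℕ) [Fact p.Prime] : 𝒞₁ t ≤ 𝒩 (pCoreOf p (KK t)) :=
  (n_K t).trans normalizer_le_normalizer_pCoreOf

theorem F_self (t : G) : KK t ⊓ 𝒞 (FF t) ≤ FF t := inf_centralizer_fittingOf_le (solvable_oc _)

theorem odd_U (t s : G) : Odd #(UU t s) := odd_of_le inf_le_left (odd_oc _)

variable {V : Subgroup G} {t s : G}

namespace St

variable (h : St V t s)
include h

theorem s_H : s ∈ 𝒞₁ t := h.V_le h.t_mem h.s_mem

theorem cF : FF t ≤ 𝒞 (FF t) := (h.c.ag.mono le_top).fit_comm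

theorem cF' : fittingOf (𝒞₁ t) ≤ 𝒞 (FF t) :=
  (h.c.ag.mono le_top).fit_comm.trans (cent_anti (F_le' t))

theorem le_K {D : Subgroup G} (hD : D ≤ 𝒞₁ t) (ho : Odd #D) : D ≤ KK t := odd_le_oc h.pnil_H hD ho

theorem A_le : AA t s ≤ FF t := comm_le_left (n_F t h.s_H)

theorem A_inv : ∀ y ∈ AA t s, s * y * s⁻¹ = y⁻¹ := inv_of_mem_comm h.cF h.ss (n_F t h.s_H)

theorem odd_A : Odd #(AA t s) := odd_of_le h.A_le (odd_F t)

theorem A_U : AA t s ⊓ 𝒞₁ s = ⊥ :=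
  bot_of_inv (odd_of_le inf_le_left h.odd_A) (fun y hy => h.A_inv y hy.1) inf_le_right

theorem n_A : 𝒞 V ≤ 𝒩 (AA t s) :=
  norm_comm ((h.cV_le h.t_mem).trans (n_F t)) ((h.cV_le h.s_mem).trans (c1_le_norm_zpowers s))

theorem U_le : UU t s ≤ 𝒞 V := fun _ hy => h.mem_cent.2 ⟨K_le t hy.1, hy.2⟩

theorem n_U : 𝒩 V ≤ 𝒩 (UU t s) := fun g hg => by
  have : cj g (UU t s) ≤ 𝒞 V := by
    rw [← cj_eq_of_mem_normalizer hg, ← cj_centralizer]
    exact cj_mono g h.U_le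
  exact mem_normalizer_of_cj_le (le_inf (h.le_K (this.trans (h.cV_le h.t_mem))
    (by rw [card_cj]; exact odd_U t s)) (this.trans (h.cV_le h.s_mem)))

theorem sup_H : KK t ⊔ V = 𝒞₁ t := h.oc_sup (h.V_le h.t_mem) h.pnil_H

theorem card_H : #(𝒞₁ t) = 4 * #(KK t) := by
  rw [← h.sup_H, sup_comm, CfsgH2.card_sup_of_disjoint ((h.V_le h.t_mem).trans (n_K t))
    (two_inf_odd h.two (odd_oc _)), h.card]

theorem cop {D : Subgroup G} (hD : Odd #D) : (#(zpowers s)).Coprime #D :=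
  coprime_two_of_odd (two_zpowers h.ss) hD

theorem dec {D : Subgroup G} (hD : Odd #D) (hn : s ∈ 𝒩 D) : ⁅D, zpowers s⁆ ⊔ (D ⊓ 𝒞₁ s) = D := by
  rw [← CfsgFT.centralizer_zpowers]
  exact CfsgH2.commutator_sup_centralizer (zpowers_le_norm hn) (h.cop hD)
    (Or.inl (solv_two (two_zpowers h.ss)))

theorem norm_eq {X : Subgroup G} (h0 : X ≠ ⊥) (hX : X ≤ 𝒞₁ t) (hn : 𝒞₁ t ≤ 𝒩 X) :
    𝒩 X = 𝒞₁ t := h.c.simp.norm_eq h.coatom h0 hX hn

theorem A_ne : AA t s ≠ ⊥ := fun e => by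
  have a1 : zpowers s ≤ 𝒞 (FF t) := le_centralizer_symm (le_cent_iff_comm.2 e)
  have a2 : zpowers s ≤ 𝒞 (KK t) := (le_inf le_rfl a1).trans (bg1_4 (zpowers_le_norm (n_K t h.s_H))
    (h.cop (odd_oc _)) (solvable_oc _))
  have a3 : 𝒞₁ t ≤ 𝒩 V := by
    rw [← h.sup_H]
    refine sup_le (le_trans (fun y hy => h.mem_cent.2 ⟨K_le t hy, mem_c1.2 ?_⟩) cent_le_norm)
      le_normalizer
    exact (mem_cent_iff.1 (a2 (mem_zpowers s)) y hy).symm
  have h0 : V ≠ ⊥ := fun e => h.t_ne (mem_bot.1 (e ▸ h.t_mem))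
  exact h.not_le ((le_inf le_rfl le_rfl).trans
    (h.NT (h.c.simp.norm_ne_top_of_solvable h0 (solv_two h.two)) a3))

theorem dvd {p : ℕ} [Fact p.Prime] (h0 : ⁅pCoreOf p (KK t), zpowers s⁆ ≠ ⊥) :
    p ∣ (UU t s).relIndex (KK t) ∧ ¬ p ∣ (𝒞₁ t).index := by
  constructor
  · by_contra hd
    obtain ⟨P, hP⟩ := CfsgH2.exists_isSylowOf (p := p) (UU t s)
    have hP' : IsSylowOf p P (KK t) := by
      refine ⟨hP.1.trans inf_le_left, hP.2.1, ?_⟩
      rw [← relIndex_mul_relIndex P (UU t s) (KK t) hP.1 inf_le_left]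
      exact fun hh => ((Fact.out : p.Prime).dvd_mul.1 hh).elim hP.2.2 hd
    exact h0 (comm_bot_iff.2 ((IsSylowOf.le_of_normalizes hP' isPGroup_pCoreOf pCoreOf_le
      (hP'.1.trans le_normalizer_pCoreOf)).trans (hP.1.trans inf_le_right)))
  · have hR : pCoreOf p (KK t) ≠ ⊥ := fun e => h0 (by rw [e, commutator_bot_left])
    obtain ⟨P, hP, hle⟩ := CfsgH2.exists_isSylowOf_ge (isPGroup_pCoreOf (p := p) (H := KK t)) le_top
    have : P ≤ 𝒞₁ t := by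
      rw [← h.norm_eq hR (pCoreOf_le.trans (K_le t)) (n_R t p)]
      exact (h.c.ag.comm hP.2.1 le_top).trans ((cent_anti hle).trans cent_le_norm)
    exact fun hh => hP.2.2 (by rw [relIndex_top_right]; exact hh.trans (index_dvd_of_le this))

theorem exists_p : ∃ p : ℕ, ∃ _ : Fact p.Prime, ⁅pCoreOf p (KK t), zpowers s⁆ ≠ ⊥ := by
  by_contra hh
  push Not at hh
  exact h.A_ne (comm_bot_iff.2 (fittingOf_le_iff.2 fun p i => comm_bot_iff.1 (hh p i)))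

theorem v4 : V4 t s (KK t) (UU t s) :=
  ⟨h.c.simp, h.t_ne, h.s_ne, h.ts_ne, h.tt, h.ss, h.comm, h.V_eq ▸ h.syl, rfl, rfl⟩

theorem comm_eq (hp : ∀ (p : ℕ) [Fact p.Prime],
    ⁅pCoreOf p (KK t), zpowers s⁆ = ⊥ ∨ pCoreOf p (KK t) ⊓ 𝒞₁ s = ⊥) :
    ⁅KK t, zpowers s⁆ = AA t s := by
  have nK : s ∈ 𝒩 (KK t) := n_K t h.s_H
  have a1 : ⁅KK t, zpowers s⁆ ≤ 𝒞 (FF t) := by
    refine le_centralizer_symm (fittingOf_le_iff.2 fun p _ => le_centralizer_symm ?_)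
    rw [commutator_le]
    intro k hk x hx
    rcases (mem_zpowers_inv h.ss).1 hx with rfl | rfl
    · simp
    have hk' : k⁻¹ ∈ 𝒩 (pCoreOf p (KK t)) := inv_mem (le_normalizer_pCoreOf hk)
    rw [mem_cent_iff]
    intro y hy
    rcases hp p with e | e
    · have c1 := fun z hz => mem_c1.1 (comm_bot_iff.1 e hz : z ∈ 𝒞₁ x)
      have c2 := c1 _ (conj_mem_of_mem_norm hk' hy)
      have c3 := c1 _ hy
      rw [commutatorElement_def]
      calc k * x * k⁻¹ * x⁻¹ * y = k * x * k⁻¹ * x⁻¹ * (y * x) * x⁻¹ := by group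
        _ = k * (x * (k⁻¹ * y * k⁻¹⁻¹)) * k⁻¹ * x⁻¹ := by rw [c3]; group
        _ = _ := by rw [← c2]; group
    · have c1 := inv_of_fpf (odd_of_le pCoreOf_le (odd_oc _)) h.ss (n_R t p h.s_H) e
      have c2 := c1 _ (conj_mem_of_mem_norm hk' (inv_mem hy))
      have c3 := c1 _ (inv_mem hy)
      have c4 : x⁻¹ = x := inv_eq_self h.ss
      rw [commutatorElement_def]
      calc k * x * k⁻¹ * x⁻¹ * y = k * x * k⁻¹ * x⁻¹ * (y⁻¹⁻¹) := by group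
        _ = k * x * k⁻¹ * y⁻¹ * x⁻¹ := by rw [← c3]; group
        _ = k * (x * (k⁻¹ * y⁻¹ * k⁻¹⁻¹) * x⁻¹) * x * k⁻¹ * x⁻¹ := by group
        _ = _ := by rw [c2]; group
  refine le_antisymm ?_ (commutator_mono (F_le t) le_rfl)
  rw [← CfsgH2.commutator_commutator_eq (zpowers_le_norm nK) (h.cop (odd_oc _))
    (Or.inl (solv_two (two_zpowers h.ss)))]
  exact commutator_mono ((le_inf (comm_le_left nK) a1).trans (F_self t)) le_rfl

theorem t_nA : t ∈ 𝒩 (AA t s) := h.n_A (h.cV h.t_mem)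

theorem t_not : t ∉ AA t s := fun hh =>
  h.t_ne (eq_one_of_odd_of_sq (odd_orderOf_of_mem h.odd_A hh) h.tt)

theorem card_K0 : #(AA t s ⊔ zpowers t) = 2 * #(AA t s) := card_sup_zpowers h.t_nA h.tt h.t_not

theorem three_le : 3 ≤ #(AA t s) := by
  have h1 : #(AA t s) ≠ 1 := fun e => h.A_ne (card_eq_one.1 e)
  obtain ⟨k, hk⟩ := h.odd_A
  omega

/-- case B (i) -/
theorem case_i (hV4 : SpecV4.{u}) (hp : ∀ (p : ℕ) [Fact p.Prime],
    ⁅pCoreOf p (KK t), zpowers s⁆ = ⊥ ∨ pCoreOf p (KK t) ⊓ 𝒞₁ s = ⊥) :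
    TO ⊤ (AA t s ⊔ zpowers t) t s := by
  have e := h.comm_eq hp
  have hU : UU t s = ⊥ := by
    by_contra hU
    obtain ⟨p, _, h0⟩ := h.exists_p
    have := (hV4 G t s _ _ h.v4).2.2 (by
      rw [e]; exact le_bot_iff.1 ((inf_le_inf_left _ inf_le_right).trans h.A_U.le)) hU
    exact (h.dvd h0).2 (((h.dvd h0).1.trans (dvd_pow_self _ two_ne_zero)).trans this)
  have hK : KK t = AA t s := by
    have d : ⁅KK t, zpowers s⁆ ⊔ UU t s = KK t := h.dec (odd_oc _) (n_K t h.s_H)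
    rw [e, hU, sup_bot_eq] at d
    exact d.symm
  set K0 := AA t s ⊔ zpowers t with hK0
  have lH : K0 ≤ 𝒞₁ t := sup_le (h.A_le.trans ((F_le t).trans (K_le t))) (zpowers_le.2 (mem_c1.2 rfl))
  have inv : ∀ y ∈ K0, s * y * s⁻¹ = y⁻¹ := fun y hy => by
    rcases (mem_sup_zpowers h.t_nA h.tt).1 hy with m | m
    · exact h.A_inv y m
    · have c1 := h.A_inv _ m
      have c2 := mem_c1.1 (lH hy)
      have c3 : s * t * s⁻¹ = t := by rw [← h.comm]; group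
      have c4 : t⁻¹ = t := inv_eq_self h.tt
      calc s * y * s⁻¹ = s * (y * t) * s⁻¹ * (s * t * s⁻¹)⁻¹ := by group
        _ = (t * y)⁻¹ * t⁻¹ := by rw [c1, c3, c2]
        _ = y⁻¹ * (t * t)⁻¹ := by group
        _ = _ := by rw [h.tt]; group
  have cK : K0 ≤ 𝒞 K0 := comm_of_inv inv
  have ns : s ∈ 𝒩 K0 := mem_norm_of_inv inv
  have eH : 𝒞₁ t = K0 ⊔ zpowers s := by
    rw [← h.sup_H, hK, h.V_eq, closure_pair, hK0, sup_assoc]
  have nz : ∀ y ∈ K0, y ≠ 1 → 𝒩 (zpowers y) = 𝒞₁ t := fun y hy hy1 => by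
    refine h.norm_eq (by simpa using hy1) (zpowers_le.2 (lH hy)) ?_
    rw [eH]
    refine sup_le ((le_c1 cK hy).trans (c1_le_norm_zpowers y)) (zpowers_le.2
      (mem_norm_of_inv fun z hz => inv z (zpowers_le.2 hy hz)))
  have c : #K0 = 2 * #(AA t s) := h.card_K0
  have c3 := h.three_le
  obtain ⟨k, hk⟩ := h.odd_A
  refine ⟨⟨h.c.simp, le_top, mem_sup_right (mem_zpowers t), mem_top _, fun hs => ?_, h.t_ne, h.tt,
    h.ss, le_cent_iff.1 cK, inv, fun g _ hg => ?_, fun y hy hy1 g _ hg => ?_,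
    fun v _ h1 hv => ?_, by omega⟩, by omega, by omega⟩
  · rcases (mem_sup_zpowers h.t_nA h.tt).1 hs with m | m
    · exact h.s_ne (eq_one_of_odd_of_sq (odd_orderOf_of_mem h.odd_A m) h.ss)
    · rw [← h.comm] at m
      exact h.ts_ne_one (eq_one_of_odd_of_sq (odd_orderOf_of_mem h.odd_A m) (h.sq _ h.ts_mem))
  · rw [← mem_sup_zpowers ns h.ss, ← eH]; exact mem_c1.2 hg
  · have e1 := nz _ hg (conj_ne_one hy1)
    rw [← CfsgH1.cj_zpowers, ← cj_normalizer, nz y hy hy1] at e1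
    have e2 : g ∈ 𝒩 (𝒞₁ t) := mem_normalizer_iff_cj.2 e1
    rw [h.norm_eq (fun e => h.t_ne (mem_bot.1 (e ▸ mem_c1.2 rfl))) le_rfl le_normalizer] at e2
    exact mem_c1.1 e2
  · obtain ⟨g, hg⟩ := h.conj h1 hv
    exact ⟨g, mem_top _, hg⟩

end St

end GW

end CfsgAG
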