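/-
Janko--Thompson character theory: the interface between the character theory and the final
arithmetic.
-/
import Cfsg.Agent.AG.Defs

set_option autoImplicit false

namespace CfsgAG.JC

open Subgroup hiding one
open CfsgFT

universe u

/-- The output of the character theory: `x = e q`, `D₀ = (x + 1) τ - 1`, `N = |G : C(a)|`. -/
structure Out {G : Type*} [Group G] [Finite G] (a : G) (x h τ : ℤ) : Prop where
  hh : 2 * h = x + 1
  eqN : ((𝒞₁ a).index : ℤ) * τ ^ 2 = x * ((x + 1) * τ - 1) * ((x ^ 2 - 1) * τ - x)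
  row : (∃ (ω : G → ℂ) (y y' : ℤ), DIrr ⊤ ω ∧ ω 1 = (-((x + 1) * τ - 1) : ℤ) ∧ y ≠ 0 ∧ y' ≠ 0 ∧
      y + y' = (x + 1) * τ ∧
      ((𝒞₁ a).index : ℚ) * (-1 - 1 / ((x + 1) * τ - 1) + h ^ 2 / y + h ^ 2 / y') =
        -(x ^ 2 * (x + 1) * (x + 3))) ∨
    ∃ (α : G → ℂ) (v b : ℤ), DIrr ⊤ α ∧ α 1 = ((h - 1) * ((x + 1) * τ - 1) : ℤ) ∧ v ≠ 0 ∧ b ≠ 0 ∧
      (h - 1) * ((x + 1) * τ - 1) + v + b = 1 ∧
      ((𝒞₁ a).index : ℚ) * (-1 + (h - 1) / ((x + 1) * τ - 1) + 4 * h ^ 2 / v + h ^ 2 / b) =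
        -(x ^ 2 * (x + 1) * (x + 3))

/-- WP JF: the final arithmetic. -/
def SpecJF : Prop :=
  ∀ (G : Type u) [Group G] [Finite G], AG (⊤ : Subgroup G) →
    ∀ L a K t s, CL (⊤ : Subgroup G) L a → TO L K t s →
    ∀ e q p Q A w, LS L K t e q p Q A w → JL K a t e q p Q A → ∀ h τ, Out a (e * q) h τ → False

end CfsgAG.JC
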