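/-
Janko--Thompson character theory, part 3: the generalised characters `Θ`.
-/
import Cfsg.Agent.AG.JC2
import Cfsg.Agent.AG.BSW7

set_option autoImplicit false

namespace CfsgAG.JC

open Subgroup hiding one
open CfsgFT BW
open scoped ComplexConjugate Classical

variable {G : Type*} [Group G] [Finite G]

/-- a non-trivial character which is `1` on the elements of even order -/
structure Gd (L : Subgroup G) (φ : G → ℂ) : Prop where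
  d : DIrr L φ
  o : ip L φ (one L) = 0
  ev : ∀ g ∈ L, Even (orderOf g) → φ g = 1

/-- `Θ + 1` -/
noncomputable def Th (L : Subgroup G) (a : G) (φ : G → ℂ) : G → ℂ := TT a (φ - one L) + one ⊤

theorem dIrr_one (X : Subgroup G) : DIrr X (one X) :=
  dIrr_of_nrm (irr_mem_VC (mem_Lin.1 (one_mem_Lin X)).1) (by
    have := ip_one_one (X := X); rw [ip_self] at this; exact_mod_cast this)

theorem cm_one (t : G) : cm t (one ⊤) = 1 := by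
  rw [cm_dIrr t (dIrr_one ⊤), one_apply_of_mem (mem_top t), one_apply_one]; simp

theorem Gd.VC {L : Subgroup G} {φ : G → ℂ} (hφ : Gd L φ) : φ - one L ∈ VC L :=
  sub_mem hφ.d.mem_VC (dIrr_one L).mem_VC

theorem Gd.on {L : Subgroup G} {φ : G → ℂ} (hφ : Gd L φ) : φ - one L ∈ CFon L (Od L) := by
  refine ⟨vc_mem_CF hφ.VC, fun x hx => ?_⟩
  by_cases e : x ∈ L
  · rw [Pi.sub_apply, hφ.ev x e (Nat.not_odd_iff_even.1 fun o => hx ⟨e, o⟩), one_apply_of_mem e, sub_self]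
  · exact (vc_mem_CF hφ.VC).1 x e

section Th

variable {L : Subgroup G} {a : G} (h : CL ⊤ L a) {φ φ' : G → ℂ} (hφ : Gd L φ)
include h hφ

theorem Th_VC : Th L a φ ∈ VC ⊤ := add_mem (TT_VC h hφ.VC) (dIrr_one ⊤).mem_VC

theorem ip_one_Th : ip ⊤ (one ⊤) (Th L a φ) = 0 := by
  rw [Th, ip_add_right, ip_one_TT h hφ.on.1, ip_sub_right, ip_eq_zero_comm.1 hφ.o, ip_one_one,
    ip_one_one]; ring

theorem ip_TT_Th {f : G → ℂ} (hf : f ∈ CFon L (Od L)) :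
    ip ⊤ (TT a f) (Th L a φ) = 2 * ip L f φ - ip L f (one L) := by
  rw [Th, ip_add_right, ip_TT_TT h hf hφ.on, ← conj_ip _ (one ⊤), ip_one_TT h hf.1, conj_ip, ip_sub_right]
  ring

theorem ip_Th_Th (hφ' : Gd L φ') : ip ⊤ (Th L a φ) (Th L a φ') = 2 * ip L φ φ' + 1 := by
  rw [Th, ip_add_left, ip_TT_Th h hφ' hφ.on, ip_one_Th h hφ', ip_sub_left, ip_sub_left, hφ.o,
    ip_eq_zero_comm.1 hφ'.o, ip_one_one]; ring

theorem Th_norm : ip ⊤ (Th L a φ) (Th L a φ) = 3 := by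
  rw [ip_Th_Th h hφ hφ, hφ.d.ip_self]; norm_num

theorem Th_one : Th L a φ 1 = 1 := by
  rw [Th, Pi.add_apply, TT_odd h hφ.on (by simp), one_apply_one, zero_add]

end Th

/-- the data -/
structure Dat (G : Type*) [Group G] [Finite G] where
  (L K Q A : Subgroup G)
  (a t s w : G)
  (e x h : ℤ)
  (q p m : ℕ)
  (φ₁ φ₂ φ₃ : G → ℂ)
  ag : AG (⊤ : Subgroup G)
  cl : CL ⊤ L a
  tO : TO L K t s
  ls : LS0 L K t e q p Q A w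
  jl : JL K a t e q p Q A
  lc : LC L K Q A x φ₁ φ₂ φ₃
  hx : x = e * q
  hm : #K = 2 * m
  hh : h = 2 * m * e + 1

namespace Dat

variable (D : Dat G)

theorem bb : BB D.L D.K D.t D.s := ⟨D.tO.toBH⟩

theorem ee : D.e * D.e = 1 := by rcases D.ls.sign with e | e <;> simp [e]

theorem x_eq : D.x = 4 * D.m * D.e + 1 := by
  rw [D.hx, D.ls.q_eq, D.hm]; push_cast; linear_combination D.ee

theorem two_h : 2 * D.h = D.x + 1 := by rw [D.x_eq, D.hh]; ring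

theorem m_odd : Odd D.m := by have := D.tO.mod; rw [D.hm] at this; exact Nat.odd_iff.2 (by omega)

theorem m3 : 3 ≤ D.m := by have := D.tO.six; rw [D.hm] at this; omega

theorem card_A : (#D.A : ℤ) = D.e * D.h := by
  rw [D.ls.card_A, D.hm, D.hh]; push_cast; linear_combination (-2 * D.m) * D.ee

theorem card_L : (#D.L : ℤ) = 4 * D.m * D.x * D.h := by
  have h1 : (2 * #D.L : ℤ) = D.q * (D.q ^ 2 - 1) := by
    have h0 : 1 ≤ D.q ^ 2 := Nat.one_le_pow _ _ (D.ls.card_Q ▸ Nat.card_pos)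
    exact_mod_cast D.ls.card_X
  have h2 : (D.q : ℤ) = D.e * D.x := by rw [D.hx]; linear_combination (-D.q) * D.ee
  have h3 := D.ee
  rw [h2, D.x_eq] at h1
  rw [D.x_eq, D.hh]
  rcases D.ls.sign with e | e <;> rw [e] at h1 ⊢ <;> linarith

theorem big : 13 ≤ D.x ∧ 7 ≤ D.h ∨ D.x ≤ -11 ∧ D.h ≤ -5 := by
  have h1 := D.x_eq
  have h2 := D.hh
  have h3 := D.m3
  rcases D.ls.sign with e | e <;> rw [e] at h1 h2 <;> omega

theorem h_mod : ∃ c : ℤ, D.h = 4 * c - 1 := by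
  obtain ⟨k, hk⟩ := D.m_odd
  have h2 := D.hh
  rcases D.ls.sign with e | e <;> rw [e, hk] at h2
  · exact ⟨k + 1, by rw [h2]; push_cast; ring⟩
  · exact ⟨-k, by rw [h2]; push_cast; ring⟩

theorem g₁ : Gd D.L D.φ₁ := ⟨D.lc.d₁, D.lc.o₁, fun g hg e => (D.lc.even g hg e).1⟩
theorem g₂ : Gd D.L D.φ₂ := ⟨D.lc.d₂, D.lc.o₂, fun g hg e => (D.lc.even g hg e).2.1⟩
theorem g₃ : Gd D.L D.φ₃ := ⟨D.lc.d₃, D.lc.o₃, fun g hg e => (D.lc.even g hg e).2.2⟩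

theorem two_hc : (2 * D.h : ℂ) = D.x + 1 := by exact_mod_cast D.two_h

theorem deg₂ : D.φ₂ 1 = -D.h := by linear_combination D.lc.deg₂ / 2 + D.two_hc / 2

theorem deg₃ : D.φ₃ 1 = -D.h := by linear_combination D.lc.deg₃ / 2 + D.two_hc / 2

/-- `Θ₁ + 1` -/
noncomputable abbrev T₁ := Th D.L D.a D.φ₁
/-- `Θ₂ + 1` -/
noncomputable abbrev T₂ := Th D.L D.a D.φ₂
/-- `Θ₃ + 1` -/
noncomputable abbrev T₃ := Th D.L D.a D.φ₃
/-- the number of involutions -/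
noncomputable abbrev N := (𝒞₁ D.a).index

theorem cm_TT' {f : G → ℂ} (hf : f ∈ CFon D.L (Od D.L)) :
    (4 * D.m) ^ 2 * (D.N * cm D.a (TT D.a f)) = 4 * Lam D.L D.t f := by
  rw [← cm_TT D.cl D.tO.toBH hf, D.bb.dt.card_H, D.hm]; push_cast; ring

theorem m_ne : (D.m : ℂ) ≠ 0 := Nat.cast_ne_zero.2 (by have := D.m3; omega)

theorem h_ne : (D.h : ℂ) ≠ 0 := Int.cast_ne_zero.2 (by have := D.big; omega)

theorem N_ne : (D.N : ℂ) ≠ 0 := Nat.cast_ne_zero.2 index_ne_zero_of_finite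

theorem cm_T₂ : D.N * (cm D.a D.T₂ - 1) = -(D.x ^ 2 * (D.x + 1) * (D.x + 3)) := by
  have h1 := D.cm_TT' D.g₂.on
  have h2 : (#D.L : ℂ) = 4 * D.m * D.x * D.h := by exact_mod_cast D.card_L
  have h3 := D.m_ne
  have h4 := D.h_ne
  rw [map_sub, Lam_dIrr D.bb.tX D.lc.d₂, Lam_one D.bb.tX, h2, D.deg₂,
    D.g₂.ev _ D.bb.tX (by rw [orderOf_inv' D.tO.t_ne D.tO.tt]; decide)] at h1
  rw [T₂, Th, map_add, cm_one, add_sub_cancel_right, ← D.two_hc,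
    show (D.x : ℂ) + 3 = 2 * D.h + 2 by rw [D.two_hc]; ring]
  apply mul_left_cancel₀ (pow_ne_zero 2 (mul_ne_zero (by norm_num : (4 : ℂ) ≠ 0) h3))
  rw [h1]; field_simp; ring

theorem eq_one_of_dvd {T : Subgroup G} (hT : (#T).Coprime D.q) {g : G} (hg : g ∈ T)
    (h : orderOf g ∣ D.q) : g = 1 :=
  orderOf_eq_one_iff.1 (Nat.eq_one_of_dvd_coprimes hT (orderOf_dvd_of_mem hg) h)

theorem cop_K : (#D.K).Coprime D.q := by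
  rw [← Nat.isCoprime_iff_coprime, D.ls.q_eq]
  exact ⟨-2 * D.e, D.e, by linear_combination D.ee⟩

theorem cop_A : (#D.A).Coprime D.q := by
  rw [← Nat.isCoprime_iff_coprime, D.ls.q_eq, D.ls.card_A]
  exact ⟨2 * D.e, -D.e, by linear_combination D.ee⟩

theorem kappa {c : ℤ} (hc : D.h = 4 * c - 1) {g : G} (hg : g ∈ 𝒞₁ D.a) :
    ∃ k : ℤ, one D.L g + D.x * D.φ₁ g - D.h * D.φ₂ g - D.h * D.φ₃ g =
      4 * ((if Odd (orderOf g) then if orderOf g ∣ D.q ∧ g ≠ 1 then c else 1 else 0 : ℤ) + 2 * k) := by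
  have hc' : (D.h : ℂ) = 4 * c - 1 := by exact_mod_cast hc
  have hx := D.two_hc
  by_cases o : Odd (orderOf g)
  swap
  · refine ⟨0, ?_⟩
    rw [if_neg o]
    by_cases e : g ∈ D.L
    · obtain ⟨h1, h2, h3⟩ := D.lc.even g e (Nat.not_odd_iff_even.1 o)
      rw [one_apply_of_mem e, h1, h2, h3]; push_cast; linear_combination -hx
    · simp [one_apply_of_notMem e, (vc_mem_CF D.lc.d₁.mem_VC).1 g e, (vc_mem_CF D.lc.d₂.mem_VC).1 g e,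
        (vc_mem_CF D.lc.d₃.mem_VC).1 g e]
  have e := mem_of_odd D.cl hg o
  have h0 := D.lc.odd g e o
  rw [if_pos o, one_apply_of_mem e]
  by_cases h1 : g = 1
  · refine ⟨12 * c ^ 2 - 8 * c + 1, ?_⟩
    rw [if_neg fun e => e.2 h1, h1, D.lc.deg₁, D.deg₂, D.deg₃]
    push_cast
    linear_combination (-D.x - 8 * c + 3) * hx + (2 * D.h + 2 * D.x + 24 * c - 8) * hc'
  obtain ⟨y, hy, h2⟩ := D.ls.cover g e
  have h3 := (vc_mem_CF D.lc.d₁.mem_VC).2 y hy g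
  have h4 : y * g * y⁻¹ ≠ 1 := by rwa [Ne, conj_eq_one_iff]
  have h5 := orderOf_conj' y g
  rcases h2 with h2 | h2 | h2
  · refine ⟨2 * c - 1, ?_⟩
    rw [if_neg fun e => h4 (D.eq_one_of_dvd D.cop_K h2 (h5 ▸ e.1))]
    rw [(D.lc.onK _ h2 h4 (h5 ▸ o)).1] at h3
    rw [← h3] at h0 ⊢
    push_cast
    linear_combination (-D.h) * h0 - hx + 4 * hc'
  · refine ⟨0, ?_⟩
    rw [if_pos ⟨h5 ▸ D.ls.card_Q ▸ orderOf_dvd_of_mem h2, h1⟩]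
    rw [D.lc.onQ _ h2 h4] at h3
    rw [← h3] at h0 ⊢
    push_cast
    linear_combination (-D.h) * h0 + hc'
  · refine ⟨-c, ?_⟩
    rw [if_neg fun e => h4 (D.eq_one_of_dvd D.cop_A h2 (h5 ▸ e.1))]
    rw [(D.lc.onA _ h2 h4).1] at h3
    rw [← h3] at h0 ⊢
    push_cast
    linear_combination (-D.h) * h0 + hx - 2 * hc'

theorem val {ψ : G → ℂ} (hψ : DIrr ⊤ ψ) (h1 : ip ⊤ ψ (one ⊤) = 0)
    (r : ip ⊤ ψ D.T₁ ≠ 0 ∨ ip ⊤ ψ D.T₂ ≠ 0 ∨ ip ⊤ ψ D.T₃ ≠ 0) :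
    ψ D.a = ip ⊤ ψ D.T₁ * D.x - (ip ⊤ ψ D.T₂ + ip ⊤ ψ D.T₃) * D.h := by
  wlog hχ : ψ ∈ Irr ⊤ generalizing ψ
  · obtain ⟨ε, rfl | rfl, χ, hχ', rfl⟩ := hψ.exists_sign
    · exact (hχ (by rwa [one_smul])).elim
    rw [neg_smul, one_smul] at *
    simp only [ip_neg_left, ne_eq, neg_eq_zero] at h1 r ⊢
    rw [Pi.neg_apply, this (neg_neg χ ▸ hψ.neg) h1 r hχ']; ring
  obtain ⟨c, hc⟩ := D.h_mod
  have e : ∀ {φ}, Gd D.L φ → ip ⊤ ψ (Th D.L D.a φ) = ip D.L (sh D.a ψ) φ - ip D.L (sh D.a ψ) (one D.L) :=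
    fun hφ => by rw [Th, ip_add_right, h1, add_zero, ip_TT D.cl (irr_mem_CF hχ) hφ.on.1, ip_sub_right]
  have o₁ := D.lc.o₁
  have o₂ := D.lc.o₂
  have o₃ := D.lc.o₃
  have o₁₂ := D.lc.o₁₂
  have o₁₃ := D.lc.o₁₃
  have o₂₃ := D.lc.o₂₃
  obtain ⟨y, hy, h0⟩ : ∃ y ∈ Od D.L, ip ⊤ ψ D.T₁ * D.φ₁ y + ip ⊤ ψ D.T₂ * D.φ₂ y +
      ip ⊤ ψ D.T₃ * D.φ₃ y ≠ 0 := by
    by_contra! hh
    have f : ∀ {φ}, Gd D.L φ → ip ⊤ ψ D.T₁ * ip D.L D.φ₁ φ + ip ⊤ ψ D.T₂ * ip D.L D.φ₂ φ +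
        ip ⊤ ψ D.T₃ * ip D.L D.φ₃ φ = 0 := fun {φ} hφ => by
      have := ip_eq_zero_of_disjoint (H := D.L) (f := ip ⊤ ψ D.T₁ • D.φ₁ + ip ⊤ ψ D.T₂ • D.φ₂ +
        ip ⊤ ψ D.T₃ • D.φ₃) (g := φ - one D.L) fun x _ => by
        by_cases e : x ∈ Od D.L
        exacts [Or.inl (hh x e), Or.inr (hφ.on.2 x e)]
      simpa [ip_add_left, ip_smul_left, ip_sub_right, o₁, o₂, o₃] using this
    have f1 := f D.g₁
    have f2 := f D.g₂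
    have f3 := f D.g₃
    simp [D.lc.d₁.ip_self, D.lc.d₂.ip_self, D.lc.d₃.ip_self, o₁₂, o₁₃, o₂₃, ip_eq_zero_comm.1 o₁₂,
      ip_eq_zero_comm.1 o₁₃, ip_eq_zero_comm.1 o₂₃] at f1 f2 f3
    tauto
  have hn : ¬ 2 ∣ D.m * D.x * D.h := by
    obtain ⟨k, hk⟩ := D.m_odd
    have := D.two_h
    rw [Int.prime_two.dvd_mul, Int.prime_two.dvd_mul]
    omega
  have := block_sec D.cl (φ := ![one D.L, D.φ₁, D.φ₂, D.φ₃])
    (fun i => by fin_cases i; exacts [dIrr_one _, D.lc.d₁, D.lc.d₂, D.lc.d₃])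
    (fun i j hij => by
      fin_cases i <;> fin_cases j <;> simp at hij ⊢ <;>
        first | assumption | (rw [ip_eq_zero_comm]; assumption))
    (n := (D.m * D.x * D.h : ℤ).natAbs) (by rw [Int.natAbs_odd, ← Int.not_even_iff_odd, even_iff_two_dvd]; exact hn)
    (by have := D.card_L; rw [mul_assoc, mul_assoc, ← mul_assoc (D.m : ℤ)] at this; omega)
    (z := fun g => if Odd (orderOf g) then if orderOf g ∣ D.q ∧ g ≠ 1 then c else 1 else 0)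
    (fun g x => by simp only [orderOf_conj', ne_eq, conj_eq_one_iff])
    (fun g hg => (D.kappa hc hg).imp fun k hk => by
      rw [← hk]; simp [Fin.sum_univ_four, D.lc.deg₁, D.deg₂, D.deg₃, one_apply_one]; ring) hχ hy (by
      rw [e D.g₁, e D.g₂, e D.g₃] at h0
      simp only [Fin.sum_univ_four, Matrix.cons_val, one_apply_of_mem hy.1]
      convert h0 using 1
      linear_combination ip D.L (sh D.a ψ) (one D.L) * D.lc.odd y hy.1 hy.2)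
  rw [this, e D.g₁, e D.g₂, e D.g₃]
  simp only [Fin.sum_univ_four, Matrix.cons_val, one_apply_one, D.lc.deg₁, D.deg₂, D.deg₃]
  linear_combination (-ip D.L (sh D.a ψ) (one D.L)) * D.two_hc

/-- the row of a character -/
structure Row (ψ : G → ℂ) (r₁ r₂ r₃ : ℤ) : Prop where
  d : DIrr ⊤ ψ
  o : ip ⊤ ψ (one ⊤) = 0
  e₁ : ip ⊤ ψ D.T₁ = r₁
  e₂ : ip ⊤ ψ D.T₂ = r₂
  e₃ : ip ⊤ ψ D.T₃ = r₃

variable {D} {ψ ψ' : G → ℂ} {r₁ r₂ r₃ s₁ s₂ s₃ : ℤ}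

theorem Row.val (h : D.Row ψ r₁ r₂ r₃) (r : r₁ ≠ 0 ∨ r₂ ≠ 0 ∨ r₃ ≠ 0) :
    ψ D.a = r₁ * D.x - (r₂ + r₃) * D.h := by
  rw [D.val h.d h.o (by rw [h.e₁, h.e₂, h.e₃]; exact_mod_cast r), h.e₁, h.e₂, h.e₃]

theorem Row.neg (h : D.Row ψ r₁ r₂ r₃) : D.Row (-ψ) (-r₁) (-r₂) (-r₃) :=
  ⟨h.d.neg, by rw [ip_neg_left, h.o, neg_zero], by rw [ip_neg_left, h.e₁, Int.cast_neg],
    by rw [ip_neg_left, h.e₂, Int.cast_neg], by rw [ip_neg_left, h.e₃, Int.cast_neg]⟩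

theorem Row.uniq (h : D.Row ψ r₁ r₂ r₃) (h' : D.Row ψ s₁ s₂ s₃) : r₁ = s₁ ∧ r₂ = s₂ ∧ r₃ = s₃ := by
  have h1 := h.e₁.symm.trans h'.e₁
  have h2 := h.e₂.symm.trans h'.e₂
  have h3 := h.e₃.symm.trans h'.e₃
  exact ⟨by exact_mod_cast h1, by exact_mod_cast h2, by exact_mod_cast h3⟩

theorem Row.orth (h : D.Row ψ r₁ r₂ r₃) (h' : D.Row ψ' s₁ s₂ s₃) (e : ¬ (r₁ = s₁ ∧ r₂ = s₂ ∧ r₃ = s₃))
    (e' : ¬ (r₁ = -s₁ ∧ r₂ = -s₂ ∧ r₃ = -s₃)) : ip ⊤ ψ ψ' = 0 := by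
  rcases h.d.ip_cases h'.d with ⟨rfl, -⟩ | ⟨rfl, -⟩ | ⟨-, -, e⟩
  exacts [(e (h.uniq h')).elim, (e' (h.uniq h'.neg)).elim, e]

theorem dec_orth {φ a b c : G → ℂ} (hφ : Gd D.L φ) (h : Dec ⊤ (Th D.L D.a φ) a b c) :
    ip ⊤ a (one ⊤) = 0 ∧ ip ⊤ b (one ⊤) = 0 ∧ ip ⊤ c (one ⊤) = 0 := by
  simpa only [ip_eq_zero_comm (f := one ⊤)] using h.orth (dIrr_one ⊤) (ip_one_Th D.cl hφ)

theorem dec_perm {φ φ' a b c : G → ℂ} (hφ : Gd D.L φ) (hφ' : Gd D.L φ') (o : ip D.L φ φ' = 0)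
    (h : Dec ⊤ (Th D.L D.a φ) a b c) :
    ip ⊤ a (Th D.L D.a φ') = 1 ∧ ip ⊤ b (Th D.L D.a φ') = 0 ∧ ip ⊤ c (Th D.L D.a φ') = 0 ∨
    ip ⊤ a (Th D.L D.a φ') = 0 ∧ ip ⊤ b (Th D.L D.a φ') = 1 ∧ ip ⊤ c (Th D.L D.a φ') = 0 ∨
    ip ⊤ a (Th D.L D.a φ') = 0 ∧ ip ⊤ b (Th D.L D.a φ') = 0 ∧ ip ⊤ c (Th D.L D.a φ') = 1 :=
  h.perm (Th_VC D.cl hφ') (Th_norm D.cl hφ') (by rw [Th_one D.cl hφ, Th_one D.cl hφ'])
    (by rw [ip_Th_Th D.cl hφ hφ', o]; ring)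

variable (D) in
/-- the eight row pattern -/
structure R8 (ω ψ ψ' : G → ℂ) : Prop where
  dec : Dec ⊤ D.T₁ ω ψ ψ'
  r₀ : D.Row ω 1 1 1
  r : D.Row ψ 1 0 0
  r' : D.Row ψ' 1 0 0

variable (D) in
/-- the seven row pattern -/
structure R7 (α α' β : G → ℂ) : Prop where
  dec : Dec ⊤ D.T₁ α α' β
  r : D.Row α 1 1 0
  r' : D.Row α' 1 0 1
  r₀ : D.Row β 1 0 0

variable (D) in
theorem exists_rows : (∃ ω ψ ψ', D.R8 ω ψ ψ') ∨ ∃ α α' β, D.R7 α α' β := by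
  have key : ∀ {a b c}, Dec ⊤ D.T₁ a b c → ip ⊤ a D.T₂ = 1 → ip ⊤ b D.T₂ = 0 → ip ⊤ c D.T₂ = 0 →
      (∃ ω ψ ψ', D.R8 ω ψ ψ') ∨ ∃ α α' β, D.R7 α α' β := fun {a b c} h e1 e2 e3 => by
    obtain ⟨o1, o2, o3⟩ := dec_orth D.g₁ h
    have ra : ∀ r : ℤ, ip ⊤ a D.T₃ = r → D.Row a 1 1 r := fun r e =>
      ⟨h.da, o1, by simp [h.ip_a], by simp [e1], e⟩
    have rb : ∀ r : ℤ, ip ⊤ b D.T₃ = r → D.Row b 1 0 r := fun r e =>
      ⟨h.db, o2, by simp [h.ip_b], by simp [e2], e⟩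
    have rc : ∀ r : ℤ, ip ⊤ c D.T₃ = r → D.Row c 1 0 r := fun r e =>
      ⟨h.dc, o3, by simp [h.ip_c], by simp [e3], e⟩
    rcases dec_perm D.g₁ D.g₃ D.lc.o₁₃ h with ⟨f1, f2, f3⟩ | ⟨f1, f2, f3⟩ | ⟨f1, f2, f3⟩
    · exact Or.inl ⟨a, b, c, h, ra 1 (by simp [f1]), rb 0 (by simp [f2]), rc 0 (by simp [f3])⟩
    · exact Or.inr ⟨a, b, c, h, ra 0 (by simp [f1]), rb 1 (by simp [f2]), rc 0 (by simp [f3])⟩
    · exact Or.inr ⟨a, c, b, h.swap', ra 0 (by simp [f1]), rc 1 (by simp [f3]), rb 0 (by simp [f2])⟩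
  obtain ⟨a, b, c, h⟩ := exists_dec (Th_VC D.cl D.g₁) (Th_norm D.cl D.g₁)
  rcases dec_perm D.g₁ D.g₂ D.lc.o₁₂ h with ⟨f1, f2, f3⟩ | ⟨f1, f2, f3⟩ | ⟨f1, f2, f3⟩
  exacts [key h f1 f2 f3, key h.swap f2 f1 f3, key h.swap'.swap f3 f1 f2]

theorem R7.row {α α' β : G → ℂ} (h : D.R7 α α' β) (hψ : DIrr ⊤ ψ) (e : ip ⊤ ψ D.T₁ = 1) :
    ψ = α ∨ ψ = α' ∨ ψ = β := by
  rcases h.dec.cases hψ with e' | e' | e'
  exacts [by rw [e] at e'; norm_num at e', e'.2, by rw [e] at e'; norm_num at e']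

theorem R8.row {ω χ χ' : G → ℂ} (h : D.R8 ω χ χ') (hψ : DIrr ⊤ ψ) (e : ip ⊤ ψ D.T₁ = 1) :
    ψ = ω ∨ ψ = χ ∨ ψ = χ' := by
  rcases h.dec.cases hψ with e' | e' | e'
  exacts [by rw [e] at e'; norm_num at e', e'.2, by rw [e] at e'; norm_num at e']

theorem row_of (hψ : DIrr ⊤ ψ) (e : ip ⊤ ψ D.T₁ = 1) :
    D.Row ψ 1 0 0 ∨ ψ D.a = D.h - 1 ∨ ψ D.a = -1 := by
  have hx := D.two_hc
  rcases D.exists_rows with ⟨_, _, _, h⟩ | ⟨_, _, _, h⟩ <;> rcases h.row hψ e with rfl | rfl | rfl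
  · exact Or.inr (Or.inr (by rw [h.r₀.val (by simp)]; push_cast; linear_combination -hx))
  · exact Or.inl h.r
  · exact Or.inl h.r'
  · exact Or.inr (Or.inl (by rw [h.r.val (by simp)]; push_cast; linear_combination -hx))
  · exact Or.inr (Or.inl (by rw [h.r'.val (by simp)]; push_cast; linear_combination -hx))
  · exact Or.inl h.r₀

theorem dec_T₂ {r : ℤ} (h : D.Row ψ 1 1 r) (hr : r = 0 ∨ r = 1) : ∃ y y' : ℤ, y ≠ 0 ∧ y' ≠ 0 ∧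
    ψ 1 + y + y' = 1 ∧ D.N * (-1 + ψ D.a ^ 2 / ψ 1 + ((2 - r) * D.h) ^ 2 / y + D.h ^ 2 / y') =
      -(D.x ^ 2 * (D.x + 1) * (D.x + 3)) := by
  have key : ∀ {b c}, Dec ⊤ D.T₂ ψ b c → ip ⊤ b D.T₃ = (1 - r : ℤ) → ip ⊤ c D.T₃ = 0 → ∃ y y' : ℤ,
      y ≠ 0 ∧ y' ≠ 0 ∧ ψ 1 + y + y' = 1 ∧
      D.N * (-1 + ψ D.a ^ 2 / ψ 1 + ((2 - r) * D.h) ^ 2 / y + D.h ^ 2 / y') =
        -(D.x ^ 2 * (D.x + 1) * (D.x + 3)) := fun {b c} hd e1 e2 => by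
    obtain ⟨-, o2, o3⟩ := dec_orth D.g₂ hd
    obtain ⟨-, f2, f3⟩ := (dec_perm D.g₂ D.g₁ (ip_eq_zero_comm.1 D.lc.o₁₂) hd).resolve_right (by
      simp [h.e₁])
    have rb : D.Row b 0 1 (1 - r) := ⟨hd.db, o2, by simp [f2], by simp [hd.ip_b], e1⟩
    have rc : D.Row c 0 1 0 := ⟨hd.dc, o3, by simp [f3], by simp [hd.ip_c], by simp [e2]⟩
    obtain ⟨y, hy⟩ := vc_one hd.db.mem_VC
    obtain ⟨y', hy'⟩ := vc_one hd.dc.mem_VC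
    refine ⟨y, y', by simpa [hy] using hd.db.apply_one_ne_zero,
      by simpa [hy'] using hd.dc.apply_one_ne_zero, ?_, ?_⟩
    · rw [← hy, ← hy', ← Th_one D.cl D.g₂, show Th D.L D.a D.φ₂ = _ from hd.eq]; rfl
    · rw [← D.cm_T₂, hd.eq, map_add, map_add, cm_dIrr _ hd.da, cm_dIrr _ hd.db, cm_dIrr _ hd.dc, hy, hy',
        rb.val (by simp), rc.val (by simp)]
      push_cast; ring
  obtain ⟨b, c, hd⟩ := exists_dec' (Th_VC D.cl D.g₂) (Th_norm D.cl D.g₂) h.d (by simp [h.e₂])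
  have e := h.e₃
  rcases dec_perm D.g₂ D.g₃ D.lc.o₂₃ hd with ⟨f1, f2, f3⟩ | ⟨f1, f2, f3⟩ | ⟨f1, f2, f3⟩ <;>
    rcases hr with rfl | rfl <;> simp [f1] at e
  exacts [key hd (by simp [f2]) f3, key hd (by simp [f2]) f3, key hd.swap' (by simp [f3]) f2]

end Dat

end CfsgAG.JC
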