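/-
Janko--Thompson character theory, part 4: induction from `⟨a⟩ × A`.
-/
import Cfsg.Agent.AG.JC3

set_option autoImplicit false

namespace CfsgAG.JC

open Subgroup hiding one
open CfsgFT BW
open scoped ComplexConjugate Classical

variable {G : Type*} [Group G]

namespace Hat

variable {B C : Subgroup G} {a : G} (h : Hat B C a)
include h

theorem mul_mem' {g : G} (hg : a * g ∈ B) : g ∈ C := (C.mul_mem_cancel_left h.mem).1 (h.le hg)

theorem sq_mem {g : G} (hg : g ∈ C) : g * g ∈ B := by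
  rcases h.cov g hg with e | e
  exacts [mul_mem e e, h.sq_mul hg ▸ mul_mem e e]

theorem ind_on {P : G → Prop} (h1 : ∀ g ∈ B, P g) (h2 : ∀ g ∈ B, P (a * g)) : ∀ g ∈ C, P g :=
  fun g hg => (h.cov g hg).elim (h1 g) fun e => h.aag g ▸ h2 _ e

theorem comm_of {w : G} (hB : ∀ y ∈ B, w * y = y * w) (ha : w * a = a * w) : ∀ y ∈ C, w * y = y * w :=
  h.ind_on hB fun y hy => by rw [← mul_assoc, ha, mul_assoc, hB y hy, mul_assoc]

theorem isComm (hB : ∀ x ∈ B, ∀ y ∈ B, x * y = y * x) : ∀ x ∈ C, ∀ y ∈ C, x * y = y * x :=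
  fun x hx y hy => (h.comm_of (fun z hz => (h.comm_of (hB z hz) (h.comm z (h.le hz)).symm y hy).symm)
    (h.comm y hy).symm x hx).symm

theorem inv_of {w : G} (hB : ∀ y ∈ B, w * y * w⁻¹ = y⁻¹) (ha : w * a = a * w) :
    ∀ y ∈ C, w * y * w⁻¹ = y⁻¹ :=
  h.ind_on hB fun y hy => by
    rw [← mul_assoc, ha, mul_assoc a, mul_assoc a, hB y hy, mul_inv_rev, inv_eq_of_mul_eq_one_right h.aa,
      h.comm _ (h.le (inv_mem hy))]

theorem mem_of_le {L : Subgroup G} (hL : B ≤ L) (ha : a ∉ L) {g : G} (hg : g ∈ C) (hg' : g ∈ L) : g ∈ B :=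
  (h.cov g hg).resolve_right fun e => ha ((L.mul_mem_cancel_right hg').1 (hL e))

theorem ex_zero {f : G → ℂ} (hf : f ∈ CF B) (h0 : ∀ g, g * g = 1 → f g = 0) (ε : ℤ) {g : G}
    (hg : g * g = 1) : ex a ε f g = 0 := by
  by_cases e : a * g ∈ B
  · rw [ex, h0 g hg, h0 _ ((h.sq_mul (h.mul_mem' e)).trans hg)]; simp
  · rw [ex, h0 g hg, hf.1 _ e]; simp

theorem ip_ex_ex [Finite G] (ε ε' : ℤ) {f f' : G → ℂ} (hf : f ∈ CF B) (hf' : f' ∈ CF B) :
    2 * ip C (ex a ε f) (ex a ε' f') = (1 + ε * ε') * ip B f f' := by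
  rw [h.ip_ex _ _ hf', ← ip_smul_left]
  exact ip_congr fun x hx => by simp only [ex, h.aag, hf.1 _ (h.not_mul hx), Pi.smul_apply, smul_eq_mul]; ring

theorem ip_int [Finite G] {X : Subgroup G} (hC : C ≤ X) {ψ f : G → ℂ} (hψ : ψ ∈ VC X) (hf : f ∈ VC B)
    {ε : ℤ} (he : ε = 1 ∨ ε = -1) : ∃ k : ℤ, ip B (ex a ε ψ) f = 2 * k := by
  obtain ⟨k, hk⟩ := ip_vc (res_mem_VC hC hψ) (h.ex_VC hf he)
  exact ⟨k, by rw [← h.ip_ex ψ ε (vc_mem_CF hf), ← hk, ip_res_left le_rfl]⟩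

end Hat

theorem star_ex (a : G) (ε : ℤ) (f : G → ℂ) : star (ex a ε f) = ex a ε (star f) := by
  ext g; simp [ex]

variable [Finite G]

section lin

variable {T : Subgroup G} {l : G → ℂ} (hl : l ∈ Lin T)
include hl

theorem lin_VC : one T - l ∈ VC T := sub_mem (irr_mem_VC (one_mem_Irr T)) (irr_mem_VC (mem_Lin.1 hl).1)

theorem lin_zero (ho : Odd #T) (g : G) (hg : g * g = 1) : (one T - l) g = 0 := by
  by_cases e : g ∈ T
  · rw [eq_one_of_odd_of_sq (odd_orderOf_of_mem ho e) hg, Pi.sub_apply, one_apply_one, (mem_Lin.1 hl).2,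
      sub_self]
  · exact (vc_mem_CF (lin_VC hl)).1 g e

theorem ip_const' (h1 : l ≠ one T) {u : G → ℂ} {c : ℂ} (hc : ∀ y ∈ T, y ≠ 1 → u y = c) :
    ip T u (one T - l) = c := by
  rw [ip, Finset.sum_congr rfl (g := fun y => c * conj ((one T - l) y))
    fun y hy => by
      by_cases e : y = 1
      · rw [e, Pi.sub_apply, one_apply_one, (mem_Lin.1 hl).2, sub_self, map_zero, mul_zero, mul_zero]
      · rw [hc y (mem_fs.1 hy) e], ← Finset.mul_sum, ← map_sum, sum_one_sub hl h1, map_natCast,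
    mul_comm c, inv_mul_cancel_left₀ (card_ne_zero' T)]

theorem ip_lin (h1 : l ≠ one T) (ho : Odd #T) : ip T (one T - l) (one T - l) = 2 ∧
    ip T (one T - l) (star (one T - l)) = 1 := by
  have i1 := one_mem_Irr T
  have i2 := (mem_Lin.1 hl).1
  have i3 := star_mem_Irr i2
  have h2 : l ≠ star l := fun e => h1 (pf1_1 ho i2 e.symm)
  have h3 : one T ≠ star l := fun e => h1 (by rw [← star_star l, ← e, CfsgFT.star_one])
  simp only [star_sub, CfsgFT.star_one, ip_sub_left, ip_sub_right, ip_irr i1 i1, ip_irr i1 i2, ip_irr i2 i1,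
    ip_irr i2 i2, ip_irr i1 i3, ip_irr i2 i3, if_neg h1, if_neg h1.symm, if_neg h2, if_neg h3, if_true]
  norm_num

end lin

theorem ip_dih {B : Subgroup G} {w : G} (hB : ∀ x ∈ B, ∀ y ∈ B, x * y = y * x) (hw : w ∉ B)
    (ww : w * w = 1) (hi : ∀ y ∈ B, w * y * w⁻¹ = y⁻¹) {F F' : G → ℂ} (hF' : F' ∈ VC B)
    (h : ∀ x, x ∉ B → x * w ∉ B → ip B F (fun g => F' (x⁻¹ * g * x)) = 0) :
    ip ⊤ (ind ⊤ B F) (ind ⊤ B F') = ip B F F' + ip B F (star F') := by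
  have wi := inv_eq_of_mul_eq_one_right ww
  rw [ip_ind_ind_dih (D := B) hB hw (vc_mem_CF hF') (by rwa [wi])]
  congr 1
  refine ip_congr fun g hg => ?_
  have := hi g hg
  rw [wi] at this ⊢
  rw [this, vc_inv hF']; rfl

namespace Dat

variable (D : Dat G)

/-- `⟨a⟩ × A` -/
abbrev Ah : Subgroup G := D.A ⊔ zpowers D.a

theorem odd_A : Odd #D.A := by
  have h1 := D.card_A
  obtain ⟨c, hc⟩ := D.h_mod
  rw [Nat.odd_iff]
  rcases D.ls.sign with e | e <;> rw [e] at h1 <;> omega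

theorem A_ne : D.A ≠ ⊥ := fun h => by
  have h1 := D.card_A
  have h2 := D.big
  rw [h, card_bot] at h1
  rcases D.ls.sign with e | e <;> rw [e] at h1 <;> omega

theorem dtA : DT D.L D.A (D.L ⊓ 𝒩 D.A) D.w :=
  LS0.dt D.ls (fun h => Nat.not_even_iff_odd.2 D.odd_A (even_iff_two_dvd.2 h)) D.A_ne

theorem comm_L {g : G} (hg : g ∈ D.L) : D.a * g = g * D.a := (hatL D.cl).comm g ((hatL D.cl).le hg)

theorem hat_of {B : Subgroup G} (hB : B ≤ D.L) : Hat B (B ⊔ zpowers D.a) D.a :=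
  hat_sup (fun e => D.cl.a_not (hB e)) D.cl.aa fun _ hb => D.comm_L (hB hb)

theorem hatA : Hat D.A D.Ah D.a := D.hat_of D.dtA.TX

theorem w_not : D.w ∉ D.Ah := fun e => D.dtA.sT (D.hatA.mem_of_le D.dtA.TX D.cl.a_not e D.ls.w_mem)

theorem Ah_comm : ∀ x ∈ D.Ah, ∀ y ∈ D.Ah, x * y = y * x := D.hatA.isComm D.dtA.comm

theorem Ah_inv : ∀ y ∈ D.Ah, D.w * y * D.w⁻¹ = y⁻¹ :=
  D.hatA.inv_of D.dtA.inv (D.comm_L D.ls.w_mem).symm

theorem Ah_ti {g x : G} (hg : g ∈ D.Ah) (h1 : g * g ≠ 1) (hx : x⁻¹ * g * x ∈ D.Ah) :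
    x ∈ D.Ah ∨ x * D.w ∈ D.Ah := by
  have H := D.hatA
  have y1 := H.sq_mem hg
  have y2 : x⁻¹ * (g * g) * x ∈ D.A := by convert H.sq_mem hx using 1; group
  have v2 : x * D.a * x⁻¹ * (x * D.a * x⁻¹) = 1 := by rw [conj_mul, D.cl.aa]; group
  have hc : x * D.a * x⁻¹ * (g * g) = g * g * (x * D.a * x⁻¹) := by
    calc _ = x * (D.a * (x⁻¹ * (g * g) * x)) * x⁻¹ := by group
      _ = _ := by rw [H.comm _ (H.le y2)]; group
  have hx' : x ∈ 𝒞₁ D.a := by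
    rcases D.jl.cy _ y1 h1 _ hc with e | e
    · exact (D.cl.a_ne (conj_eq_one_iff.1 (eq_one_of_odd_of_sq (odd_orderOf_of_mem D.odd_A e) v2))).elim
    have e' : x * D.a * x⁻¹ ∈ D.Ah := (D.Ah.mul_mem_cancel_right H.mem).1 (H.le e)
    have := eq_one_of_odd_of_sq (odd_orderOf_of_mem D.odd_A e) (by
      rw [← H.comm _ e', H.sq_mul e', v2])
    rw [mul_eq_one_iff_eq_inv, inv_eq_of_mul_eq_one_right D.cl.aa] at this
    exact mem_c1.2 (mul_inv_eq_iff_eq_mul.1 this)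
  have key : ∀ l ∈ D.L, l⁻¹ * (g * g) * l ∈ D.A → l ∈ D.A ∨ l * D.w ∈ D.A := fun l hl e =>
    D.dtA.cov l (inv_mem_iff.1 (D.dtA.ti _ y1 h1 _ (inv_mem hl) (by rwa [inv_inv])))
  rcases (hatL D.cl).cov x hx' with e | e
  · exact (key x e y2).imp (fun e => H.le e) fun e => H.le e
  · refine (key _ e ?_).imp H.mul_mem' fun e => H.mul_mem' (by rwa [← mul_assoc])
    rwa [mul_inv_rev, mul_assoc x⁻¹, mul_assoc x⁻¹, ← mul_assoc _ D.a, mul_assoc D.a⁻¹,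
      ← H.comm _ (H.le y1), inv_mul_cancel_left, ← mul_assoc]

theorem pc_Ah {g : G} (hg : g ∈ D.Ah) (h1 : g * g ≠ 1) : pc ⊤ D.a g = #D.Ah := by
  rw [pc_eq (mem_top _) D.cl.a_ne D.cl.aa D.cl.conj (mem_top _)]
  have wi := inv_eq_of_mul_eq_one_right D.ls.ww
  have : {v | v ∈ (⊤ : Subgroup G) ∧ v ≠ 1 ∧ v * v = 1 ∧ v * g * v⁻¹ = g⁻¹ ∧ v ≠ g} =
      (· * D.w) '' (D.Ah : Set G) := by
    ext v
    constructor
    · rintro ⟨-, -, h3, h4, -⟩
      have vi := inv_eq_of_mul_eq_one_right h3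
      rcases D.Ah_ti hg h1 (x := v) (by rw [vi] at h4 ⊢; exact h4 ▸ inv_mem hg) with e | e
      · rw [D.Ah_comm v e g hg, mul_inv_cancel_right] at h4
        exact (h1 (mul_eq_one_iff_eq_inv.2 h4)).elim
      · exact ⟨_, e, by simp only [mul_assoc, D.ls.ww, mul_one]⟩
    · rintro ⟨k, hk, rfl⟩
      have h2 : k * D.w ∉ D.Ah := fun e => D.w_not ((D.Ah.mul_mem_cancel_left hk).1 e)
      refine ⟨trivial, fun e : k * D.w = 1 => h2 (e ▸ one_mem _), ?_, ?_, fun e : k * D.w = g => h2 (e ▸ hg)⟩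
      · have := D.Ah_inv k hk
        rw [wi] at this
        simp only [mul_assoc] at this ⊢
        rw [this, mul_inv_cancel]
      · calc _ = k * (D.w * g * D.w⁻¹) * k⁻¹ := by group
          _ = _ := by rw [D.Ah_inv g hg, D.Ah_comm k hk _ (inv_mem hg), mul_inv_cancel_right]
  rw [this, Set.ncard_image_of_injective _ (mul_left_injective _)]
  rfl

/-- `γ±` -/
noncomputable def gm (ε : ℤ) (l : G → ℂ) : G → ℂ := ind ⊤ D.Ah (ex D.a ε (one D.A - l))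

section gm

variable {D} {l : G → ℂ} (hl : l ∈ Lin D.A) {ε ε' : ℤ}
include hl

theorem gm_VC (he : ε = 1 ∨ ε = -1) : D.gm ε l ∈ VC ⊤ := ind_mem_VC le_top (D.hatA.ex_VC (lin_VC hl) he)

theorem exA_zero {g : G} (hg : g * g = 1) : ex D.a ε (one D.A - l) g = 0 :=
  D.hatA.ex_zero (vc_mem_CF (lin_VC hl)) (lin_zero hl D.odd_A) ε hg

theorem gm_zero {g : G} (hg : g * g = 1) : D.gm ε l g = 0 := ind_apply_of_sq (fun _ => exA_zero hl) hg

theorem ip_gm {ψ : G → ℂ} (hψ : ψ ∈ CF ⊤) : 2 * ip ⊤ ψ (D.gm ε l) = ip D.A (ex D.a ε ψ) (one D.A - l) := by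
  rw [gm, ip_ind_right le_top _ hψ, D.hatA.ip_ex _ _ (vc_mem_CF (lin_VC hl))]

theorem ip_gm_gm (h1 : l ≠ one D.A) (he : ε' = 1 ∨ ε' = -1) :
    2 * ip ⊤ (D.gm ε l) (D.gm ε' l) = 3 * (1 + ε * ε') := by
  have hc := vc_mem_CF (lin_VC hl)
  have hv := D.hatA.ex_VC (lin_VC hl) he
  obtain ⟨i1, i2⟩ := ip_lin hl h1 D.odd_A
  rw [gm, gm, ip_dih D.Ah_comm D.w_not D.ls.ww D.Ah_inv hv fun x e1 e2 => ip_eq_zero_of_disjoint fun g hg => by
    by_cases e : g * g = 1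
    · exact Or.inl (exA_zero hl e)
    · exact Or.inr ((vc_mem_CF hv).1 _ fun e' => (D.Ah_ti hg e e').elim e1 e2), mul_add, star_ex,
    D.hatA.ip_ex_ex _ _ hc hc, D.hatA.ip_ex_ex _ _ hc (star_mem_CF hc), i1, i2]
  ring

theorem ip_one_gm (h1 : l ≠ one D.A) : 2 * ip ⊤ (one ⊤) (D.gm ε l) = 1 + ε := by
  rw [ip_gm hl (one_mem_CF _)]
  exact ip_const' hl h1 fun y _ _ => by simp [ex, one_top]

theorem cm_gm (h1 : l ≠ one D.A) :
    2 * (D.N * cm D.a (D.gm ε l)) = (1 + ε) * (D.x * (D.x - 1) * (D.x + 1) ^ 2) := by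
  have h2 := cm_ind D.a D.Ah (ex D.a ε (one D.A - l))
  have h3 : (D.Ah.index * #D.Ah : ℂ) = D.N * (2 * #D.L) := by
    rw [← Nat.cast_mul, index_mul_card, ← (𝒞₁ D.a).index_mul_card, (hatL D.cl).card]; push_cast; rfl
  have h4 : (#D.L : ℂ) = 4 * D.m * D.x * D.h := by exact_mod_cast D.card_L
  have h5 : (#D.A : ℂ) = D.e * D.h := by exact_mod_cast D.card_A
  have h6 : (D.x : ℂ) = 4 * D.m * D.e + 1 := by exact_mod_cast D.x_eq
  rw [Finset.sum_congr rfl fun y hy => show _ = #D.Ah * ex D.a ε (one D.A - l) y by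
    by_cases e : y * y = 1
    · rw [exA_zero hl e, mul_zero, mul_zero]
    · rw [D.pc_Ah (mem_fs.1 hy) e], ← Finset.mul_sum, D.hatA.sum_ex _ (vc_mem_CF (lin_VC hl)),
    sum_one_sub hl h1, ← mul_assoc, h3, sq, mul_assoc, mul_assoc] at h2
  rw [gm, mul_left_cancel₀ D.N_ne h2, h4, h5, ← D.two_hc, show (D.x : ℂ) - 1 = 4 * D.m * D.e by rw [h6]; ring]
  ring

theorem gm_sub : D.gm 1 l - D.gm (-1) l = TT D.a (gam D.L D.A l) := by
  refine eq_of_forall_ip_irr (sub_mem (ind_mem_CF le_top _) (ind_mem_CF le_top _)) (ind_mem_CF le_top _)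
    fun χ hχ => ?_
  have hc := irr_mem_CF hχ
  rw [← conj_ip, ← conj_ip _ χ, ip_TT D.cl hc (D.dtA.gam_CF l), ← ip_res_left le_rfl (sh D.a χ), gam,
    ip_ind_right D.dtA.TX _ (res_sh_CF D.cl hc), ip_res_left D.dtA.TX, ip_sub_right]
  congr 1
  have h1 := ip_gm hl (ε := 1) hc
  have h2 := ip_gm hl (ε := -1) hc
  have h3 : ip D.A (ex D.a 1 χ) (one D.A - l) - ip D.A (ex D.a (-1) χ) (one D.A - l) =
      2 * ip D.A (sh D.a χ) (one D.A - l) := by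
    rw [← ip_sub_left, ← ip_smul_left]
    congr 1; ext g; simp [ex, sh]; ring
  linear_combination (h1 - h2 + h3) / 2

end gm

end Dat

end CfsgAG.JC
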