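/-
Janko--Thompson character theory, part 5: the constituents of `γ±`.
-/
import Cfsg.Agent.AG.JC4

set_option autoImplicit false

namespace CfsgAG.JC

open Subgroup hiding one
open CfsgFT BW
open scoped ComplexConjugate Classical

variable {G : Type*} [Group G] [Finite G]

theorem TT_sub (a : G) (f f' : G → ℂ) : TT a (f - f') = TT a f - TT a f' := by
  rw [TT, TT, TT, ← map_sub, ← smul_sub]; rfl

namespace Dat

variable {D : Dat G} {l : G → ℂ} (hl : l ∈ Lin D.A) (h1 : l ≠ one D.A)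
include hl h1

theorem exists_eta : ∃ η η', D.Row η 0 0 0 ∧ D.Row η' 0 0 0 ∧ ip ⊤ η η' = 0 ∧ η D.a = D.x - 1 ∧
    η' D.a = D.x - 1 ∧ η 1 + η' 1 = 0 ∧ D.gm 1 l - D.gm (-1) l = one ⊤ - D.T₁ + (η + η') := by
  have dt := D.dtA
  obtain ⟨-, n3, n1⟩ := dt.tri hl fun e => h1 (pf1_1 D.odd_A (mem_Lin.1 hl).1 e)
  have c : ∀ {φ c}, Gd D.L φ → (∀ y ∈ D.A, y ≠ 1 → φ y = c) → ip D.L φ (gam D.L D.A l) = c :=
    fun hφ hc => dt.ip_const (vc_mem_CF hφ.d.mem_VC) hc hl h1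
  have c1 := c D.g₁ fun y hy e => (D.lc.onA y hy e).1
  have c2 := ip_eq_zero_comm.1 (c D.g₂ fun y hy e => (D.lc.onA y hy e).2.1)
  have c3 := ip_eq_zero_comm.1 (c D.g₃ fun y hy e => (D.lc.onA y hy e).2.2)
  obtain ⟨θ, ht⟩ := exists_tri' (dt.gam_VC hl) n3 n1 D.lc.d₁.neg (by rw [ip_neg_left, D.lc.o₁, neg_zero])
    (by rw [ip_neg_left, c1, neg_neg])
  have e : θ = gam D.L D.A l - (one D.L - D.φ₁) := by rw [ht.eq]; abel
  have hg : gam D.L D.A l ∈ CFon D.L (Od D.L) := ⟨dt.gam_CF l, fun x hx => dt.gam_off hl (by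
    rintro ⟨y, hy, g, hg, rfl⟩
    exact hx ⟨mul_mem (mul_mem hg (dt.TX hy.1)) (inv_mem hg),
      (orderOf_conj' g y).symm ▸ odd_orderOf_of_mem D.odd_A hy.1⟩)⟩
  have hθ : θ ∈ CFon D.L (Od D.L) := e ▸ sub_mem hg (neg_sub D.φ₁ _ ▸ neg_mem D.g₁.on)
  have θ1 : θ 1 = D.x - 1 := by
    rw [e, Pi.sub_apply, Pi.sub_apply, dt.gam_one hl, one_apply_one, D.lc.deg₁]; ring
  have o1 : ip D.L θ D.φ₁ = 0 := by have := ht.ab; rwa [ip_neg_right, neg_eq_zero] at this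
  have o2 : ip D.L θ D.φ₂ = 0 := by
    rw [e, ip_sub_left, ip_sub_left, c2, ip_eq_zero_comm.1 D.lc.o₂, D.lc.o₁₂]; simp
  have o3 : ip D.L θ D.φ₃ = 0 := by
    rw [e, ip_sub_left, ip_sub_left, c3, ip_eq_zero_comm.1 D.lc.o₃, D.lc.o₁₃]; simp
  obtain ⟨η, η', d, d', o, e'⟩ := exists_two (TT_VC D.cl ht.da.mem_VC) (by
    rw [ip_TT_TT D.cl hθ hθ, ht.da.ip_self, mul_one])
  have s0 : ip ⊤ (η + η') (one ⊤) = 0 := by
    rw [← e', ip_eq_zero_comm, ip_one_TT D.cl hθ.1, ip_eq_zero_comm, ht.oa]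
  have s : ∀ {φ}, Gd D.L φ → ip D.L θ φ = 0 → ip ⊤ η' (Th D.L D.a φ) = -ip ⊤ η (Th D.L D.a φ) :=
    fun hφ h => by
      rw [eq_neg_iff_add_eq_zero, add_comm, ← ip_add_left, ← e', ip_TT_Th D.cl hφ hθ, h, ht.oa]; simp
  have p := orth_of_add d d' (dIrr_one ⊤) o s0
  have p' := orth_of_add d' d (dIrr_one ⊤) (ip_eq_zero_comm.1 o) (by rwa [add_comm])
  have va : η D.a + η' D.a = 2 * (D.x - 1) := by
    rw [← θ1, ← TT_apply D.cl hθ ⟨one_mem _, by simp⟩, e', mul_one]; rfl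
  have x1 : (D.x : ℂ) - 1 ≠ 0 := by
    have := D.big
    exact_mod_cast (by omega : D.x - 1 ≠ 0)
  have v1 : η 1 + η' 1 = 0 := by rw [← TT_odd D.cl hθ (g := 1) (by simp), e']; rfl
  obtain ⟨r1, r2, r3⟩ : ip ⊤ η D.T₁ = 0 ∧ ip ⊤ η D.T₂ = 0 ∧ ip ⊤ η D.T₃ = 0 := by
    by_contra hh
    rw [D.val d p (by tauto), D.val d' p' (by
      rw [s D.g₁ o1, s D.g₂ o2, s D.g₃ o3]; simp only [ne_eq, neg_eq_zero]; tauto),
      s D.g₁ o1, s D.g₂ o2, s D.g₃ o3] at va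
    exact x1 (by linear_combination -va / 2)
  have vv : η D.a = η' D.a := by
    have h2 := D.cm_TT' hθ
    rw [Lam_dIrr D.bb.tX ht.da, hθ.2 D.t fun e => by
      have := e.2; rw [orderOf_inv' D.tO.t_ne D.tO.tt] at this; exact absurd this (by decide),
      e', map_add, cm_dIrr _ d, cm_dIrr _ d', eq_neg_of_add_eq_zero_right v1] at h2
    simp only [ne_eq, OfNat.ofNat_ne_zero, not_false_eq_true, zero_pow, zero_div, mul_zero, mul_eq_zero,
      pow_eq_zero_iff, D.m_ne, D.N_ne, false_or, div_neg, ← sub_eq_add_neg, ← sub_div, div_eq_zero_iff,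
      d.apply_one_ne_zero, or_false] at h2
    refine sub_eq_zero.1 ((mul_eq_zero.1 (?_ : _ * (2 * ((D.x : ℂ) - 1)) = 0)).resolve_right
      (mul_ne_zero two_ne_zero x1))
    rw [← va]; linear_combination h2
  refine ⟨η, η', ⟨d, p, by simp [r1], by simp [r2], by simp [r3]⟩,
    ⟨d', p', by simp [s D.g₁ o1, r1], by simp [s D.g₂ o2, r2], by simp [s D.g₃ o3, r3]⟩, o,
    by linear_combination va / 2 + vv / 2, by linear_combination va / 2 - vv / 2, v1, ?_⟩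
  rw [gm_sub hl, ← e', e, T₁, Th, TT_sub, TT_sub, TT_sub]
  abel

theorem gm_dec : ∃ ψ θ θ', D.Row ψ 1 0 0 ∧ D.Row θ 0 0 0 ∧ D.Row θ' 0 0 0 ∧ θ D.a = D.x - 1 ∧
    θ' D.a = D.x - 1 ∧ θ 1 + θ' 1 = 0 ∧ D.gm 1 l = one ⊤ - ψ + θ ∧ D.gm (-1) l = D.T₁ - ψ - θ' := by
  obtain ⟨η, η', r, r', o, v, v', v1, e⟩ := exists_eta hl h1
  have n1 : ip ⊤ (D.gm 1 l) (D.gm 1 l) = 3 := by
    have := ip_gm_gm hl (ε := 1) h1 (Or.inl rfl); push_cast at this; linear_combination this / 2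
  have n2 : ip ⊤ (D.gm (-1) l) (D.gm (-1) l) = 3 := by
    have := ip_gm_gm hl (ε := -1) h1 (Or.inr rfl); push_cast at this; linear_combination this / 2
  have n3 : ip ⊤ (D.gm 1 l) (D.gm (-1) l) = 0 := by
    have := ip_gm_gm hl (ε := 1) h1 (Or.inr rfl); push_cast at this; linear_combination this / 2
  have n4 : ip ⊤ (one ⊤) (D.gm 1 l) = 1 := by
    have := ip_one_gm hl (ε := 1) h1; push_cast at this; linear_combination this / 2
  have n5 : ip ⊤ (one ⊤) (D.gm (-1) l) = 0 := by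
    have := ip_one_gm hl (ε := -1) h1; push_cast at this; linear_combination this / 2
  have typ : ∀ {b}, DIrr ⊤ b → ip ⊤ (one ⊤) b = 0 → ip ⊤ b (D.gm 1 l) = 1 →
      ip ⊤ b (D.gm (-1) l) = 1 ∨
        ip ⊤ b (D.gm (-1) l) = 0 ∧ (b = η ∨ b = η' ∨ ip ⊤ (-b) D.T₁ = 1) := fun {b} d p q => by
    have h2 := congrArg (ip ⊤ b) e
    have h3 := ip_three (gm_VC hl (Or.inr rfl)) n2 d
    have f : ∀ z : ℂ, 1 - ip ⊤ b (D.gm (-1) l) = z → z = 1 ∨ z = 0 ∨ z = -1 →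
        ip ⊤ b (D.gm (-1) l) = 1 ∨ ip ⊤ b (D.gm (-1) l) = 0 ∧ z = 1 := fun z h4 h5 => by
      rcases h3 with h3 | h3 | h3 <;> rw [h3] at h4 ⊢ <;> rcases h5 with rfl | rfl | rfl <;>
        first | simp; done | norm_num at h4
    rw [ip_sub_right, q, ip_add_right, ip_add_right, ip_sub_right, ip_eq_zero_comm.1 p] at h2
    rcases d.ip_cases r.d with ⟨rfl, -⟩ | ⟨rfl, -⟩ | ⟨-, -, p1⟩
    · exact (f 1 (by simpa [r.e₁, r.d.ip_self, o] using h2) (by simp)).imp_right fun e => ⟨e.1, Or.inl rfl⟩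
    · exact (f (-1) (by simpa [ip_neg_left, r.e₁, r.d.ip_self, o] using h2) (by simp)).imp_right fun e =>
        absurd e.2 (by norm_num)
    rcases d.ip_cases r'.d with ⟨rfl, -⟩ | ⟨rfl, -⟩ | ⟨-, -, p2⟩
    · exact (f 1 (by simpa [r'.e₁, r'.d.ip_self, p1] using h2) (by simp)).imp_right fun e =>
        ⟨e.1, Or.inr (Or.inl rfl)⟩
    · exact (f (-1) (by simpa [ip_neg_left, r'.e₁, r'.d.ip_self, ip_eq_zero_comm.1 o] using h2)
        (by simp)).imp_right fun e => absurd e.2 (by norm_num)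
    refine (f (ip ⊤ (-b) D.T₁) (by simpa [ip_neg_left, p1, p2] using h2) ?_).imp_right fun e =>
      ⟨e.1, Or.inr (Or.inr e.2)⟩
    have := ip_three (Th_VC D.cl D.g₁) (Th_norm D.cl D.g₁) d.neg
    tauto
  have hb := D.big
  have hx := D.two_hc
  have key : ∀ {b c}, Dec ⊤ (D.gm 1 l) (one ⊤) b c → ip ⊤ (-b) D.T₁ = 1 → c = η ∨ c = η' →
      ∃ ψ θ θ', D.Row ψ 1 0 0 ∧ D.Row θ 0 0 0 ∧ D.Row θ' 0 0 0 ∧ θ D.a = D.x - 1 ∧ θ' D.a = D.x - 1 ∧
      θ 1 + θ' 1 = 0 ∧ D.gm 1 l = one ⊤ - ψ + θ ∧ D.gm (-1) l = D.T₁ - ψ - θ' := fun {b c} hd p q => by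
    have h2 : 1 + b D.a + (D.x - 1) = 0 := by
      rw [← gm_zero hl (ε := 1) D.cl.aa, hd.eq]
      rcases q with rfl | rfl <;> simp [one_top, v, v']
    have h3 : D.Row (-b) 1 0 0 := by
      rcases row_of hd.db.neg p with h | h | h
      · exact h
      all_goals exfalso; rw [Pi.neg_apply] at h
      · have : (D.h : ℂ) = 0 := by linear_combination h2 + h + hx
        exact D.h_ne this
      · have : ((D.x + 1 : ℤ) : ℂ) = 0 := by push_cast; linear_combination h2 + h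
        rw [Int.cast_eq_zero] at this; omega
    have h4 : D.gm 1 l = one ⊤ - -b + c := by rw [hd.eq]; abel
    rw [h4, sub_eq_iff_eq_add'] at e
    rcases q with rfl | rfl
    · exact ⟨-b, c, η', h3, r, r', v, v', v1, h4, by linear_combination (exp := 1) -e⟩
    · exact ⟨-b, c, η, h3, r', r, v', v, by rw [add_comm, v1], h4, by linear_combination (exp := 1) -e⟩
  obtain ⟨b, c, hd⟩ := exists_dec' (gm_VC hl (Or.inl rfl)) n1 (dIrr_one ⊤) n4
  have t1 := typ hd.db hd.ab hd.ip_b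
  have t2 := typ hd.dc hd.ac hd.ip_c
  rw [hd.eq, ip_add_left, ip_add_left, n5] at n3
  have h2 : 1 + b D.a + c D.a = 0 := by rw [← gm_zero hl (ε := 1) D.cl.aa, hd.eq]; simp [one_top]
  rcases t1 with t1 | ⟨t1, s1⟩ <;> rcases t2 with t2 | ⟨t2, s2⟩ <;> rw [t1, t2] at n3 <;> try norm_num at n3
  rw [← or_assoc] at s1 s2
  rcases s1 with s1 | s1 <;> rcases s2 with s2 | s2
  · have : ((2 * D.x - 1 : ℤ) : ℂ) = 0 := by
      rcases s1 with rfl | rfl <;> rcases s2 with s2 | s2 <;> simp only [s2, v, v'] at h2 <;> push_cast <;>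
        linear_combination h2
    rw [Int.cast_eq_zero] at this; omega
  · exact key hd.swap' s2 s1
  · exact key hd s1 s2
  · exfalso
    have f : ∀ {ψ}, DIrr ⊤ ψ → ip ⊤ ψ D.T₁ = 1 →
        ∃ k : ℤ, ψ D.a = k ∧ (k = D.x ∨ k = D.h - 1 ∨ k = -1) := fun d p => by
      rcases row_of d p with h | h | h
      exacts [⟨_, by simpa using h.val (by simp), Or.inl rfl⟩, ⟨_, by simpa using h, Or.inr (Or.inl rfl)⟩,
        ⟨_, by simpa using h, Or.inr (Or.inr rfl)⟩]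
    obtain ⟨k, k1, k2⟩ := f hd.db.neg s1
    obtain ⟨j, j1, j2⟩ := f hd.dc.neg s2
    rw [Pi.neg_apply] at k1 j1
    have : ((k + j - 1 : ℤ) : ℂ) = 0 := by push_cast; linear_combination -h2 - k1 - j1
    rw [Int.cast_eq_zero] at this
    have := D.two_h
    omega

end Dat

end CfsgAG.JC
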