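/-
Janko--Thompson character theory, part 6: induction from `⟨a⟩ × K`.
-/
import Cfsg.Agent.AG.JC5
import Cfsg.Agent.AG.B1

set_option autoImplicit false

namespace CfsgAG.JC

open Subgroup hiding one
open CfsgFT BW
open scoped ComplexConjugate Classical

variable {G : Type*} [Group G] [Finite G]

namespace Dat

variable (D : Dat G)

/-- `⟨a⟩ × K` -/
abbrev Kh : Subgroup G := D.K ⊔ zpowers D.a

/-- `O(K)` -/
abbrev Z : Subgroup G := Oc D.K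

theorem hatK : Hat D.K D.Kh D.a := D.hat_of D.tO.K_le

theorem Z_le : D.Z ≤ D.K := le_sup_left.trans D.tO.K_eq'.ge

theorem hatZ : Hat D.Z D.K D.t := by
  have := hat_sup (B := D.Z) (fun e => D.tO.t_ne (eq_one_of_odd_of_sq (odd_orderOf_of_mem (odd_oc _) e)
    D.tO.tt)) D.tO.tt fun b hb => D.tO.comm _ D.tO.t_mem b (D.Z_le hb)
  rwa [← D.tO.K_eq'] at this

theorem card_Z : #D.Z = D.m := by have := D.tO.card_oc; rw [D.hm] at this; exact Nat.eq_of_mul_eq_mul_left two_pos this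

theorem at_comm : D.a * D.t = D.t * D.a := D.comm_L D.bb.tX

theorem a_ne_t : D.a ≠ D.t := fun e => D.cl.a_not (e ▸ D.bb.tX)

theorem at_sq : D.a * D.t * (D.a * D.t) = 1 := (D.hatK.sq_mul (D.hatK.le D.tO.t_mem)).trans D.tO.tt

theorem at_ne : D.a * D.t ≠ 1 := fun e => D.hatK.not_mul D.tO.t_mem (e ▸ one_mem _)

theorem s_not : D.s ∉ D.Kh := fun e => D.tO.s_not (D.hatK.mem_of_le D.tO.K_le D.cl.a_not e D.tO.s_mem)

theorem Kh_comm : ∀ x ∈ D.Kh, ∀ y ∈ D.Kh, x * y = y * x := D.hatK.isComm D.tO.comm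

theorem Kh_inv : ∀ y ∈ D.Kh, D.s * y * D.s⁻¹ = y⁻¹ :=
  D.hatK.inv_of D.tO.inv (D.comm_L D.tO.s_mem).symm

theorem sq_Z : ∀ g ∈ D.Kh, g * g ∈ D.Z :=
  D.hatK.ind_on (fun _ hg => D.hatZ.sq_mem hg) fun _ hg => D.hatK.sq_mul (D.hatK.le hg) ▸ D.hatZ.sq_mem hg

theorem inv_Kh {v : G} (hv : v ∈ D.Kh) (h1 : v ≠ 1) (h2 : v * v = 1) :
    v = D.t ∨ v = D.a ∨ v = D.a * D.t := by
  rcases D.hatK.cov v hv with e | e
  · exact Or.inl ((D.bb.uniq e h2).resolve_left h1)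
  · refine Or.inr ((D.bb.uniq e ((D.hatK.sq_mul hv).trans h2)).imp (fun e => ?_) fun e => ?_) <;>
      rw [← D.hatK.aag v, e]
    rw [mul_one]

theorem cent_at {x : G} (ha : x * D.a = D.a * x) (ht : x * D.t = D.t * x) : x ∈ D.Kh ∨ x * D.s ∈ D.Kh := by
  have H := D.hatK
  rcases (hatL D.cl).cov x (mem_c1.2 ha) with e | e
  · exact (D.tO.cent x e ht).imp (fun e => H.le e) fun e => H.le e
  · exact (D.tO.cent _ e (by rw [mul_assoc, ht, ← mul_assoc, D.at_comm, mul_assoc])).imp H.mul_mem'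
      fun e => H.mul_mem' (by rwa [← mul_assoc])

theorem cent_of_norm {y : G} {k : ℕ} (h2 : y ^ 2 ^ k = 1) (hn : y ∈ 𝒩 (closure {D.a, D.t})) :
    y * D.a = D.a * y ∧ y * D.t = D.t * y := by
  obtain ⟨j, -, hj⟩ := (Nat.dvd_prime_pow Nat.prime_two).1 (orderOf_dvd_of_pow_eq_one h2)
  have := mem_cent_iff.1 (zpowers_le.1 (D.ag.cent_of_norm (IsPGroup.of_card ((Nat.card_zpowers y).trans hj))
    (two_of_sq (sq_four D.cl.aa D.tO.tt D.at_comm)) le_top le_top (zpowers_le.2 hn)))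
  exact ⟨this _ (subset_closure (by simp)), this _ (subset_closure (by simp))⟩

theorem Kh_ti {g x : G} (hg : g ∈ D.Kh) (h1 : g * g ≠ 1) (hx : x⁻¹ * g * x ∈ D.Kh) :
    x ∈ D.Kh ∨ x * D.s ∈ D.Kh ∨ x⁻¹ * D.t * x = D.a ∨ x⁻¹ * D.t * x = D.a * D.t := by
  have H := D.hatK
  have z1 : x⁻¹ * (g * g) * x ∈ D.Z := by convert D.sq_Z _ hx using 1; group
  have z2 : x⁻¹ * (g * g) * x ≠ 1 := fun e => h1 (by
    rwa [← inv_inv x, inv_inv x⁻¹, conj_eq_one_iff] at e)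
  have z3 := odd_orderOf_of_mem (odd_oc _) z1
  have key : ∀ v ∈ D.Kh, v ≠ 1 → v * v = 1 →
      x⁻¹ * v * x = D.t ∨ x⁻¹ * v * x = D.a ∨ x⁻¹ * v * x = D.a * D.t := fun v hv v1 v2 => by
    have c : x⁻¹ * v * x * (x⁻¹ * (g * g) * x) = x⁻¹ * (g * g) * x * (x⁻¹ * v * x) := by
      calc _ = x⁻¹ * (v * (g * g)) * x := by group
        _ = _ := by rw [D.Kh_comm v hv _ (mul_mem hg hg)]; group
    have s : x⁻¹ * v * x * (x⁻¹ * v * x) = 1 := by
      calc _ = x⁻¹ * (v * v) * x := by group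
        _ = _ := by rw [v2]; group
    obtain ⟨c1, c2⟩ := D.cent_of_norm (k := 1) (by rwa [pow_one, sq])
      (D.jl.cz _ (D.Z_le z1) z2 z3 (mem_c1.2 c))
    refine D.inv_Kh ((D.cent_at c1 c2).resolve_right fun e => z2 (eq_one_of_odd_of_sq z3 ?_))
      (fun e => v1 (by rwa [← inv_inv x, inv_inv x⁻¹, conj_eq_one_iff] at e)) s
    have h2 := D.Kh_comm _ e _ (H.le (D.Z_le z1))
    rw [← mul_assoc (x⁻¹ * (g * g) * x), ← c, mul_assoc, mul_assoc (x⁻¹ * v * x), mul_right_inj] at h2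
    rw [mul_eq_one_iff_eq_inv, ← D.tO.inv _ (D.Z_le z1), h2, mul_inv_cancel_right]
  rcases key _ (H.le D.tO.t_mem) D.tO.t_ne D.tO.tt with e | e
  swap
  · exact Or.inr (Or.inr e)
  have ht : x * D.t = D.t * x := by rw [← e, ← mul_assoc, ← mul_assoc, mul_inv_cancel, one_mul, e]
  rcases key _ H.mem D.cl.a_ne D.cl.aa with e' | e' | e'
  · exact (D.a_ne_t (mul_left_cancel (mul_right_cancel (e'.trans e.symm)))).elim
  · exact (D.cent_at (by rw [← e', ← mul_assoc, ← mul_assoc, mul_inv_cancel, one_mul, e']) ht).imp_right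
      Or.inl
  exfalso
  obtain ⟨k, n, ⟨j, rfl⟩, h⟩ := Nat.exists_eq_two_pow_mul_odd (orderOf_pos x).ne'
  have h3 : x ∈ 𝒩 (closure {D.a, D.t}) := inv_mem_iff.1 (CfsgL0.mem_normalizer_of_conj_mem fun y hy => by
    rw [inv_inv, mem_four D.cl.aa D.tO.tt D.at_comm]
    rcases (mem_four D.cl.aa D.tO.tt D.at_comm).1 hy with rfl | rfl | rfl | rfl
    · simp
    · simp [e']
    · simp [e]
    · rw [show x⁻¹ * (D.a * D.t) * x = x⁻¹ * D.a * x * (x⁻¹ * D.t * x) by group, e, e', mul_assoc, D.tO.tt]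
      simp)
  have h4 : Commute D.a (x ^ 2) := by
    have : D.a * x = x * (D.a * D.t) := by rw [← e']; group
    rw [Commute, SemiconjBy, sq, ← mul_assoc, this, mul_assoc, mul_assoc, ← ht, ← mul_assoc D.a, this,
      mul_assoc, mul_assoc, D.tO.tt, mul_one, mul_assoc]
  have h5 := (D.cent_of_norm (y := x ^ (2 * j + 1)) (k := k) (by
    rw [← pow_mul, mul_comm, ← h, pow_orderOf_eq_one]) (pow_mem h3 _)).1
  rw [pow_succ, pow_mul, ← mul_assoc, (h4.pow_right j).eq, mul_assoc, mul_assoc, mul_right_inj] at h5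
  rw [mul_assoc, ← h5, inv_mul_cancel_left, left_eq_mul] at e'
  exact D.tO.t_ne e'

theorem inv_val {ψ : G → ℂ} (hψ : ψ ∈ CF ⊤) {v : G} (h1 : v ≠ 1) (h2 : v * v = 1) : ψ v = ψ D.a := by
  obtain ⟨g, hg, rfl⟩ := D.cl.conj v trivial h1 h2
  exact hψ.2 g hg _

theorem val_sec {φ : G → ℂ} (hφ : Gd D.L φ) {c : ℂ} (hc : ∀ g ∈ D.K, g ≠ 1 → Odd (orderOf g) → φ g = c)
    {v u z : G} (v1 : v ≠ 1) (v2 : v * v = 1) (u1 : u ≠ 1) (u2 : u * u = 1) (uv : u ≠ v) (c1 : u * v = v * u)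
    (z1 : z ≠ 1) (z2 : Odd (orderOf z)) (c2 : z * v = v * z) (c3 : z * u = u * z) :
    Th D.L D.a φ (v * z) = 2 * c - 1 := by
  obtain ⟨g, -, rfl⟩ := D.cl.conj v trivial v1 v2
  obtain ⟨u, rfl⟩ := (MulAut.conj g).surjective u
  obtain ⟨z, rfl⟩ := (MulAut.conj g).surjective z
  simp only [MulAut.conj_apply, conj_mul, ne_eq, conj_eq_one_iff, mul_left_inj, mul_right_inj,
    orderOf_conj'] at *
  have H := hatL D.cl
  have hz := mem_of_odd D.cl (mem_c1.2 c2) z2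
  have key : ∀ j ∈ D.L, j ≠ 1 → j * j = 1 → z * j = j * z → φ z = c := fun j hj j1 j2 j3 => by
    obtain ⟨k, hk, rfl⟩ := D.tO.conj j hj j1 j2
    have o : Odd (orderOf (k⁻¹ * z * k⁻¹⁻¹)) := by rwa [orderOf_conj']
    rw [← (vc_mem_CF hφ.d.mem_VC).2 _ (inv_mem hk) z]
    refine hc _ (D.bb.dt.mem_of_odd ⟨D.L.mul_mem (D.L.mul_mem (D.L.inv_mem hk) hz) (D.L.inv_mem (D.L.inv_mem hk)),
      mem_c1.2 ?_⟩ fun e => Nat.not_even_iff_odd.2 o (even_iff_two_dvd.2 e)) (mt conj_eq_one_iff.1 z1) o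
    calc _ = k⁻¹ * (z * (k * D.t * k⁻¹)) * k := by group
      _ = _ := by rw [j3]; group
  have h : φ z = c := by
    rcases H.cov u (mem_c1.2 c1) with e | e
    · exact key u e u1 u2 c3
    · exact key _ e (fun e' => uv (by rw [← H.aag u, e', mul_one])) ((H.sq_mul (mem_c1.2 c1)).trans u2)
        (by rw [← mul_assoc, c2, mul_assoc, c3, mul_assoc])
  rw [(vc_mem_CF (Th_VC D.cl hφ)).2 g trivial, Th, Pi.add_apply, TT_apply D.cl hφ.on ⟨hz, z2⟩, Pi.sub_apply,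
    h, one_apply_of_mem hz, one_apply_of_mem (mem_top _)]
  ring

/-- the function on `⟨a⟩ × K` -/
noncomputable abbrev Fd (l : G → ℂ) : G → ℂ := ex D.a (-1) (ex D.t 1 (one D.Z - l))

/-- `δ` -/
noncomputable def dl (l : G → ℂ) : G → ℂ := ind ⊤ D.Kh (D.Fd l)

theorem Fd_a (l : G → ℂ) (g : G) : D.Fd l (D.a * g) = -D.Fd l g := by simp [ex, D.hatK.aag]

theorem Fd_t (l : G → ℂ) (g : G) : D.Fd l (D.t * g) = D.Fd l g := by
  have : D.a * (D.t * g) = D.t * (D.a * g) := by rw [← mul_assoc, D.at_comm, mul_assoc]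
  simp [ex, D.hatZ.aag, this]; ring

section dl

variable {D} {l : G → ℂ} (hl : l ∈ Lin D.Z)
include hl

theorem exZ_VC : ex D.t 1 (one D.Z - l) ∈ VC D.K := D.hatZ.ex_VC (lin_VC hl) (Or.inl rfl)

theorem Fd_VC : D.Fd l ∈ VC D.Kh := D.hatK.ex_VC (exZ_VC hl) (Or.inr rfl)

theorem dl_VC : D.dl l ∈ VC ⊤ := ind_mem_VC le_top (Fd_VC hl)

theorem Fd_zero {g : G} (hg : g * g = 1) : D.Fd l g = 0 :=
  D.hatK.ex_zero (vc_mem_CF (exZ_VC hl)) (fun _ e =>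
    D.hatZ.ex_zero (vc_mem_CF (lin_VC hl)) (lin_zero hl (odd_oc _)) _ e) _ hg

theorem dl_a : D.dl l D.a = 0 := ind_apply_of_sq (fun _ => Fd_zero hl) D.cl.aa

theorem ip_dl {ψ : G → ℂ} (hψ : ψ ∈ CF ⊤) :
    4 * ip ⊤ ψ (D.dl l) = ip D.Z (ex D.t 1 (ex D.a (-1) ψ)) (one D.Z - l) := by
  rw [dl, ip_ind_right le_top _ hψ, ← D.hatZ.ip_ex _ _ (vc_mem_CF (lin_VC hl)),
    ← D.hatK.ip_ex _ _ (vc_mem_CF (exZ_VC hl))]
  ring

theorem dl_norm (h1 : l ≠ one D.Z) : ip ⊤ (D.dl l) (D.dl l) = 3 := by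
  have c1 := vc_mem_CF (lin_VC hl)
  have c2 := vc_mem_CF (exZ_VC hl)
  obtain ⟨i1, i2⟩ := ip_lin hl h1 (odd_oc _)
  have h2 := D.hatK.ip_ex_ex (-1) (-1) c2 c2
  have h3 := D.hatK.ip_ex_ex (-1) (-1) c2 (star_mem_CF c2)
  have h4 := D.hatZ.ip_ex_ex 1 1 c1 c1
  have h5 := D.hatZ.ip_ex_ex 1 1 c1 (star_mem_CF c1)
  rw [dl, ip_dih D.Kh_comm D.s_not D.tO.ss D.Kh_inv (Fd_VC hl) fun x e1 e2 => ?_, star_ex]
  · rw [i1] at h4
    rw [i2, ← star_ex] at h5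
    push_cast at h2 h3 h4 h5
    linear_combination (h2 + h3 + h4 + h5) / 2
  by_cases e : x⁻¹ * D.t * x = D.a ∨ x⁻¹ * D.t * x = D.a * D.t
  · have h6 : ∀ g, D.Fd l (x⁻¹ * (D.t * g) * x) = -D.Fd l (x⁻¹ * g * x) := fun g => by
      rw [show x⁻¹ * (D.t * g) * x = x⁻¹ * D.t * x * (x⁻¹ * g * x) by group]
      rcases e with e | e <;> rw [e]
      · exact D.Fd_a l _
      · rw [mul_assoc, D.Fd_a, D.Fd_t]
    have h7 := sum_fs_mul_left (D.hatK.le D.tO.t_mem) fun g => D.Fd l g * conj (D.Fd l (x⁻¹ * g * x))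
    simp only [h6, D.Fd_t, map_neg, mul_neg, Finset.sum_neg_distrib] at h7
    rw [ip, self_eq_neg.1 h7.symm, mul_zero]
  · refine ip_eq_zero_of_disjoint fun g hg => ?_
    by_cases e' : g * g = 1
    · exact Or.inl (Fd_zero hl e')
    · exact Or.inr ((vc_mem_CF (Fd_VC hl)).1 _ fun e'' => by have := D.Kh_ti hg e' e''; tauto)

theorem ip_one_dl (h1 : l ≠ one D.Z) : ip ⊤ (one ⊤) (D.dl l) = 0 := by
  have := ip_dl hl (one_mem_CF ⊤)
  rw [ip_const' hl h1 (c := 0) fun y _ _ => by simp [ex, one_top]] at this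
  simpa using this

theorem ip_dl_Th (h1 : l ≠ one D.Z) {φ : G → ℂ} (hφ : Gd D.L φ) {c : ℂ}
    (hc : ∀ g ∈ D.K, g ≠ 1 → Odd (orderOf g) → φ g = c) : 2 * ip ⊤ (D.dl l) (Th D.L D.a φ) = 1 - c := by
  have := ip_dl hl (vc_mem_CF (Th_VC D.cl hφ))
  rw [ip_const' hl h1 (c := 2 - 2 * c) fun y hy y1 => ?_, ip_vc_comm (Th_VC D.cl hφ) (dl_VC hl)] at this
  · linear_combination this / 2
  have o := odd_orderOf_of_mem (odd_oc _) hy
  have c1 := (D.comm_L (D.tO.K_le (D.Z_le hy))).symm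
  have c2 := D.tO.comm _ (D.Z_le hy) _ D.tO.t_mem
  have h2 := D.val_sec hφ hc D.cl.a_ne D.cl.aa D.tO.t_ne D.tO.tt D.a_ne_t.symm D.at_comm.symm y1 o c1 c2
  have h3 := D.val_sec hφ hc D.tO.t_ne D.tO.tt D.cl.a_ne D.cl.aa D.a_ne_t D.at_comm y1 o c2 c1
  have h4 := D.val_sec hφ hc D.at_ne D.at_sq D.cl.a_ne D.cl.aa (fun e => D.tO.t_ne (left_eq_mul.1 e))
    (D.hatK.comm _ (D.hatK.mul_mem' (by rw [D.hatK.aag]; exact D.tO.t_mem))) y1 o
    (by rw [← mul_assoc, c1, mul_assoc, c2, mul_assoc]) c1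
  rw [mul_assoc] at h4
  simp only [ex, h2, h3, h4]
  rw [Th, Pi.add_apply, TT_odd D.cl hφ.on o, one_apply_of_mem (mem_top _)]
  push_cast; ring

theorem R7.ip_dl (h1 : l ≠ one D.Z) {α α' β : G → ℂ} (h : D.R7 α α' β) : ip ⊤ β (D.dl l) = 0 := by
  have n := dl_norm hl h1
  have s1 := ip_dl_Th hl h1 D.g₁ fun g hg g1 o => (D.lc.onK g hg g1 o).1
  have s2 := ip_dl_Th hl h1 D.g₂ fun g hg g1 o => (D.lc.onK g hg g1 o).2.1
  have s3 := ip_dl_Th hl h1 D.g₃ fun g hg g1 o => (D.lc.onK g hg g1 o).2.2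
  have f1 : ∀ {ε : ℤ} {b c d}, ε = 1 ∨ ε = -1 → D.Row b ε 0 0 → Dec ⊤ (D.dl l) b c d →
      ¬ (ip ⊤ d D.T₁ = 0 ∧ ip ⊤ d D.T₂ = 0 ∧ ip ⊤ d D.T₃ = 0) := by
    rintro ε b c d he r hd ⟨e1, e2, e3⟩
    rw [hd.eq, ip_add_left, ip_add_left] at s1 s2 s3
    rw [r.e₁, e1] at s1
    rw [r.e₂, e2] at s2
    rw [r.e₃, e3] at s3
    have t2 : ip ⊤ c D.T₂ = 1 := by push_cast at s2; linear_combination s2 / 2
    have t3 : ip ⊤ c D.T₃ = 1 := by push_cast at s3; linear_combination s3 / 2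
    rcases he with rfl | rfl
    · have t : ip ⊤ (-c) D.T₂ = -1 := by rw [ip_neg_left, t2]
      rcases h.row hd.db.neg (by rw [ip_neg_left]; push_cast at s1; linear_combination -s1 / 2) with
        e | e | e <;> rw [e] at t
      exacts [by rw [h.r.e₂] at t; norm_num at t, by rw [h.r'.e₂] at t; norm_num at t,
        by rw [h.r₀.e₂] at t; norm_num at t]
    · rcases h.row hd.db (by push_cast at s1; linear_combination s1 / 2) with rfl | rfl | rfl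
      exacts [by rw [h.r.e₃] at t3; norm_num at t3, by rw [h.r'.e₂] at t2; norm_num at t2,
        by rw [h.r₀.e₂] at t2; norm_num at t2]
  have f2 : ∀ {ε : ℤ} {b}, ε = 1 ∨ ε = -1 → D.Row b ε 0 0 → ip ⊤ b (D.dl l) ≠ 1 := fun {ε b} he r e => by
    obtain ⟨c, d, hd⟩ := exists_dec' (dl_VC hl) n r.d e
    obtain ⟨-, o2, o3⟩ := hd.orth (dIrr_one ⊤) (ip_one_dl hl h1)
    have v := dl_a hl
    have v1 := D.val hd.db (ip_eq_zero_comm.1 o2) (by have := f1 he r hd.swap'; tauto)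
    have v2 := D.val hd.dc (ip_eq_zero_comm.1 o3) (by have := f1 he r hd; tauto)
    rw [hd.eq, ip_add_left, ip_add_left] at s1 s2 s3
    rw [hd.eq, Pi.add_apply, Pi.add_apply, v1, v2, r.val (Or.inl (by omega))] at v
    rw [r.e₁] at s1
    rw [r.e₂] at s2
    rw [r.e₃] at s3
    push_cast at s2 s3 v
    exact D.h_ne (by linear_combination -v / 2 + D.x * s1 / 4 - D.h * (s2 + s3) / 4)
  rcases ip_three (dl_VC hl) n h.r₀.d with e | e | e
  · exact e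
  · exact (f2 (Or.inl rfl) h.r₀ e).elim
  · exact (f2 (Or.inr rfl) h.r₀.neg (by rw [ip_neg_left, e, neg_neg])).elim

end dl

end Dat

end CfsgAG.JC
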