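/-
Janko--Thompson character theory, part 7: the degrees.
-/
import Cfsg.Agent.AG.JC6
import Cfsg.Agent.AG.JC0

set_option autoImplicit false

namespace CfsgAG.JC

open Subgroup hiding one
open CfsgFT BW
open scoped ComplexConjugate Classical

universe u

variable {G : Type*} [Group G] [Finite G]

theorem eqN_of {N x y τ : ℤ} (hx : x ^ 2 - 1 ≠ 0) (hy : y = x - (x ^ 2 - 1) * τ)
    (h : N * (y - x) ^ 2 = x * (x - 1) * (x + 1) ^ 2 * (y * (y - 1))) :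
    N * τ ^ 2 = x * ((x + 1) * τ - 1) * ((x ^ 2 - 1) * τ - x) := by
  subst hy
  apply mul_left_cancel₀ (pow_ne_zero 2 hx)
  linear_combination h

namespace Dat

variable {D : Dat G}

theorem pair {l : G → ℂ} (hl : l ∈ Lin D.A) (h1 : l ≠ one D.A) : ∃ (ψ : G → ℂ) (y : ℤ), D.Row ψ 1 0 0 ∧
    ψ 1 = y ∧ (D.N : ℤ) * (y - D.x) ^ 2 = D.x * (D.x - 1) * (D.x + 1) ^ 2 * (y * (y - 1)) ∧
    (∀ ρ ρ', Dec ⊤ D.T₁ ψ ρ ρ' → ρ D.a * ρ' 1 = ρ' D.a * ρ 1) ∧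
    ∀ χ r₂ r₃, D.Row χ 1 r₂ r₃ → ip ⊤ χ (D.gm (-1) l) = 1 - ip ⊤ χ ψ := by
  obtain ⟨ψ, θ, θ', r, s, s', v, v', v1, e, e'⟩ := gm_dec hl h1
  obtain ⟨y, hy⟩ := vc_one r.d.mem_VC
  have va : ψ D.a = D.x := by simpa using r.val (by simp)
  have θ1 : θ 1 = y - 1 := by
    have := gm_zero hl (ε := 1) (mul_one 1)
    rw [e, Pi.add_apply, Pi.sub_apply, one_apply_one, hy] at this
    linear_combination this
  refine ⟨ψ, y, r, hy, ?_, fun ρ ρ' hd => ?_, fun χ r₂ r₃ h => ?_⟩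
  · have h2 := cm_gm hl (ε := 1) h1
    have h3 := hy ▸ r.d.apply_one_ne_zero
    have h4 := θ1 ▸ s.d.apply_one_ne_zero
    rw [e, map_add, map_sub, cm_one, cm_dIrr _ r.d, cm_dIrr _ s.d, va, v, hy, θ1] at h2
    field_simp at h2
    have : (D.N : ℂ) * (y - D.x) ^ 2 = D.x * (D.x - 1) * (D.x + 1) ^ 2 * (y * (y - 1)) := by
      push_cast at h2; linear_combination h2 / 2
    exact_mod_cast this
  · have h2 := cm_gm hl (ε := -1) h1
    have h3 := gm_zero hl (ε := -1) (mul_one 1)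
    have h4 := gm_zero hl (ε := -1) D.cl.aa
    have h5 : D.gm (-1) l = ρ + ρ' - θ' := by rw [e', hd.eq]; abel
    rw [h5, Pi.sub_apply, Pi.add_apply, sub_eq_zero] at h3 h4
    rw [h5, map_sub, map_add, cm_dIrr _ hd.db, cm_dIrr _ hd.dc, cm_dIrr _ s'.d, ← h3, ← h4] at h2
    have n1 := hd.db.apply_one_ne_zero
    have n2 := hd.dc.apply_one_ne_zero
    have n3 := h3 ▸ s'.d.apply_one_ne_zero
    simp only [Int.reduceNeg, Int.cast_neg, Int.cast_one, add_neg_cancel, zero_mul, mul_eq_zero,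
      OfNat.ofNat_ne_zero, D.N_ne, false_or] at h2
    field_simp at h2
    exact sub_eq_zero.1 (pow_eq_zero_iff two_ne_zero |>.1 (by linear_combination h2))
  · rw [e', ip_sub_right, ip_sub_right, h.e₁, h.orth s' (by simp) (by simp)]; simp

variable (D)

theorem exists_lin : ∃ l ∈ Lin D.A, l ≠ one D.A :=
  Finset.exists_mem_ne (by rw [D.dtA.card_Lin]; exact (one_lt_card_iff_ne_bot _).2 D.A_ne) _

theorem res_A {ψ : G → ℂ} (hψ : ψ ∈ VC ⊤) {c : ℂ}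
    (h : ∀ l ∈ Lin D.A, l ≠ one D.A → ip ⊤ ψ (D.gm (-1) l) = c) :
    ∃ k : ℤ, ψ 1 - ψ D.a = (D.x + 1) * D.e * (k - c) + 2 * c := by
  obtain ⟨k, hk⟩ := D.hatA.ip_int le_top hψ (dIrr_one D.A).mem_VC (Or.inr rfl)
  have h1 := apply_one_of_ip D.dtA.isComm (ex D.a (-1) ψ) (c := 2 * c) fun l hl h1 => by
    rw [← ip_gm hl (vc_mem_CF hψ), h l hl h1]
  have h5 : (#D.A : ℂ) = D.e * D.h := by exact_mod_cast D.card_A
  rw [hk, h5, ex, mul_one] at h1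
  exact ⟨k, by rw [← D.two_hc]; push_cast at h1; linear_combination h1⟩

theorem res_V {ψ : G → ℂ} (hψ : ψ ∈ VC ⊤) : ∃ k : ℤ, ψ 1 + 7 * ψ D.a = 8 * k := by
  have hV : closure {D.t, D.s} ≤ D.L := D.tO.V_le.trans inf_le_left
  have H := D.hat_of hV
  obtain ⟨k, hk⟩ := H.ip_int le_top hψ (dIrr_one _).mem_VC (Or.inl rfl)
  have h1 := apply_one_of_ip (B := closure {D.t, D.s})
    (le_centralizer_iff_isMulCommutative.1 (comm_of_sq D.tO.sq_V)) (ex D.a 1 ψ) (c := 2 * ψ D.a)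
    fun l hl h1 => ip_const' hl h1 fun y hy y1 => by
      rw [ex, D.inv_val (vc_mem_CF hψ) y1 (D.tO.sq_V y hy), D.inv_val (vc_mem_CF hψ)
        (fun e : D.a * y = 1 => H.not_mul hy (e ▸ one_mem _)) ((H.sq_mul (H.le hy)).trans (D.tO.sq_V y hy))]
      push_cast; ring
  rw [hk, D.tO.card_V, ex, mul_one] at h1
  exact ⟨k, by push_cast at h1; linear_combination h1⟩

theorem res_Z {ψ : G → ℂ} (hψ : ψ ∈ VC ⊤) (h : ∀ l ∈ Lin D.Z, l ≠ one D.Z → ip ⊤ ψ (D.dl l) = 0) :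
    ∃ k : ℤ, ψ 1 - ψ D.a = D.m * k := by
  obtain ⟨k, hk⟩ := D.hatK.ip_int le_top hψ (D.hatZ.ex_VC (dIrr_one _).mem_VC (Or.inl rfl)) (Or.inr rfl)
  have h1 := apply_one_of_ip (B := D.Z) (CfsgH2.isMulCommutative_iff.2 fun x hx y hy =>
    D.tO.comm x (D.Z_le hx) y (D.Z_le hy)) (ex D.t 1 (ex D.a (-1) ψ)) (c := 0) fun l hl h1 => by
      rw [← ip_dl hl (vc_mem_CF hψ), h l hl h1, mul_zero]
  rw [← D.hatZ.ip_ex _ _ (one_mem_CF _), hk, D.card_Z] at h1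
  simp only [ex, mul_one, D.inv_val (vc_mem_CF hψ) D.tO.t_ne D.tO.tt,
    D.inv_val (vc_mem_CF hψ) D.at_ne D.at_sq] at h1
  exact ⟨4 * k, by push_cast at h1 ⊢; linear_combination h1⟩

theorem x_sq : D.x ^ 2 - 1 ≠ 0 := by rcases D.big with h | h <;> nlinarith [h.1]

variable {D}

theorem R8.out {ω χ χ' : G → ℂ} (h : D.R8 ω χ χ') : ∃ τ, Out D.a D.x D.h τ := by
  have hx := D.two_hc
  have va : ω D.a = -1 := by rw [h.r₀.val (by simp)]; push_cast; linear_combination -hx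
  obtain ⟨k, hk⟩ := D.res_A h.r₀.d.mem_VC (c := 1) fun l hl h1 => by
    obtain ⟨ψ, -, r, -, -, -, e⟩ := pair hl h1
    rw [e ω 1 1 h.r₀, h.r₀.orth r (by simp) (by simp), sub_zero]
  have w1 : ω 1 = (-((D.x + 1) * (D.e * (1 - k)) - 1) : ℤ) := by
    push_cast; linear_combination hk + va
  obtain ⟨l, hl, h1⟩ := D.exists_lin
  obtain ⟨ψ, y, r, hy, e1, e2, -⟩ := pair hl h1
  have key : ∀ {ρ}, Dec ⊤ D.T₁ ψ ω ρ → D.Row ρ 1 0 0 → y = D.x - (D.x ^ 2 - 1) * (D.e * (1 - k)) :=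
    fun {ρ} hd s => by
      have h2 := e2 ω ρ hd
      have h3 := Th_one D.cl D.g₁
      rw [show Th D.L D.a D.φ₁ = _ from hd.eq, Pi.add_apply, Pi.add_apply, hy, w1] at h3
      rw [va, w1, s.val (by simp)] at h2
      have : (y : ℂ) = D.x - (D.x ^ 2 - 1) * (D.e * (1 - k)) := by
        push_cast at h2 h3; linear_combination h2 + h3
      exact_mod_cast this
  refine ⟨D.e * (1 - k), D.two_h, eqN_of D.x_sq ?_ e1, Or.inl ?_⟩
  · rcases h.row r.d (by simp [r.e₁]) with rfl | rfl | rfl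
    · simpa using h.r₀.uniq r
    · exact key h.dec.swap h.r'
    · exact key h.dec.swap'.swap h.r
  · obtain ⟨v, b, v0, b0, e3, e4⟩ := dec_T₂ h.r₀ (Or.inr rfl)
    generalize D.e * (1 - k) = τ at *
    rw [w1] at e3 e4
    refine ⟨ω, v, b, h.r₀.d, w1, v0, b0, ?_, ?_⟩
    · have : ((v + b : ℤ) : ℂ) = ((D.x + 1) * τ : ℤ) := by push_cast at e3 ⊢; linear_combination e3
      exact_mod_cast this
    · apply Rat.cast_injective (α := ℂ)
      rw [va] at e4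
      push_cast at e4 ⊢
      rw [← e4, div_neg]; ring

theorem R7.out {α α' β : G → ℂ} (h : D.R7 α α' β) : ∃ τ, Out D.a D.x D.h τ := by
  have hx := D.two_hc
  have va : α D.a = D.h - 1 := by rw [h.r.val (by simp)]; push_cast; linear_combination -hx
  have va' : α' D.a = D.h - 1 := by rw [h.r'.val (by simp)]; push_cast; linear_combination -hx
  have vb : β D.a = D.x := by simpa using h.r₀.val (by simp)
  have f : ∀ {ψ}, D.Row ψ 1 0 0 → ψ = β := fun r => by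
    rcases h.row r.d (by simp [r.e₁]) with rfl | rfl | rfl
    exacts [by simpa using h.r.uniq r, by simpa using h.r'.uniq r, rfl]
  obtain ⟨k₁, h₁⟩ := D.res_A h.r₀.d.mem_VC (c := 0) fun l hl h1 => by
    obtain ⟨ψ, -, r, -, -, -, e⟩ := pair hl h1
    rw [e β 0 0 h.r₀, f r, h.r₀.d.ip_self, sub_self]
  obtain ⟨k₂, h₂⟩ := D.res_V h.r₀.d.mem_VC
  obtain ⟨k₃, h₃⟩ := D.res_Z h.r₀.d.mem_VC fun l hl h1 => h.ip_dl hl h1
  obtain ⟨l, hl, h1⟩ := D.exists_lin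
  obtain ⟨ψ, y, r, hy, e1, e2, -⟩ := pair hl h1
  obtain rfl := f r
  rw [vb, hy] at h₁ h₂ h₃
  have d₁ : D.h ∣ y - D.x := ⟨2 * D.e * k₁, by
    have : (y - D.x : ℂ) = D.h * (2 * D.e * k₁) := by rw [h₁, ← hx]; ring
    exact_mod_cast this⟩
  have d₂ : 8 ∣ y - D.x := ⟨k₂ - D.x, by
    have : (y - D.x : ℂ) = 8 * (k₂ - D.x) := by linear_combination h₂
    exact_mod_cast this⟩
  have d₃ : (D.m : ℤ) ∣ y - D.x := ⟨k₃, by exact_mod_cast h₃⟩
  have c1 : IsCoprime (8 : ℤ) D.m := by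
    have : IsCoprime (2 : ℤ) D.m := by
      obtain ⟨j, hj⟩ := D.m_odd
      exact ⟨-j, 1, by rw [hj]; push_cast; ring⟩
    simpa using this.pow_left (m := 3)
  have c2 : IsCoprime (8 * D.m : ℤ) D.h := by
    have : IsCoprime (2 : ℤ) D.h := ⟨-(D.m * D.e), 1, by rw [D.hh]; ring⟩
    exact IsCoprime.mul_left (by simpa using this.pow_left (m := 3)) ⟨-(2 * D.e), 1, by rw [D.hh]; ring⟩
  obtain ⟨j, hj⟩ := c2.mul_dvd (c1.mul_dvd d₂ d₃) d₁
  have hτ : y = D.x - (D.x ^ 2 - 1) * (-(D.e * j)) := by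
    have h2 := D.hh
    have h3 := D.x_eq
    rw [h2] at hj
    rw [h3] at hj ⊢
    linear_combination hj - 8 * D.m * (2 * D.m * D.e + 1) * j * D.ee
  generalize -(D.e * j) = τ at hτ
  have n : (D.h : ℂ) - 1 ≠ 0 := by
    have := D.big
    exact_mod_cast (by omega : D.h - 1 ≠ 0)
  have w1 : α 1 = ((D.h - 1) * ((D.x + 1) * τ - 1) : ℤ) := by
    have h2 := e2 α α' h.dec.swap'.swap
    have h3 := Th_one D.cl D.g₁
    rw [show Th D.L D.a D.φ₁ = _ from h.dec.eq, Pi.add_apply, Pi.add_apply, hy, hτ] at h3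
    rw [va, va'] at h2
    rw [mul_left_cancel₀ n h2] at h3
    push_cast at h3 ⊢
    linear_combination h3 / 2 - ((D.x + 1) * τ - 1) * hx / 2
  refine ⟨τ, D.two_h, eqN_of D.x_sq hτ e1, Or.inr ?_⟩
  obtain ⟨v, b, v0, b0, e3, e4⟩ := dec_T₂ h.r (Or.inl rfl)
  rw [w1] at e3 e4
  refine ⟨α, v, b, h.r.d, w1, v0, b0, by exact_mod_cast e3, ?_⟩
  apply Rat.cast_injective (α := ℂ)
  rw [va] at e4
  push_cast at e4 ⊢
  rw [← e4, sq (D.h - 1 : ℂ), mul_div_mul_left _ _ n]; ring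

end Dat

theorem specJC_of (hF : SpecJF.{u}) : SpecJC.{u} := by
  intro G _ _ ag L a K t s cl tO e q p Q A w ls jl
  obtain ⟨φ₁, φ₂, φ₃, lc⟩ := specLC G L K t s tO e q p Q A w ls.toLS0
  obtain ⟨m, hm⟩ : 2 ∣ #K := by have := tO.mod; omega
  let D : Dat G := ⟨L, K, Q, A, a, t, s, w, e, e * q, 2 * m * e + 1, q, p, m, φ₁, φ₂, φ₃, ag, cl, tO,
    ls.toLS0, jl, lc, rfl, hm, rfl⟩
  obtain ⟨τ, h⟩ : ∃ τ, Out D.a D.x D.h τ := by
    rcases D.exists_rows with ⟨_, _, _, h⟩ | ⟨_, _, _, h⟩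
    exacts [h.out, h.out]
  exact hF G ag L a K t s cl tO e q p Q A w ls jl _ τ h

end CfsgAG.JC
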