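import Cfsg.Agent.AG.JF1
import Cfsg.Agent.AG.JC0
import Cfsg.Agent.AG.B1

/-! WP JF: the end of the Janko--Thompson character theory. -/

set_option autoImplicit false

namespace CfsgAG.JF

open Subgroup hiding one
open CfsgFT CfsgL0
open scoped commutatorElement

universe u

variable {G : Type*} [Group G] [Finite G]

theorem card_syl {p i : ℕ} [hp : Fact p.Prime] {P : Subgroup G} (hP : IsSylowOf p P ⊤) {M : ℤ}
    (h : (Nat.card G : ℤ) = p ^ i * M) (hM : ¬ (p : ℤ) ∣ M) : #P = p ^ i := by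
  have e : Nat.card G = p ^ i * M.natAbs := by
    have := congrArg Int.natAbs h
    rwa [Int.natAbs_mul, Int.natAbs_natCast, Int.natAbs_pow, Int.natAbs_natCast] at this
  have hM' : ¬ p ∣ M.natAbs := fun hh => hM (Int.natCast_dvd.2 hh)
  have h0 : M.natAbs ≠ 0 := fun e => hM' (e ▸ dvd_zero p)
  rw [hP.card_eq, card_top, e, Nat.factorization_mul (pow_ne_zero _ hp.out.ne_zero) h0,
    hp.out.factorization_pow, Finsupp.add_apply, Finsupp.single_eq_same,
    Nat.factorization_eq_zero_of_not_dvd hM', add_zero]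

/-- Brodkey's theorem -/
theorem brodkey {p : ℕ} [Fact p.Prime] (hs : Simp (⊤ : Subgroup G)) (ha : AG (⊤ : Subgroup G))
    {P : Subgroup G} (hP : IsSylowOf p P ⊤) : ∃ g, P ⊓ cj g P = ⊥ := by
  obtain ⟨g, hg⟩ : ∃ g : G, ∀ x : G, #(P ⊓ cj g P) ≤ #(P ⊓ cj x P) := by
    obtain ⟨g, -, hg⟩ := Set.exists_min_image Set.univ (fun x : G => #(P ⊓ cj x P))
      Set.finite_univ ⟨1, trivial⟩
    exact ⟨g, fun x => hg x trivial⟩
  set D := P ⊓ cj g P with hD
  have hQ : IsSylowOf p (cj g P) ⊤ := syl_cj hP (mem_top g)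
  have cN : ∀ {R : Subgroup G}, IsPGroup p R → D ≤ R → R ≤ 𝒩 D := fun hR hle =>
    le_normalizer_of_le_centralizer ((ha.comm hR le_top).trans (cent_anti hle))
  have key : ∀ x : G, D ≤ cj x P := by
    intro x
    obtain ⟨n, hn, hle⟩ := (hQ.mono (cN hQ.2.1 inf_le_right) le_top).exists_cj_le
      (Q := cj x P ⊓ 𝒩 D) ((isPGroup_cj x hP.2.1).to_le inf_le_left) inf_le_right
    have l1 : P ⊓ cj (n * x) P ≤ D := by
      refine le_inf inf_le_left fun y hy => hle ?_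
      rw [CfsgH2.mem_cj, mem_inf]
      refine ⟨?_, mul_mem (mul_mem (inv_mem hn) (cN hP.2.1 inf_le_left hy.1)) hn⟩
      have := mem_cj.1 hy.2
      rw [mem_cj]
      simpa [mul_assoc] using this
    have e := eq_of_le_of_card_ge l1 (hg _)
    have l2 : D ≤ cj n (cj x P) := by rw [cj_cj, ← e]; exact inf_le_right
    rw [le_cj_iff_cj_inv_le, cj_eq_of_mem_normalizer (inv_mem hn)] at l2
    exact l2
  have l3 : D ≤ P.normalCore := fun y hy b => by simpa using mem_cj.1 (key b⁻¹ hy)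
  have l4 : P.normalCore = ⊥ := hs.eq_bot_of_solvable le_top (normalizer_eq_top _).ge
    (CfsgH2.isSolvable_of_isPGroup (hP.2.1.to_le (normalCore_le P)))
  exact ⟨g, le_bot_iff.1 (l4 ▸ l3)⟩

theorem count {p : ℕ} [Fact p.Prime] {P : Subgroup G} (hP : IsSylowOf p P ⊤) (h0 : P ≠ ⊥) {g : G}
    (hg : P ⊓ cj g P = ⊥) : #P + 1 ≤ (𝒩 P).index ∧
      ((𝒩 P).index = #P + 1 → ∀ x, x ∉ 𝒩 P → P ⊓ cj x P = ⊥) := by
  let φ : Option P → G ⧸ 𝒩 P := fun o => o.elim ((1 : G) : G ⧸ 𝒩 P) fun y => ((y * g : G) : G ⧸ 𝒩 P)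
  have hgN : ∀ y : P, ((y : G) * g)⁻¹ * 1 ∉ 𝒩 P := fun y hy => h0 (by
    have : g ∈ 𝒩 P := by simpa using inv_mem (mul_mem hy (le_normalizer y.2))
    rwa [cj_eq_of_mem_normalizer this, inf_idem] at hg)
  have hφ : Function.Injective φ := by
    rintro (_ | y) (_ | z) e
    · rfl
    · exact absurd (QuotientGroup.eq.1 e.symm) (hgN z)
    · exact absurd (QuotientGroup.eq.1 e) (hgN y)
    · have e1 : ((y : G) * g)⁻¹ * (z * g) ∈ 𝒩 P := QuotientGroup.eq.1 e
      have m : (y : G)⁻¹ * z ∈ P := mul_mem (inv_mem y.2) z.2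
      have e2 : zpowers ((y : G)⁻¹ * z) ≤ cj g P := by
        refine IsSylowOf.le_of_le_normalizer (syl_cj hP (mem_top g))
          (hP.2.1.to_le (zpowers_le.2 m)) le_top (zpowers_le.2 ?_)
        rw [← cj_normalizer, mem_cj]
        simpa [mul_assoc] using e1
      have e3 : (y : G)⁻¹ * z = 1 := mem_bot.1 (hg ▸ ⟨m, e2 (mem_zpowers _)⟩)
      rw [Subtype.ext (inv_mul_eq_one.1 e3)]
  have c : Nat.card (Option P) = #P + 1 := Finite.card_option
  refine ⟨c ▸ Nat.card_le_card_of_injective φ hφ, fun e x hx => ?_⟩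
  obtain ⟨_ | y, hy⟩ := (hφ.bijective_of_nat_card_le (c ▸ e.le)).2 (x : G ⧸ 𝒩 P)
  · exact absurd (by simpa using QuotientGroup.eq.1 hy) hx
  · have m : ((y : G) * g)⁻¹ * x ∈ 𝒩 P := QuotientGroup.eq.1 hy
    have : cj x P = cj (y : G) (cj g P) := by
      rw [cj_cj, show x = (y : G) * g * (((y : G) * g)⁻¹ * x) by group, ← cj_cj,
        cj_eq_of_mem_normalizer m]
    rw [this]
    conv_lhs => enter [1]; rw [← cj_eq_of_mem y.2]
    rw [← cj_inf, hg, cj_eq_bot_iff]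

theorem index_mod {p : ℕ} [Fact p.Prime] {P : Subgroup G} (hP : IsSylowOf p P ⊤) :
    (𝒩 P).index ≡ 1 [MOD p] := by
  obtain ⟨Q, rfl⟩ := hP.exists_sylow_top
  have := card_sylow_modEq_one p G
  rwa [Q.card_eq_index_normalizer] at this

theorem irr_of {ω : G → ℂ} (h : DIrr ⊤ ω) {d : ℤ} (h1 : ω 1 = d) :
    ∃ χ ∈ Irr (⊤ : Subgroup G), (deg χ : ℤ) = |d| := by
  rcases h with h | h
  · have e : (deg ω : ℤ) = d := by exact_mod_cast (irr_one h).symm.trans h1
    exact ⟨ω, h, by rw [← e, Nat.abs_cast]⟩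
  · have e : (deg (-ω) : ℤ) = -d := by
      have := irr_one h
      rw [Pi.neg_apply, h1] at this
      exact_mod_cast this.symm
    exact ⟨-ω, h, by rw [← abs_neg, ← e, Nat.abs_cast]⟩

theorem ti_est {P : Subgroup G} (hc : P ≤ 𝒞 P) (h0 : P ≠ ⊥) (ti : ∀ x, x ∉ 𝒩 P → P ⊓ cj x P = ⊥)
    {χ : G → ℂ} (h : χ ∈ Irr (⊤ : Subgroup G)) :
    ((𝒩 P).index : ℝ) * (#P * deg χ - deg χ ^ 2) ≤ Nat.card G := by
  classical
  have hN : NTI (nz P) ⊤ (𝒩 P) := by
    obtain ⟨f, hf, hf1⟩ := P.bot_or_exists_ne_one.resolve_left h0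
    refine ⟨⟨f, hf, hf1⟩, le_top, fun g hg a ha => ⟨conj_mem_of_mem_norm hg ha.1,
      conj_ne_one ha.2⟩, fun g _ a ha hga => ?_⟩
    by_contra hg
    exact hga.2 (mem_bot.1 (ti g hg ▸ ⟨hga.1, conj_mem_cj g ha.1⟩))
  have s1 := hN.sum_cls (f := fun x => ‖χ x‖ ^ 2) fun g hg x => by rw [(irr_mem_CF h).2 g hg x]
  have s2 : ∑ x ∈ fs ((⊤ : Subgroup G) : Set G), ‖χ x‖ ^ 2 = Nat.card G := by
    have := nrm_irr h
    rw [nrm_eq_sum, card_top, inv_mul_eq_one₀ (by exact_mod_cast Nat.card_pos.ne')] at this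
    exact this.symm
  have s3 : ∑ x ∈ fs (cls (nz P) ⊤), ‖χ x‖ ^ 2 ≤ Nat.card G :=
    s2 ▸ Finset.sum_le_sum_of_subset_of_nonneg (fun x _ => by simp) fun _ _ _ => sq_nonneg _
  have s4 : ∑ x ∈ fs (P : Set G), ‖χ x‖ ^ 2 = ∑ x ∈ fs (nz P), ‖χ x‖ ^ 2 + deg χ ^ 2 := by
    have : fs (P : Set G) = insert 1 (fs (nz P)) := by
      ext x
      by_cases e : x = 1 <;> simp [e]
    rw [this, Finset.sum_insert (by simp), irr_one h, add_comm]
    simp
  have hr : res P χ ∈ Chr P := res_mem_Chr le_top (irr_mem_Chr h)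
  have s5 : (deg χ : ℝ) ≤ nrm P (res P χ) := by
    choose! c hcn using (mem_Chr_iff.1 hr).2
    have a1 : (deg χ : ℂ) = ∑ l ∈ Irr P, (c l : ℂ) := by
      rw [← irr_one h, ← res_apply_one P χ, congrFun (eq_sum_irr (chr_mem_CF hr)) 1,
        Finset.sum_apply]
      refine Finset.sum_congr rfl fun l hl => ?_
      have hl' : l ∈ Lin P := by rwa [← Irr_eq_Lin (isMulCommutative_iff_le.2 hc)]
      rw [Pi.smul_apply, hcn l hl, (mem_Lin.1 hl').2]
      simp
    have a2 : deg χ = ∑ l ∈ Irr P, c l := by exact_mod_cast a1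
    rw [nrm_eq_sum_irr (chr_mem_CF hr), a2]
    push_cast
    refine Finset.sum_le_sum fun l hl => ?_
    rw [hcn l hl, Complex.norm_natCast]
    exact_mod_cast Nat.le_self_pow two_ne_zero _
  have s6 : nrm P (res P χ) = (#P : ℝ)⁻¹ * ∑ x ∈ fs (P : Set G), ‖χ x‖ ^ 2 := by
    rw [nrm_eq_sum]
    congr 1
    exact Finset.sum_congr rfl fun x hx => by rw [res_apply_of_mem _ (mem_fs.1 hx)]
  rw [s6, le_inv_mul_iff₀ (card_pos_real P), s4] at s5
  rw [s1, relIndex_top_right] at s3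
  exact (mul_le_mul_of_nonneg_left (by linarith) (Nat.cast_nonneg _)).trans s3

theorem deg_lemma (hs : Simp (⊤ : Subgroup G)) {P A : Subgroup G} {a : G} (hc : P ≤ 𝒞 P)
    (hP : Odd #P) (hA : Odd #A) (ha : a * a = 1) (ha1 : a ≠ 1) (haP : a ∈ 𝒩 P) (hAP : A ≤ 𝒩 P)
    (haA : A ≤ 𝒞₁ a) (hr : SemiReg P A) {χ : G → ℂ} (h : χ ∈ Irr (⊤ : Subgroup G))
    (h1 : deg χ ≠ 1) (h2 : deg χ < 2 * #A) : P ≤ 𝒞₁ a := by
  by_contra hn
  set R := ⁅P, zpowers a⁆ with hR
  have R0 : R ≠ ⊥ := fun e => hn (by rw [← CfsgFT.centralizer_zpowers]; exact le_cent_iff_comm.2 e)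
  have lR : R ≤ P := commutator_le_left_of_le_normalizer (zpowers_le_norm haP)
  have iR := inv_of_mem_comm hc ha haP
  have nA : a ∈ 𝒩 A := le_normalizer_of_le_centralizer (le_centralizer_symm (K := zpowers a)
    (by rwa [CfsgFT.centralizer_zpowers])) (mem_zpowers a)
  have aA : a ∉ A := fun hh => ha1 (eq_one_of_odd_of_sq (odd_orderOf_of_mem hA hh) ha)
  have nR : A ⊔ zpowers a ≤ 𝒩 R := CfsgH2.le_normalizer_commutator
    (sup_le hAP (zpowers_le_norm haP)) (sup_le (le_normalizer_of_le_centralizer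
      (by rwa [CfsgFT.centralizer_zpowers])) le_normalizer)
  have reg : SemiReg R (A ⊔ zpowers a) := by
    intro y hy hy1
    rcases (mem_sup_zpowers nA ha).1 hy with m | m
    · exact le_bot_iff.1 ((inf_le_inf_right _ lR).trans (hr y m hy1).le)
    rw [eq_bot_iff]
    rintro z ⟨hz, hzy⟩
    have c1 : z * y = y * z := mem_c1.1 hzy
    have c2 : y * a * a = a * (y * a) := mem_c1.1 (haA m)
    by_cases e : y * a * (y * a) = 1
    · have e1 : y = a := by
        have := eq_one_of_odd_of_sq (odd_orderOf_of_mem hA m) e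
        rw [← inv_eq_self ha]; exact eq_inv_of_mul_eq_one_left this
      have c3 := iR z hz
      rw [← e1, ← c1, mul_inv_cancel_right] at c3
      exact eq_one_of_odd_of_sq (odd_orderOf_of_mem hP (lR hz)) (mul_eq_one_iff_eq_inv.2 c3)
    · have e2 : y * a * (y * a) = y * y := by
        rw [mul_assoc y a (y * a), ← c2, mul_assoc y a a, ha, mul_one]
      refine (hr _ (mul_mem m m) e).le ⟨lR hz, mem_c1.2 ?_⟩
      rw [e2, ← mul_assoc, c1, mul_assoc, c1, mul_assoc]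
  have dis : R ⊓ (A ⊔ zpowers a) = ⊥ := by
    rw [eq_bot_iff]
    intro y hy
    by_contra hy1
    exact hy1 ((reg y hy.2 hy1).le ⟨hy.1, mem_c1.2 rfl⟩)
  have fr : Frob R (A ⊔ zpowers a) (R ⊔ (A ⊔ zpowers a)) :=
    ⟨⟨dis, rfl, nR⟩, R0, fun e => ha1 (mem_bot.1 (e ▸ mem_sup_right (mem_zpowers a))), reg⟩
  have hk : cfker ⊤ χ = ⊥ := (hs.normal le_top (le_normalizer_cfker (irr_mem_CF h))).resolve_right
    fun e => h1 (by
      rw [(eq_one_iff_le_cfker h).2 e.ge]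
      exact deg_eq_of_apply (by simpa using one_apply_one (⊤ : Subgroup G)))
  have hrR : res R χ ∈ CF R := res_mem_CF le_top (irr_mem_CF h)
  obtain ⟨θ, hθ, hθ1, hip⟩ : ∃ θ ∈ Irr R, θ ≠ one R ∧ ip R χ θ ≠ 0 := by
    by_contra hh
    push Not at hh
    have e : res R χ = ip R χ (one R) • one R := by
      conv_lhs => rw [eq_sum_irr hrR]
      rw [Finset.sum_eq_single_of_mem _ (one_mem_Irr R) fun l hl hl1 => by
        rw [ip_res_left le_rfl, hh l hl hl1, zero_smul], ip_res_left le_rfl]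
    have e1 : χ 1 = ip R χ (one R) := by
      simpa [res_apply_one, one_apply_one] using congrFun e 1
    exact R0 (le_bot_iff.1 (hk ▸ (le_cfker_chr_iff le_top (irr_mem_Chr h)).2 (e1 ▸ e)))
  have hX : res (R ⊔ (A ⊔ zpowers a)) χ ∈ Chr _ := res_mem_Chr le_top (irr_mem_Chr h)
  have d1 := deg_le_of_constt hX (fr.ind_mem_Irr hθ hθ1) (by
    rwa [ip_ind_right le_sup_left _ (chr_mem_CF hX), ip_res_left le_sup_left])
  have d2 : deg (res (R ⊔ (A ⊔ zpowers a)) χ) = deg χ :=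
    deg_eq_of_apply (by rw [res_apply_one, irr_one h])
  have d3 : R.relIndex (R ⊔ (A ⊔ zpowers a)) = 2 * #A := by
    have := CfsgH1.card_mul_relIndex (le_sup_left : R ≤ R ⊔ (A ⊔ zpowers a))
    rw [sup_comm R, CfsgH2.card_sup_of_disjoint nR (inf_comm R _ ▸ dis), card_sup_zpowers nA ha aA,
      mul_comm _ #R] at this
    rw [sup_comm R]
    exact Nat.eq_of_mul_eq_mul_left Nat.card_pos this
  rw [deg_ind le_sup_left (irr_mem_Chr hθ), d2, d3] at d1
  have := irr_deg_pos hθ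
  nlinarith

theorem ti_arith {q d : ℝ} (hq : 11 ≤ q) (hd : d = q ^ 2 - q + 1 ∨ 2 * d = q ^ 3 + 1)
    (h : (q ^ 3 + 1) * (q ^ 3 * d - d ^ 2) ≤ (q ^ 3 + 1) * (q ^ 3 * (q - 1))) : False := by
  have h1 := le_of_mul_le_mul_left h (by positivity)
  obtain ⟨k, rfl⟩ : ∃ k, q = 11 + k := ⟨q - 11, by ring⟩
  have hk : 0 ≤ k := by linarith
  rcases hd with rfl | e
  · refine absurd h1 (not_le.2 ?_)
    rw [← sub_pos]; ring_nf; positivity
  · obtain rfl : d = ((11 + k) ^ 3 + 1) / 2 := by linarith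
    refine absurd h1 (not_le.2 ?_)
    rw [← sub_pos]; ring_nf; positivity

theorem ar1 {q : ℕ} (hq : 11 ≤ q) (h : q ^ 3 = q) : False := by
  nlinarith [Nat.pow_le_pow_left hq 2]

theorem ar2 {q M : ℤ} (qz : 11 ≤ q) (hM : M = q ^ 2 - q - 1 ∨ M = q ^ 2 + q + 1)
    (i3 : (q ^ 3 + 1) * (3 * (q - 1) * q ^ 3) ≤ q ^ 2 * M * (q * (q ^ 2 - 1))) : False := by
  have mq : M ≤ q ^ 2 + q + 1 := by rcases hM with c | c <;> rw [c] <;> linarith
  have i4 : q ^ 3 * (q - 1) * (3 * (q ^ 3 + 1)) ≤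
      q ^ 3 * (q - 1) * ((q ^ 2 + q + 1) * (q + 1)) := by
    have : q ^ 2 * M * (q * (q ^ 2 - 1)) ≤ q ^ 2 * (q ^ 2 + q + 1) * (q * (q ^ 2 - 1)) :=
      mul_le_mul_of_nonneg_right (mul_le_mul_of_nonneg_left mq (sq_nonneg _))
        (mul_nonneg (by linarith) (by nlinarith))
    linarith
  have i5 := le_of_mul_le_mul_left i4 (mul_pos (by positivity) (by linarith))
  nlinarith [mul_le_mul_of_nonneg_left qz (sq_nonneg q)]

theorem ar3 {q M i c : ℤ} (qz : 11 ≤ q) (hM : M = (-q) ^ 2 - -q - 1 ∨ M = (-q) ^ 2 + -q + 1)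
    (i3 : i * c = M * (q + 1)) (i4 : q ^ 3 + 1 ≤ i) (hc : 2 ≤ c) : False := by
  have mq : M ≤ q ^ 2 + q - 1 := by rcases hM with c | c <;> rw [c] <;> linarith
  have q3 : 0 < q ^ 3 := by positivity
  nlinarith [mul_le_mul i4 hc (by norm_num) (by linarith),
    mul_le_mul_of_nonneg_right mq (by linarith : (0 : ℤ) ≤ q + 1),
    mul_le_mul_of_nonneg_left qz (sq_nonneg q)]

theorem ar4 {q : ℤ} (qz : 11 ≤ q) : 0 ≤ -((-q + 1) * - -q - 1) := by nlinarith

theorem ar5 {q a r p : ℕ} (eq : q = 2 * a + 1) (d3 : a ≤ r - 1) (k1 : 1 < r) (d4 : r * p ≤ q)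
    (d5 : 3 ≤ p) : False := by
  have := Nat.mul_le_mul_left r d5
  omega

end CfsgAG.JF

namespace CfsgAG.JC

open Subgroup hiding one
open CfsgFT CfsgL0 CfsgAG.JF

universe u

set_option maxHeartbeats 1000000 in
theorem specJF : SpecJF.{u} := by
  intro G _ _ hag L a K t s hCL hTO e q p Q A w hLS hJL h τ hO
  haveI := Fact.mk hLS.prime
  have hp := hLS.prime
  have hs := hCL.simp
  obtain ⟨n, hn⟩ : ∃ n, q = p ^ n := by
    have : IsPGroup p Q := fun x => ⟨1, Subtype.ext (by simpa using hLS.elem.2 x x.2)⟩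
    obtain ⟨n, hn⟩ := this.exists_card_eq
    exact ⟨n, hLS.card_Q ▸ hn⟩
  have k6 := hTO.six
  have k4 := hTO.mod
  have hq := hLS.q_eq
  have hA := hLS.card_A
  have q11 : 11 ≤ q := by rcases hLS.sign with e1 | e1 <;> rw [e1] at hq <;> omega
  have qodd : q % 2 = 1 := by rcases hLS.sign with e1 | e1 <;> rw [e1] at hq <;> omega
  have n0 : 0 < n := Nat.pos_of_ne_zero fun e0 => by rw [e0, pow_zero] at hn; omega
  have p2 : ¬ (p : ℤ) ∣ 2 := fun hd => by
    have : p = 2 := (Nat.prime_dvd_prime_iff_eq hp Nat.prime_two).1 (by exact_mod_cast hd)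
    have : 2 ∣ q := by rw [hn, this]; exact dvd_pow_self 2 n0.ne'
    omega
  have hp' : Prime (p : ℤ) := Nat.prime_iff_prime_int.1 hp
  have pq : (p : ℤ) ∣ q := by rw [hn]; exact_mod_cast dvd_pow_self p n0.ne'
  have p1 : ∀ {b : ℤ}, (p : ℤ) ∣ b → ¬ (p : ℤ) ∣ b - 1 := fun ha hb =>
    hp'.not_dvd_one (by simpa using dvd_sub ha hb)
  have p1' : ∀ {b : ℤ}, (p : ℤ) ∣ b → ¬ (p : ℤ) ∣ b + 1 := fun ha hb =>
    hp'.not_dvd_one (by simpa using dvd_sub hb ha)
  have pm : ∀ {b c : ℤ}, ¬ (p : ℤ) ∣ b → ¬ (p : ℤ) ∣ c → ¬ (p : ℤ) ∣ b * c := fun hb hc hd =>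
    (hp'.dvd_or_dvd hd).elim hb hc
  have pq2 : ¬ (p : ℤ) ∣ q ^ 2 - 1 := p1 (pq.trans (dvd_pow_self _ two_ne_zero))
  have cC : (#(𝒞₁ a) : ℤ) = q * (q ^ 2 - 1) := by
    have e1 := hCL.cent_eq
    rw [top_inf_eq] at e1
    rw [e1, card_sup_zpowers hCL.a_norm hCL.aa hCL.a_not, hLS.card_X]
    push_cast [Nat.cast_sub (Nat.one_le_pow 2 q (by omega))]
    rfl
  set N : ℤ := ((𝒞₁ a).index : ℤ) with hN
  have cG : (Nat.card G : ℤ) = N * (q * (q ^ 2 - 1)) := by
    rw [← cC, hN]; exact_mod_cast (𝒞₁ a).index_mul_card.symm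
  have hNq : ((𝒞₁ a).index : ℚ) = (N : ℚ) := by simp [hN]
  have syl : ∀ {P : Subgroup G}, IsSylowOf p P ⊤ → ∀ {k : ℕ} {M : ℤ}, N = p ^ k * M →
      ¬ (p : ℤ) ∣ M → #P = p ^ (n + k) := fun hP k M e1 e2 =>
    card_syl hP (M := M * (q ^ 2 - 1)) (by rw [cG, e1, pow_add]; nth_rewrite 1 [hn]; push_cast; ring)
      (pm e2 pq2)
  have hqz : (q : ℤ) = p ^ n := by exact_mod_cast hn
  have eqN := hO.eqN
  have hh := hO.hh
  set x : ℤ := e * q with hx
  have xa : x.natAbs = p ^ n := by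
    rcases hLS.sign with e1 | e1 <;> simp [hx, e1, hn]
  have xx : x ^ 2 = (q : ℤ) ^ 2 := by
    rcases hLS.sign with e1 | e1 <;> simp [hx, e1]
  have px : (p : ℤ) ∣ x := pq.mul_left e
  have px2 : (p : ℤ) ∣ x ^ 2 := px.trans (dvd_pow_self _ two_ne_zero)
  have x11 : 11 ≤ |x| := by
    rcases hLS.sign with e1 | e1 <;> simp [hx, e1] <;> omega
  have x0 : x ≠ 0 := by rintro e0; rw [e0] at x11; simp at x11
  have x8 : x % 8 = 5 := by
    rcases hLS.sign with e1 | e1 <;> rw [hx, hq, e1] <;> omega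
  have pinj : ∀ {i j : ℕ}, p ^ i = p ^ j → i = j := fun hh => Nat.pow_right_injective hp.two_le hh
  have pos : e = 1 → ∀ {k : ℕ} {M : ℤ}, N = p ^ k * M → ¬ (p : ℤ) ∣ M → k = 0 ∨ k = 2 * n := by
    intro e1 k M e2 e3
    obtain ⟨P, hP, hc⟩ := hJL.pos e1
    rw [syl hP e2 e3, hn, ← pow_mul] at hc
    rcases hc with c | ⟨c, -⟩ <;> have := pinj c <;> omega
  -- the case `|P| = q³`
  have big : ∀ M : ℤ, N = x ^ 2 * M → ¬ (p : ℤ) ∣ M → (M = x ^ 2 - x - 1 ∨ M = x ^ 2 + x + 1 ∧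
      ∃ χ ∈ Irr (⊤ : Subgroup G), (e = -1 → (deg χ : ℤ) = q ^ 2 - q + 1 ∨
        2 * (deg χ : ℤ) = q ^ 3 + 1)) → False := by
    intro M e1 e2 hM
    have e3 : N = p ^ (2 * n) * M := by rw [e1, xx, hqz, ← pow_mul, mul_comm n]
    have c3 : ∀ {P : Subgroup G}, IsSylowOf p P ⊤ → #P = q ^ 3 := fun hP => by
      rw [syl hP e3 e2, hn, ← pow_mul]; congr 1; ring
    have cnt : ∀ {P : Subgroup G}, IsSylowOf p P ⊤ → P ≠ ⊥ ∧ q ^ 3 + 1 ≤ (𝒩 P).index ∧
        ((𝒩 P).index = q ^ 3 + 1 → ∀ x, x ∉ 𝒩 P → P ⊓ cj x P = ⊥) := fun {P} hP => by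
      have h0 : P ≠ ⊥ := fun e0 => by
        have := c3 hP
        rw [e0, card_bot] at this
        have : 11 ^ 3 ≤ q ^ 3 := Nat.pow_le_pow_left q11 3
        omega
      obtain ⟨g, hg⟩ := brodkey hs hag hP
      exact ⟨h0, c3 hP ▸ count hP h0 hg⟩
    have qz : (11 : ℤ) ≤ q := by exact_mod_cast q11
    rcases hLS.sign with e0 | e0
    · obtain ⟨P, hP, hc⟩ := hJL.pos e0
      obtain ⟨-, i1, -⟩ := cnt hP
      rcases hc with c | ⟨-, c⟩
      · exact ar1 q11 (c3 hP ▸ c)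
      have i2 : (q ^ 3 + 1) * (6 * #K * q ^ 3) ≤ Nat.card G :=
        (𝒩 P).index_mul_card ▸ Nat.mul_le_mul i1 (Nat.le_of_dvd Nat.card_pos c)
      have i3 : ((q : ℤ) ^ 3 + 1) * (6 * #K * q ^ 3) ≤ x ^ 2 * M * (q * (q ^ 2 - 1)) := by
        rw [← e1, ← cG]; exact_mod_cast i2
      have xq : x = q := by rw [hx, e0, one_mul]
      have kq : 6 * (#K : ℤ) = 3 * (q - 1) := by rw [e0] at hq; omega
      rw [kq, xq] at i3
      exact ar2 qz (xq ▸ hM.imp id And.left) i3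
    · obtain ⟨P, hP, -, haP, hAP, hr⟩ := hJL.neg e0
      obtain ⟨h0, i1, i2⟩ := cnt hP
      have xq : x = -q := by rw [hx, e0]; ring
      have lA : A ≤ L := hLS.ccA.le
      have cA : #(A ⊔ zpowers a) = q - 1 := by
        rw [card_sup_zpowers (le_normalizer_of_le_centralizer (zpowers_le.2
          (cent_anti lA hCL.a_cent)) (mem_zpowers a)) hCL.aa fun hh => hCL.a_not (lA hh)]
        rw [e0] at hq hA
        omega
      have nP : A ⊔ zpowers a ≤ 𝒩 P := sup_le hAP (zpowers_le.2 haP)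
      have d1 : (q - 1) * q ^ 3 ∣ #(𝒩 P) := by
        rw [← cA, ← c3 hP, ← CfsgH2.card_sup_of_disjoint nP (disjoint_iff.1
          (CfsgH2.disjoint_of_coprime_card (by
            rw [cA, c3 hP]
            exact Nat.Coprime.pow_right 3 ((Nat.coprime_self_sub_left (by omega)).2 (by simp)))))]
        exact card_dvd_of_le (sup_le nP le_normalizer)
      obtain ⟨c, hc⟩ := d1
      have c0 : 0 < c := Nat.pos_of_ne_zero fun e => by
        rw [e, mul_zero] at hc; exact Nat.card_pos.ne' hc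
      have i3 : ((𝒩 P).index : ℤ) * c = M * (q + 1) := by
        have a1 : ((𝒩 P).index : ℤ) * ((q - 1) * q ^ 3 * c) = x ^ 2 * M * (q * (q ^ 2 - 1)) := by
          have := (𝒩 P).index_mul_card
          rw [hc] at this
          rw [← e1, ← cG, ← this]
          push_cast [Nat.cast_sub (by omega : 1 ≤ q)]
          rfl
        apply mul_left_cancel₀ (a := ((q : ℤ) - 1) * q ^ 3) (mul_pos (by linarith) (by positivity)).ne'
        rw [xq] at a1
        linear_combination a1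
      have i4 : (q : ℤ) ^ 3 + 1 ≤ (𝒩 P).index := by exact_mod_cast i1
      have c1 : c = 1 := by
        by_contra hc1
        exact ar3 qz (xq ▸ hM.imp id And.left) i3 i4 (by exact_mod_cast (by omega : 2 ≤ c))
      rw [c1, Nat.cast_one, mul_one] at i3
      rcases hM with c | ⟨c, χ, hχ, hd⟩
      · have m := (Nat.modEq_iff_dvd.1 (index_mod hP))
        rw [i3, c, xq] at m
        refine p2 ?_
        have : (2 : ℤ) = (((1 : ℕ) : ℤ) - ((-q) ^ 2 - -q - 1) * (q + 1)) + q * (q ^ 2 + 2 * q) := by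
          push_cast; ring
        rw [this]
        exact dvd_add m (pq.mul_right _)
      · have i5 : (𝒩 P).index = q ^ 3 + 1 := by
          have : ((𝒩 P).index : ℤ) = q ^ 3 + 1 := by rw [i3, c, xq]; ring
          exact_mod_cast this
        have est := ti_est (hag.comm hP.2.1 le_top) h0 (i2 i5) hχ
        have cG' : (Nat.card G : ℝ) = (q ^ 3 + 1) * (q ^ 3 * (q - 1)) := by
          have : (Nat.card G : ℤ) = (q ^ 3 + 1) * (q ^ 3 * (q - 1)) := by
            rw [cG, e1, c, xq]; ring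
          exact_mod_cast this
        rw [cG', i5, c3 hP] at est
        push_cast at est
        refine ti_arith (by exact_mod_cast q11) ?_ est
        rcases hd e0 with d | d
        · left; exact_mod_cast d
        · right; exact_mod_cast d
  rcases tau_cases hp n0 xa eqN with e1 | e1 | e1 | e1 | ⟨k, k0, kn, M, e1, e2⟩
  · subst e1
    have eN : N = (x ^ 2 + x - 1) * (x ^ 2 - 2) :=
      mul_right_cancel₀ (pow_ne_zero 2 x0) (by linear_combination eqN)
    have eN' : ((𝒞₁ a).index : ℚ) = (x ^ 2 + x - 1) * (x ^ 2 - 2) := by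
      rw [hNq, eN]; push_cast; rfl
    rcases hO.row with ⟨-, y, y', -, -, r1, r2, r3, r4⟩ | ⟨-, v, b, -, -, r1, r2, r3, r4⟩
    · exact row8_x hh x8 x11 eN' r1 r2 r3 r4
    · exact row7_x hh x11 eN' r1 r2 r3 r4
  · subst e1
    refine big (x ^ 2 + x + 1) (mul_right_cancel₀ (pow_ne_zero 2 x0) (by linear_combination eqN))
      (p1' (dvd_add px2 px)) (Or.inr ⟨rfl, ?_⟩)
    have qz : (11 : ℤ) ≤ q := by exact_mod_cast q11
    rcases hO.row with ⟨ω, -, -, r1, r2, -⟩ | ⟨ω, -, -, r1, r2, -⟩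
    · obtain ⟨χ, hχ, hd⟩ := irr_of r1 r2
      refine ⟨χ, hχ, fun e0 => Or.inl ?_⟩
      have xq : x = -q := by rw [hx, e0]; ring
      rw [hd, xq, abs_of_nonneg (ar4 qz)]; ring
    · obtain ⟨χ, hχ, hd⟩ := irr_of r1 r2
      refine ⟨χ, hχ, fun e0 => Or.inr ?_⟩
      have xq : x = -q := by rw [hx, e0]; ring
      have : 2 * ((h - 1) * ((x + 1) * -x - 1)) = q ^ 3 + 1 := by
        rw [xq] at hh ⊢
        linear_combination ((-(q : ℤ) + 1) * - -q - 1) * hh
      have q3 : (0 : ℤ) < q ^ 3 := by positivity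
      rw [hd, abs_of_nonneg (by omega), this]
  · subst e1
    exact big (x ^ 2 - x - 1) (by linear_combination eqN) (p1 (dvd_sub px2 px)) (Or.inl rfl)
  · subst e1
    have eN : N = x * (x + 2) * (x ^ 2 + x - 1) := by linear_combination eqN
    have nd : ¬ (p : ℤ) ∣ e * ((x + 2) * (x ^ 2 + x - 1)) := by
      refine pm ?_ (pm (fun hd => p2 (by simpa using dvd_sub hd px)) (p1 (dvd_add px2 px)))
      rcases hLS.sign with e0 | e0 <;> simp [e0, hp'.not_dvd_one]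
    have eN2 : N = p ^ n * (e * ((x + 2) * (x ^ 2 + x - 1))) := by
      rw [eN, ← hqz]; nth_rewrite 1 [hx]; ring
    rcases hLS.sign with e0 | e0
    · have := pos e0 eN2 nd
      omega
    have xq : x = -q := by rw [hx, e0]; ring
    rcases hO.row with ⟨ω, -, -, r1, r2, -⟩ | ⟨-, v, b, -, -, r1, r2, r3, r4⟩
    · obtain ⟨χ, hχ, hd⟩ := irr_of r1 r2
      obtain ⟨P, hP, -, haP, hAP, hr⟩ := hJL.neg e0
      have cP := syl hP eN2 nd
      rw [xq, abs_of_nonpos (by omega)] at hd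
      rw [e0] at hq hA
      have le := deg_lemma hs (hag.comm hP.2.1 le_top) (by
        rw [cP, pow_add, ← hn]; exact (Nat.odd_iff.2 qodd).mul (Nat.odd_iff.2 qodd))
        (Nat.odd_iff.2 (by omega)) hCL.aa hCL.a_ne haP hAP
        (hLS.ccA.le.trans (hCL.L_le.trans inf_le_right)) hr hχ (by omega) (by omega)
      have d1 : (#P : ℤ) ∣ #(𝒞₁ a) := by exact_mod_cast card_dvd_of_le le
      rw [cC, cP, pow_add, ← hn] at d1
      push_cast at d1
      exact pq2 (pq.trans ((mul_dvd_mul_iff_left (by omega)).1 d1))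
    · exact row7_neg hh (by omega) (by rw [hNq, eN]; push_cast; rfl) r1 r2 r3 r4
  · rcases hLS.sign with e0 | e0
    · have := pos e0 e1 e2
      omega
    obtain ⟨P, hP, -, -, hAP, hr⟩ := hJL.neg e0
    have d1 := hr.card_dvd_pred hAP
    rw [syl hP e1 e2, pow_add, ← hn] at d1
    rw [e0] at hq hA
    have eq : q = 2 * #A + 1 := by omega
    have k1 : 1 < p ^ k := Nat.one_lt_pow k0.ne' hp.one_lt
    have d2 : #A ∣ p ^ k - 1 := by
      have : q * p ^ k - 1 = #A * (2 * p ^ k) + (p ^ k - 1) := by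
        rw [eq, add_mul, one_mul, Nat.add_sub_assoc k1.le]; ring
      rw [this] at d1
      exact (Nat.dvd_add_right (dvd_mul_right _ _)).1 d1
    have d3 := Nat.le_of_dvd (by omega) d2
    have d4 : p ^ k * p ≤ q := by
      rw [hn, ← pow_succ]; exact Nat.pow_le_pow_right hp.pos kn
    have d5 : 3 ≤ p := by
      have : p ≠ 2 := fun e => p2 (by simp [e])
      have := hp.two_le
      omega
    exact ar5 eq d3 k1 d4 d5

end CfsgAG.JC
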