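import Mathlib

/-! WP JF: the arithmetic. -/

set_option autoImplicit false

namespace CfsgAG.JF

theorem tau_cases {p n : ℕ} (hp : p.Prime) (hn : 0 < n) {x τ N : ℤ} (hx : x.natAbs = p ^ n)
    (h : N * τ ^ 2 = x * ((x + 1) * τ - 1) * ((x ^ 2 - 1) * τ - x)) :
    τ = x ∨ τ = -x ∨ τ = 1 ∨ τ = -1 ∨
      ∃ k, 0 < k ∧ k < n ∧ ∃ M : ℤ, N = p ^ k * M ∧ ¬ (p : ℤ) ∣ M := by
  have hp' : Prime (p : ℤ) := Nat.prime_iff_prime_int.1 hp
  have hx0 : x ≠ 0 := by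
    rintro rfl
    exact pow_ne_zero n hp.ne_zero hx.symm
  have px : (p : ℤ) ∣ x := Int.natCast_dvd.2 (hx ▸ dvd_pow_self p hn.ne')
  have p1 : ∀ {a : ℤ}, (p : ℤ) ∣ a → ¬ (p : ℤ) ∣ a - 1 := fun ha hb =>
    hp'.not_dvd_one (by simpa using dvd_sub ha hb)
  have c : IsCoprime τ ((x + 1) * τ - 1) := ⟨x + 1, -1, by ring⟩
  have d1 : τ ∣ ((x + 1) * τ - 1) * x ^ 2 :=
    ⟨x * ((x + 1) * τ - 1) * (x ^ 2 - 1) - N * τ, by linear_combination h⟩
  have d2 : τ.natAbs ∣ p ^ (2 * n) := by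
    have := Int.natAbs_dvd_natAbs.2 (c.dvd_of_dvd_mul_left d1)
    rwa [Int.natAbs_pow, hx, ← pow_mul, mul_comm] at this
  obtain ⟨j, -, hj⟩ := (Nat.dvd_prime_pow hp).1 d2
  rcases lt_trichotomy j n with hjn | hjn | hjn
  · rcases Nat.eq_zero_or_pos j with rfl | hj0
    · rcases Int.natAbs_eq τ with e | e <;> rw [hj] at e <;> simp [e]
    obtain ⟨u, hu⟩ : τ ∣ x := Int.natAbs_dvd_natAbs.1 (hj ▸ hx ▸ pow_dvd_pow p hjn.le)
    have hτ0 : τ ≠ 0 := by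
      rintro rfl
      exact hx0 (by simpa using hu)
    have hu' : u.natAbs = p ^ (n - j) := by
      have := congrArg Int.natAbs hu
      rw [Int.natAbs_mul, hx, hj, ← Nat.add_sub_cancel' hjn.le, pow_add] at this
      exact (Nat.eq_of_mul_eq_mul_left (pow_pos hp.pos j) this).symm
    have pτ : (p : ℤ) ∣ τ := Int.natCast_dvd.2 (hj ▸ dvd_pow_self p hj0.ne')
    have pu : (p : ℤ) ∣ u := Int.natCast_dvd.2 (hu' ▸ dvd_pow_self p (by omega))
    have e : N = u * (((x + 1) * τ - 1) * (x ^ 2 - u - 1)) := by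
      apply mul_right_cancel₀ (pow_ne_zero 2 hτ0)
      rw [h]
      nth_rewrite 1 [hu]
      have : (x ^ 2 - 1) * τ - x = τ * (x ^ 2 - u - 1) := by linear_combination -hu
      rw [this]; ring
    have nd : ¬ (p : ℤ) ∣ ((x + 1) * τ - 1) * (x ^ 2 - u - 1) := fun hd =>
      (hp'.dvd_or_dvd hd).elim (p1 (pτ.mul_left _))
        (p1 (dvd_sub (px.trans (dvd_pow_self x two_ne_zero)) pu))
    refine Or.inr (Or.inr (Or.inr (Or.inr ⟨n - j, by omega, by omega, ?_⟩)))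
    rcases Int.natAbs_eq u with e1 | e1 <;> rw [hu'] at e1
    · exact ⟨_, by rw [e]; nth_rewrite 1 [e1]; push_cast; rfl, nd⟩
    · exact ⟨-(((x + 1) * τ - 1) * (x ^ 2 - u - 1)), by rw [e]; nth_rewrite 1 [e1]; push_cast; ring,
        by rwa [dvd_neg]⟩
  · subst hjn
    rcases Int.natAbs_eq_natAbs_iff.1 (hj.trans hx.symm) with e | e
    exacts [Or.inl e, Or.inr (Or.inl e)]
  · exfalso
    obtain ⟨u, hu⟩ : x ∣ τ := Int.natAbs_dvd_natAbs.1 (hj ▸ hx ▸ pow_dvd_pow p hjn.le)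
    have hu' : u.natAbs = p ^ (j - n) := by
      have := congrArg Int.natAbs hu
      rw [Int.natAbs_mul, hx, hj, ← Nat.add_sub_cancel' hjn.le, pow_add] at this
      exact (Nat.eq_of_mul_eq_mul_left (pow_pos hp.pos n) this).symm
    have pu : (p : ℤ) ∣ u := Int.natCast_dvd.2 (hu' ▸ dvd_pow_self p (by omega))
    have e : N * u ^ 2 = ((x + 1) * τ - 1) * ((x ^ 2 - 1) * u - 1) := by
      apply mul_right_cancel₀ (pow_ne_zero 2 hx0)
      have : (x ^ 2 - 1) * τ - x = x * ((x ^ 2 - 1) * u - 1) := by rw [hu]; ring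
      rw [this] at h
      calc N * u ^ 2 * x ^ 2 = N * τ ^ 2 := by rw [hu]; ring
        _ = _ := by rw [h]; ring
    have hd : (p : ℤ) ∣ ((x + 1) * τ - 1) * ((x ^ 2 - 1) * u - 1) :=
      e ▸ (pu.trans (dvd_pow_self u two_ne_zero)).mul_left _
    exact (hp'.dvd_or_dvd hd).elim (p1 ((hu ▸ pu.mul_left x).mul_left _)) (p1 (pu.mul_left _))

theorem amgm {N W v b : ℚ} (hv : v ≠ 0) (hb : b ≠ 0) (h0 : 0 < N) (h1 : N < W) (h2 : W < 9 * N)
    (e : N * ((4 * b + v) * (v + b)) = W * (v * b)) : False := by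
  rcases lt_or_gt_of_ne (mul_ne_zero hv hb) with h | h
  · nlinarith [mul_nonneg h0.le (sq_nonneg (v + 2 * b)), mul_pos (sub_pos.2 h1) (neg_pos.2 h)]
  · nlinarith [mul_nonneg h0.le (sq_nonneg (v - 2 * b)), mul_pos (sub_pos.2 h2) h]

theorem row8_x {x h y y' : ℤ} {N : ℚ} (hh : 2 * h = x + 1) (h8 : x % 8 = 5) (hx : 11 ≤ |x|)
    (hN : N = (x ^ 2 + x - 1) * (x ^ 2 - 2)) (hy : y ≠ 0) (hy' : y' ≠ 0) (hs : y + y' = (x + 1) * x)
    (e : N * (-1 - 1 / ((x + 1) * x - 1) + h ^ 2 / y + h ^ 2 / y') =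
      -(x ^ 2 * (x + 1) * (x + 3))) : False := by
  have hx' : x ≤ -11 ∨ 11 ≤ x := by rcases abs_cases x with a | a <;> omega
  have hD : (x + 1) * x - 1 ≠ 0 := by rcases hx' with a | a <;> nlinarith
  have hDq : ((x : ℚ) + 1) * x - 1 ≠ 0 := by exact_mod_cast hD
  have hyq : (y : ℚ) ≠ 0 := by exact_mod_cast hy
  have hyq' : (y' : ℚ) ≠ 0 := by exact_mod_cast hy'
  have e1 : N * (-1 - 1 / ((x + 1) * x - 1) + h ^ 2 / y + h ^ 2 / y') =
      -N - (x ^ 2 - 2) + N * h ^ 2 * (y + y') / (y * y') := by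
    have a : N * (1 / ((x + 1) * x - 1)) = x ^ 2 - 2 := by
      rw [mul_one_div, div_eq_iff hDq, hN]; ring
    have b : (h : ℚ) ^ 2 / y + h ^ 2 / y' = h ^ 2 * (y + y') / (y * y') := by field_simp; ring
    linear_combination -a + N * b
  have e2 : N * h ^ 2 * (y + y') = (N + (x ^ 2 - 2) - x ^ 2 * (x + 1) * (x + 3)) * (y * y') := by
    rw [← div_eq_iff (mul_ne_zero hyq hyq')]; linear_combination e - e1
  rw [hN] at e2
  have e3 : (x ^ 2 + x - 1) * (x ^ 2 - 2) * h ^ 2 * (y + y') =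
      ((x ^ 2 + x - 1) * (x ^ 2 - 2) + (x ^ 2 - 2) - x ^ 2 * (x + 1) * (x + 3)) * (y * y') := by
    exact_mod_cast e2
  have hxx : (x + 1) * x ≠ 0 := mul_ne_zero (by omega) (by omega)
  have e4 : (x ^ 2 + x - 1) * (x ^ 2 - 2) * h ^ 2 = -(3 * x + 2) * (y * y') := by
    apply mul_right_cancel₀ hxx
    rw [hs] at e3
    linear_combination e3
  obtain ⟨z, hz⟩ : ∃ z, z = 3 * x + 2 := ⟨_, rfl⟩
  have e5 : (z * (z - 1) - 11) * (z * (z - 4) - 14) * (z + 1) ^ 2 = -z * (2916 * (y * y')) := by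
    have a : z + 1 = 6 * h := by omega
    rw [a, hz]
    linear_combination 2916 * e4
  have d : z ∣ 154 := ⟨-(2916 * (y * y')) -
      (z ^ 5 - 3 * z ^ 4 - 30 * z ^ 3 + 11 * z ^ 2 + 249 * z + 366), by linear_combination e5⟩
  have b := Int.le_of_dvd (by norm_num) ((abs_dvd _ _).2 d)
  have b1 : -154 ≤ z ∧ z ≤ 154 := abs_le.1 b
  have b2 : -52 ≤ x := by omega
  have b3 : x ≤ 50 := by omega
  subst hz
  interval_cases x <;> omega

theorem row7 {h D v b : ℤ} {N W R S : ℚ} (hv : v ≠ 0) (hb : b ≠ 0) (hD : D ≠ 0) (hh : h ≠ 0)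
    (hs : (h - 1) * D + v + b = 1) (hR : N = R * D)
    (e : N * (-1 + (h - 1) / D + 4 * h ^ 2 / v + h ^ 2 / b) = S)
    (hW : (N - (h - 1) * R + S) * (1 - (h - 1) * D) = h ^ 2 * W)
    (h0 : 0 < N) (h1 : N < W) (h2 : W < 9 * N) : False := by
  have hDq : (D : ℚ) ≠ 0 := by exact_mod_cast hD
  have hvq : (v : ℚ) ≠ 0 := by exact_mod_cast hv
  have hbq : (b : ℚ) ≠ 0 := by exact_mod_cast hb
  have hhq : (h : ℚ) ≠ 0 := by exact_mod_cast hh
  have hsq : ((h : ℚ) - 1) * D + v + b = 1 := by exact_mod_cast hs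
  have e1 : N * (-1 + (h - 1) / D + 4 * h ^ 2 / v + h ^ 2 / b) =
      -N + (h - 1) * R + N * h ^ 2 * (4 * b + v) / (v * b) := by
    rw [hR]; field_simp; ring
  have e2 : N * h ^ 2 * (4 * b + v) = (N - (h - 1) * R + S) * (v * b) := by
    rw [← div_eq_iff (mul_ne_zero hvq hbq)]; linear_combination e - e1
  refine amgm hvq hbq h0 h1 h2 (mul_left_cancel₀ (pow_ne_zero 2 hhq) ?_)
  have : (v : ℚ) + b = 1 - (h - 1) * D := by linear_combination hsq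
  rw [this]
  linear_combination (1 - (h - 1) * D) * e2 + (v * b) * hW

theorem row7_x {x h v b : ℤ} {N : ℚ} (hh : 2 * h = x + 1) (hx : 11 ≤ |x|)
    (hN : N = (x ^ 2 + x - 1) * (x ^ 2 - 2)) (hv : v ≠ 0) (hb : b ≠ 0)
    (hs : (h - 1) * ((x + 1) * x - 1) + v + b = 1)
    (e : N * (-1 + (h - 1) / ((x + 1) * x - 1) + 4 * h ^ 2 / v + h ^ 2 / b) =
      -(x ^ 2 * (x + 1) * (x + 3))) : False := by
  have hx' : x ≤ -11 ∨ 11 ≤ x := by rcases abs_cases x with a | a <;> omega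
  have hD : (x + 1) * x - 1 ≠ 0 := by rcases hx' with a | a <;> nlinarith
  have hq : (x : ℚ) = 2 * h - 1 := by
    have : x = 2 * h - 1 := by omega
    exact_mod_cast this
  have hx2 : (x : ℚ) ≤ -11 ∨ (11 : ℚ) ≤ x := by exact_mod_cast hx'
  have s1 : (121 : ℚ) ≤ x ^ 2 := by rcases hx2 with a | a <;> nlinarith
  have s2 : 11 * (x : ℚ) ≤ x ^ 2 := by rcases hx2 with a | a <;> nlinarith
  have s3 : -(11 * (x : ℚ)) ≤ x ^ 2 := by rcases hx2 with a | a <;> nlinarith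
  refine row7 (N := N) (S := -(x ^ 2 * (x + 1) * (x + 3))) (R := x ^ 2 - 2) 
    (W := (7 * x ^ 2 + 4 * x - 2) * (x ^ 2 - x - 1)) hv hb hD
    (by omega) hs (by rw [hN]; push_cast; ring) (by push_cast at e ⊢; exact e) ?_ ?_ ?_ ?_
  · rw [hN]; push_cast; rw [hq]; ring
  · rw [hN]; exact mul_pos (by linarith) (by linarith)
  · rw [hN]; nlinarith [mul_le_mul_of_nonneg_right s2 (sq_nonneg (x : ℚ)),
      mul_le_mul_of_nonneg_right s1 (sq_nonneg (x : ℚ))]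
  · rw [hN]; nlinarith [mul_le_mul_of_nonneg_right s3 (sq_nonneg (x : ℚ)),
      mul_le_mul_of_nonneg_right s1 (sq_nonneg (x : ℚ))]

theorem row7_neg {x h v b : ℤ} {N : ℚ} (hh : 2 * h = x + 1) (hx : x ≤ -11)
    (hN : N = x * (x + 2) * (x ^ 2 + x - 1)) (hv : v ≠ 0) (hb : b ≠ 0)
    (hs : (h - 1) * ((x + 1) * (-1) - 1) + v + b = 1)
    (e : N * (-1 + (h - 1) / ((x + 1) * (-1 : ℤ) - 1) + 4 * h ^ 2 / v + h ^ 2 / b) =
      -(x ^ 2 * (x + 1) * (x + 3))) : False := by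
  have hq : (x : ℚ) = 2 * h - 1 := by
    have : x = 2 * h - 1 := by omega
    exact_mod_cast this
  have hx2 : (x : ℚ) ≤ -11 := by exact_mod_cast hx
  obtain ⟨k, hk, hk0⟩ : ∃ k : ℚ, (x : ℚ) = -11 - k ∧ 0 ≤ k := ⟨-11 - x, by ring, by linarith⟩
  refine row7 (N := N) (S := -(x ^ 2 * (x + 1) * (x + 3))) (R := -(x * (x ^ 2 + x - 1))) 
    (W := x ^ 2 * (x ^ 2 - 3 * x - 3)) hv hb
    (by omega) (by omega) hs (by rw [hN]; push_cast; ring) (by push_cast at e ⊢; exact e) ?_ ?_ ?_ ?_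
  · rw [hN]; push_cast; rw [hq]; ring
  · rw [hN, hk]; ring_nf; positivity
  · rw [hN, hk, ← sub_pos]; ring_nf; positivity
  · rw [hN, hk, ← sub_pos]; ring_nf; positivity

end CfsgAG.JF
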